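import Mathlib
import Cfsg.Agent.Isaacs.Prim
import Cfsg.Agent.Core.SylowOf
import Cfsg.Agent.Core.Coprime2

/-! The average size of fixed point spaces on a chief factor of a solvable group. -/

set_option autoImplicit false

open scoped commutatorElement

namespace Cfsg.Agent.Isaacs

open Cfsg Cfsg.Agent.Char Cfsg.Agent.Core Subgroup

variable {G : Type*} [Group G] [Finite G] {R V : Subgroup G} {x : G}

theorem card_mul_le_of_disjoint {A B U : Subgroup G} (hA : A ≤ U) (hB : B ≤ U) (h : Disjoint A B) :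
    Nat.card A * Nat.card B ≤ Nat.card U := by
  rw [← Nat.card_prod]
  exact Nat.card_le_card_of_injective (fun a : A × B => (⟨a.1 * a.2, U.mul_mem (hA a.1.2) (hB a.2.2)⟩ : U))
    fun a b e => mul_injective_of_disjoint h (congrArg Subtype.val e)

theorem prod_fix_le [Fintype R] (hR : x ∈ normalizer (R : Set G)) (V : Subgroup G) : IsMulCommutative V →
    (Nat.card R).Coprime (Nat.card V) → R ≤ normalizer (V : Set G) → x ∈ normalizer (V : Set G) →
    ⁅R, R⁆ ≤ centralizer (V : Set G) → V ⊓ centralizer (R : Set G) = ⊥ →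
    (∏ n : R, Nat.card (V ⊓ centralizer {n * x} : Subgroup G)) ^ 2 ≤ Nat.card V ^ Nat.card R := by
  induction V using WellFoundedLT.induction with | _ V ih
  intro ab co nR nx cm fx
  rcases eq_or_ne V ⊥ with rfl | V0
  · simp
  obtain ⟨B, ⟨hB, B0⟩, hm⟩ := Set.Finite.exists_maximal
    (s := {B : Subgroup G | B ≤ R ∧ V ⊓ centralizer (B : Set G) ≠ ⊥}) (Set.toFinite _)
    ⟨⊥, bot_le, by rwa [inf_eq_left.2 (le_centralizer_iff.1 bot_le)]⟩
  have mx : ∀ C, C ≤ R → ¬ C ≤ B → V ⊓ centralizer (B : Set G) ⊓ centralizer (C : Set G) = ⊥ := fun C h1 h2 =>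
    by_contra fun h3 => h2 (le_sup_right.trans (hm ⟨sup_le hB h1, fun e => h3 (eq_bot_iff.2 (le_of_le_of_eq
      (le_inf (inf_le_left.trans inf_le_left) (le_centralizer_iff.1 (sup_le (le_centralizer_iff.1
        (inf_le_left.trans inf_le_right)) (le_centralizer_iff.1 inf_le_right)))) e))⟩ le_sup_left))
  have nB : R ≤ normalizer (B : Set G) := norm_of_comm_le hB (by_contra fun h => B0 (by
    rw [← mx _ (commutator_le_self R) h, eq_comm, inf_eq_left]
    exact inf_le_left.trans (le_centralizer_iff.1 cm)))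
  obtain ⟨U, hU⟩ : ∃ U, U = V ⊓ centralizer (B : Set G) := ⟨_, rfl⟩
  obtain ⟨W, hW⟩ : ∃ W, W = ⁅V, B⁆ := ⟨_, rfl⟩
  have coB := coprime_of_le_left co hB
  have sV : Group.IsSolvable V := solvable_of_isMulCommutative
  have WV : W ≤ V := hW ▸ commutator_le_of_le_normalizer (hB.trans nR)
  have UV : U ≤ V := hU ▸ inf_le_left
  have d : U ⊓ W = ⊥ := hU ▸ hW ▸ centralizer_inf_commutator_eq_bot B V ab (hB.trans nR) coB
  have s : W ⊔ U = V := hU ▸ hW ▸ commutator_sup_centralizer B V (hB.trans nR) coB (.inr sV)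
  have nn : ∀ {X Y : Subgroup G}, X ≤ V → Y ≤ V → X ≤ normalizer (Y : Set G) := fun hX hY =>
    le_norm fun a ha y hy => by rwa [comm_of_isMulCommutative ab (hX ha) (hY hy), mul_inv_cancel_right]
  have cV : Nat.card V = Nat.card W * Nat.card U := by
    rw [← s, card_sup_of_disjoint (nn UV WV) (disjoint_iff.2 (inf_comm U W ▸ d))]
  have lt : W < V := lt_of_le_of_ne WV fun e => B0 (by rw [← hU, ← d, e, inf_eq_left.2 UV])
  have nW : R ≤ normalizer (W : Set G) := hW ▸ le_normalizer_commutator nR nB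
  have nU : R ≤ normalizer (U : Set G) := hU ▸ le_normalizer_inf nR (le_normalizer_centralizer nB)
  have IH : ∀ D, D ≤ W → R ≤ normalizer (D : Set G) → x ∈ normalizer (D : Set G) →
      (∏ n : R, Nat.card (D ⊓ centralizer {n * x} : Subgroup G)) ^ 2 ≤ Nat.card D ^ Nat.card R := fun D h1 h2 h3 =>
    ih D (h1.trans_lt lt) (isMulCommutative_of_le ab (h1.trans WV)) (coprime_of_le_right co (h1.trans WV)) h2 h3
      (cm.trans (centralizer_le (h1.trans WV))) (eq_bot_iff.2 ((inf_le_inf_right _ (h1.trans WV)).trans fx.le))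
  rw [← hU] at mx B0
  by_cases xB : x ∈ normalizer (B : Set G)
  · have xW : x ∈ normalizer (W : Set G) :=
      hW ▸ le_normalizer_commutator (zpowers_le.2 nx) (zpowers_le.2 xB) (mem_zpowers x)
    have xU : x ∈ normalizer (U : Set G) :=
      hU ▸ le_normalizer_inf (zpowers_le.2 nx) (le_normalizer_centralizer (zpowers_le.2 xB)) (mem_zpowers x)
    obtain ⟨m, mR, mB⟩ := SetLike.not_le_iff_exists.1 fun h : R ≤ B => B0 (by rw [hU, ← le_antisymm h hB, fx])
    have h1 : ∀ n : R, Nat.card (V ⊓ centralizer {n * x} : Subgroup G) ≤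
        Nat.card (W ⊓ centralizer {n * x} : Subgroup G) * Nat.card (U ⊓ centralizer {n * x} : Subgroup G) := fun n => by
      have := sup_inf_centralizer (zpowers (n * x)) W U (zpowers_le.2 (mul_mem (nW n.2) xW))
        (zpowers_le.2 (mul_mem (nU n.2) xU)) (nn UV WV) (by rw [inf_comm, d, card_bot]; simp)
        (.inl solvable_of_isMulCommutative)
      rw [s, zpowers_eq_closure, centralizer_closure] at this
      rw [this]
      exact Nat.le_of_dvd (Nat.mul_pos Nat.card_pos Nat.card_pos)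
        (card_sup_dvd (nn (inf_le_left.trans UV) (inf_le_left.trans WV)))
    have h2 : (∏ n : R, Nat.card (U ⊓ centralizer {n * x} : Subgroup G)) ^ 2 ≤ Nat.card U ^ Nat.card R := by
      rw [sq]
      nth_rw 2 [← Equiv.prod_comp (Equiv.mulLeft (⟨m, mR⟩ : R))]
      rw [← Finset.prod_mul_distrib, Nat.card_eq_fintype_card (α := R), ← Finset.card_univ]
      refine Finset.prod_le_pow_card _ _ _ fun n _ => card_mul_le_of_disjoint inf_le_left inf_le_left
        (disjoint_iff_inf_le.2 fun v hv => (mx _ (zpowers_le.2 mR) (by simpa using mB)).le ⟨hv.1.1, ?_⟩)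
      have a := mem_centralizer_singleton_iff.1 hv.1.2
      have b : v * (m * n * x) = m * n * x * v := mem_centralizer_singleton_iff.1 hv.2.2
      rw [zpowers_eq_closure, centralizer_closure]
      refine mem_centralizer_singleton_iff.2 (mul_right_cancel (b := n * x) ?_)
      rw [mul_assoc m v, a, ← mul_assoc m, ← mul_assoc m, ← b]
      group
    calc _ ≤ _ := Nat.pow_le_pow_left (Finset.prod_le_prod' fun n _ => h1 n) 2
      _ ≤ _ := by
        rw [Finset.prod_mul_distrib, mul_pow, cV, mul_pow]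
        exact Nat.mul_le_mul (IH W le_rfl nW xW) h2
  let D := ⨅ j : ℕ, W.comap (MulAut.conj (x ^ j)).toMonoidHom
  have mD : ∀ v, v ∈ D ↔ ∀ j : ℕ, x ^ j * v * (x ^ j)⁻¹ ∈ W := fun v => mem_iInf
  have DW : D ≤ W := fun v hv => by simpa using (mD v).1 hv 0
  have xR : ∀ j : ℕ, ∀ r ∈ R, x ^ j * r * (x ^ j)⁻¹ ∈ R := fun j r hr => conj_mem le_rfl (pow_mem hR j) hr
  have nD : R ≤ normalizer (D : Set G) := le_norm fun r hr v hv => (mD _).2 fun j => by
    convert conj_mem nW (xR j r hr) ((mD v).1 hv j) using 1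
    group
  have xD : x ∈ normalizer (D : Set G) := mem_normalizer_fintype fun v hv => (mD _).2 fun j => by
    convert (mD v).1 hv (j + 1) using 1
    group
  have h1 : ∀ n : R, Nat.card (V ⊓ centralizer {n * x} : Subgroup G) ≤
      Nat.card (D ⊓ centralizer {n * x} : Subgroup G) * Nat.card U := fun n => by
    rw [← card_inf_mul_relIndex W]
    refine Nat.mul_le_mul (card_le_of_le fun v hv => ⟨(mD v).2 fun j => ?_, hv.2.2⟩) ?_
    · obtain ⟨r, hr, e⟩ : ∃ r ∈ R, x ^ j = r * (n * x) ^ j := by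
        induction j with
        | zero => exact ⟨1, R.one_mem, by simp⟩
        | succ j ih =>
          obtain ⟨r, hr, e⟩ := ih
          refine ⟨x * r * x⁻¹ * (n : G)⁻¹, R.mul_mem (conj_mem le_rfl hR hr) (R.inv_mem n.2), ?_⟩
          rw [pow_succ', e, pow_succ']
          simp only [mul_assoc, inv_mul_cancel_left]
      have c : Commute ((n * x) ^ j) v := (Commute.pow_right (mem_centralizer_singleton_iff.1 hv.2.2) j).symm
      rw [e, mul_assoc r, c.eq]
      convert conj_mem nW hr hv.1 using 1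
      group
    · have := card_mul_relIndex WV
      rw [cV] at this
      rw [← Nat.eq_of_mul_eq_mul_left Nat.card_pos this]
      exact relIndex_le_of_le_right inf_le_left FiniteIndex.index_ne_zero
  have h2 : Nat.card D * Nat.card U ^ 2 ≤ Nat.card V := by
    let f := (MulAut.conj x⁻¹).toMonoidHom
    have fR : R.map f = R := conj_smul_eq_iff_mem_normalizer.2 (inv_mem hR)
    have fV : V.map f = V := conj_smul_eq_iff_mem_normalizer.2 (inv_mem nx)
    have B1 : B.map f ≤ R := (map_mono hB).trans fR.le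
    have a := commutator_sup_centralizer (B.map f) U (B1.trans nU) (coprime_of_le_right (coprime_of_le_left co B1) UV)
      (.inr (solvable_of_le UV sV))
    rw [mx _ B1 fun h => xB (inv_mem_iff.1 (mem_normalizer_fintype fun b hb => h ⟨b, hb, rfl⟩)), sup_bot_eq] at a
    have W1 : W.map f ≤ V := (map_mono WV).trans fV.le
    have b : W ⊔ W.map f = V := le_antisymm (sup_le WV W1) (s.ge.trans (sup_le_sup_left (by
      rw [← a, hW, map_commutator, fV]; exact commutator_mono UV le_rfl) _))
    have c := card_sup_mul_card_inf (nn W1 WV)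
    rw [b, show Nat.card (W.map f) = Nat.card W from card_conj_smul W _] at c
    have e : Nat.card D ≤ Nat.card (W ⊓ W.map f : Subgroup G) := card_le_of_le (le_inf DW fun v hv =>
      mem_map_conj_iff.2 (by simpa using (mD v).1 hv 1))
    refine Nat.le_of_mul_le_mul_left ?_ (Nat.card_pos (α := V))
    calc _ ≤ Nat.card V * (Nat.card (W ⊓ W.map f : Subgroup G) * Nat.card U ^ 2) := by gcongr
      _ = _ := by rw [← mul_assoc, c, cV]; ring
  calc _ ≤ _ := Nat.pow_le_pow_left (Finset.prod_le_prod' fun n _ => h1 n) 2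
    _ ≤ (Nat.card D * Nat.card U ^ 2) ^ Nat.card R := by
      rw [Finset.prod_mul_distrib, mul_pow, mul_pow, Finset.prod_const, Finset.card_univ, ← Nat.card_eq_fintype_card,
        ← pow_mul, ← pow_mul, mul_comm 2]
      exact Nat.mul_le_mul_right _ (IH D DW nD xD)
    _ ≤ _ := Nat.pow_le_pow_left h2 _

theorem prod_fix_le_of_min {Γ : Type*} [Group Γ] [Fintype Γ] (π : Γ →* G) (hπ : Function.Surjective π)
    (hs : Group.IsSolvable G) [hV : V.Normal] (hm : ∀ M : Subgroup G, M.Normal → M ≤ V → M = ⊥ ∨ M = V)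
    (hc : centralizer (V : Set G) ≠ ⊤) :
    (∏ g : Γ, Nat.card (V ⊓ centralizer {π g} : Subgroup G)) ^ 2 ≤ Nat.card V ^ Nat.card Γ := by
  have V0 : V ≠ ⊥ := fun e => hc (by simp [e])
  obtain ⟨p, hp, ab, hV'⟩ := minimal_normal_elementary V inferInstance V0 hm
  have := Fact.mk hp
  have pV := Core.IsElementaryAbelian.isPGroup ⟨ab, hV'⟩
  obtain ⟨N, -, c⟩ := exists_chief_above hc.lt_top (A := ⊤) norm_top norm_top
  have hab := c.comm_le norm_top (solvMod_of_solv inferInstance)
  obtain ⟨r, hr, -, k, -, hk⟩ := c.exists_prime hab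
  have := Fact.mk hr
  have := normal_of_le_normalizer c.nK
  obtain ⟨R, hR⟩ := exists_isSylowOf r N
  have := Fintype.ofFinite R
  have s := hR.sup_eq_of_relIndex_eq_pow c.lt.le hk
  have fx : V ⊓ centralizer (R : Set G) = ⊥ := by
    refine eq_bot_iff.2 (le_trans ?_ ((hm (V ⊓ centralizer (N : Set G)) inferInstance inf_le_left).resolve_right
      fun e => c.lt.not_ge (le_centralizer_iff.1 (inf_eq_left.1 e))).le)
    refine le_inf inf_le_left (le_centralizer_iff.1 (s.ge.trans (sup_le ?_ (le_centralizer_iff.1 inf_le_right))))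
    exact centralizer_le inf_le_left
  have co : (Nat.card R).Coprime (Nat.card V) := by
    refine coprime_of_isPGroup pV (coprime_of_isPGroup hR.isPGroup ((Nat.coprime_primes hp hr).2 ?_)).symm
    rintro rfl
    exact inf_centralizer_ne_bot_of_isPGroup pV hR.isPGroup norm_top V0 fx
  have key : ∀ g : G, (∏ n : R, Nat.card (V ⊓ centralizer {n * g} : Subgroup G)) ^ 2 ≤ Nat.card V ^ Nat.card R := by
    intro g
    obtain ⟨m, hm, e⟩ := hR.exists_mul_normalizer (norm_top (mem_top g))
    obtain ⟨z, hz, y, hy, rfl⟩ := (mem_sup_of_le_normalizer norm_top).1 (s.ge hm)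
    have := prod_fix_le (mul_mem (le_normalizer hy) e) V ab co norm_top (norm_top (mem_top _))
      ((commutator_mono hR.le hR.le).trans hab) fx
    refine le_of_eq_of_le (congrArg (· ^ 2) (Finset.prod_congr rfl fun n _ => congrArg (fun X : Subgroup G => Nat.card X) ?_))
      this
    ext v
    simp only [mem_inf, mem_centralizer_singleton_iff, and_congr_right_iff]
    intro hv
    have a := (inferInstance : (centralizer (V : Set G)).Normal).conj_mem z hz n
    rw [show n * g = (n * z * (n : G)⁻¹) * (n * (y * ((z * y)⁻¹ * g))) by group, ← mul_assoc v, a v hv,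
      mul_assoc _ v, mul_assoc _ _ v, mul_right_inj]
  choose l hl using hπ
  refine (Nat.pow_le_pow_iff_left (Nat.card_pos (α := R)).ne').1 ?_
  calc _ = (∏ n : R, ∏ g : Γ, Nat.card (V ⊓ centralizer {n * π g} : Subgroup G)) ^ 2 := by
        rw [← pow_mul, mul_comm, pow_mul, Nat.card_eq_fintype_card (α := R), ← Finset.card_univ, ← Finset.prod_const]
        refine congrArg (· ^ 2) (Finset.prod_congr rfl fun n _ => ?_)
        rw [← Equiv.prod_comp (Equiv.mulLeft (l n))]
        simp [hl]
    _ ≤ _ := by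
        rw [Finset.prod_comm, ← Finset.prod_pow, ← pow_mul, mul_comm, pow_mul, Nat.card_eq_fintype_card (α := Γ),
          ← Finset.card_univ]
        exact Finset.prod_le_pow_card _ _ _ fun g _ => key _

theorem relIndex_cent_dvd {K L : Subgroup G} [L.Normal] (h : L ≤ K) (g : G) :
    (centralizer {g}).relIndex L * (centralizer {(g : G ⧸ L)}).relIndex (K.map (QuotientGroup.mk' L)) ∣
      (centralizer {g}).relIndex K := by
  have c : ∀ X : Subgroup G, Nat.card X = Nat.card (L ⊓ X : Subgroup G) * Nat.card (X.map (QuotientGroup.mk' L)) :=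
    fun X => by rw [← X.relIndex_ker, QuotientGroup.ker_mk', card_inf_mul_relIndex]
  obtain ⟨m, hm⟩ : Nat.card ((centralizer {g} ⊓ K).map (QuotientGroup.mk' L)) ∣
      Nat.card (centralizer {(g : G ⧸ L)} ⊓ K.map (QuotientGroup.mk' L) : Subgroup _) := card_dvd_of_le (by
    rintro _ ⟨v, hv, rfl⟩
    exact ⟨mem_centralizer_singleton_iff.2 (congrArg (QuotientGroup.mk' L) (mem_centralizer_singleton_iff.1 hv.1)),
      v, hv.2, rfl⟩)
  have h1 := card_inf_mul_relIndex (centralizer {g}) K
  rw [c K, c (_ ⊓ K), inf_eq_left.2 h, ← card_inf_mul_relIndex (centralizer {g}) L,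
    ← card_inf_mul_relIndex (centralizer {(g : G ⧸ L)}) (K.map _), hm, inf_left_comm, inf_eq_left.2 h] at h1
  refine ⟨m, Nat.eq_of_mul_eq_mul_left (Nat.mul_pos Nat.card_pos Nat.card_pos) (h1.trans ?_)⟩
  ring

theorem Prim.deg_pow_dvd [Fintype G] (hs : Group.IsSolvable G) {χ : G → ℂ} (h : Irr ⊤ χ) (hp : Prim ⊥ ⊤ χ)
    (K : Subgroup G) : K.Normal → ∀ φ, Irr K φ → inn K χ φ ≠ 0 → ∀ d : ℕ, φ 1 = d →
      d ^ Nat.card G ∣ ∏ g : G, (centralizer {g}).relIndex K := by
  induction K using WellFoundedLT.induction with | _ K ih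
  intro hK φ hφ e d hd
  rcases eq_or_ne K ⊥ with rfl | K0
  · rw [(irr_bot_iff hφ.chr).1 hφ] at hd
    obtain rfl : 1 = d := by exact_mod_cast hd
    simp
  obtain ⟨L, -, c⟩ := exists_chief_below (A := ⊤) K0.bot_lt norm_top norm_top
  have hL := normal_of_le_normalizer c.nL
  have hab := c.comm_le norm_top (solvMod_of_solv inferInstance)
  have hi := hp.inv h bot_le le_top norm_top hφ e
  have r := h.res_smul norm_top le_top hφ hi e
  have ov : ∀ ψ, inn L φ ψ ≠ 0 → inn L χ ψ ≠ 0 := fun ψ a => by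
    rw [(r.mono c.lt.le).inn_left, inn_smul_left]; exact mul_ne_zero e a
  have dv := Finset.prod_dvd_prod_of_dvd (s := Finset.univ) _ _ fun g _ => relIndex_cent_dvd c.lt.le g
  rw [Finset.prod_mul_distrib] at dv
  rcases c.going_down hab hφ hi with h7 | ⟨ψ, k, h7, h8, h9⟩ | ⟨ψ, h7, h8, h9, -⟩
  · exact (ih L c.lt hL φ h7 (ov _ h7.inn_self_ne) d hd).trans ((dvd_mul_right _ _).trans dv)
  · obtain ⟨f, -, hf⟩ := h7.deg
    have k0 : k ≠ 0 := by
      rintro rfl
      exact hφ.one_ne (by simpa using h8.one)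
    obtain rfl : d = f * k := by
      have := h8.one
      rw [hd, Pi.smul_apply, hf, smul_eq_mul, mul_comm] at this
      exact_mod_cast this
    rw [mul_pow]
    refine (Nat.mul_dvd_mul (ih L c.lt hL ψ h7 (ov _ ?_) f hf) ?_).trans dv
    · rw [h8.inn_left, inn_smul_left]; exact mul_ne_zero (Nat.cast_ne_zero.2 k0) h7.inn_self_ne
    obtain ⟨q, hq, -, a, a0, ha⟩ := c.exists_prime hab
    obtain ⟨V, hV⟩ : ∃ V, V = K.map (QuotientGroup.mk' L) := ⟨_, rfl⟩
    have : V.Normal := hV ▸ hK.map _ (QuotientGroup.mk'_surjective L)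
    have cV : Nat.card V = k ^ 2 := by rw [hV, ← K.relIndex_ker, QuotientGroup.ker_mk', h9]
    have hm : ∀ M : Subgroup (G ⧸ L), M.Normal → M ≤ V → M = ⊥ ∨ M = V := fun M _ l =>
      (c.min (M.comap (QuotientGroup.mk' L)) (QuotientGroup.le_comap_mk' L M) ((comap_mono l).trans (by
        rw [hV, comap_map_eq, QuotientGroup.ker_mk', sup_eq_left.2 c.lt.le])) norm_top).imp
        (fun e => by rw [← map_comap_eq_self_of_surjective (QuotientGroup.mk'_surjective L) M, e,
          QuotientGroup.map_mk'_self]) fun e => by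
        rw [← map_comap_eq_self_of_surjective (QuotientGroup.mk'_surjective L) M, e, hV]
    rw [← hV]
    have := Fact.mk hq
    have hc : centralizer (V : Set (G ⧸ L)) ≠ ⊤ := fun e => by
      obtain ⟨v, hv, o⟩ := exists_mem_prime_orderOf (H := V) (fun e => by
        rw [e, card_bot, h9] at cV; exact (one_lt_relIndex c.lt).ne cV)
      have := (hm (zpowers v) ⟨fun y hy g => by
        rwa [← e.ge (mem_top g) y (zpowers_le.2 hv hy), mul_inv_cancel_right]⟩ (zpowers_le.2 hv)).resolve_left
        fun e => by simp [zpowers_eq_bot.1 e, Nat.not_prime_one] at o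
      rw [← Nat.card_zpowers, this, cV] at o
      exact o.prime.not_isSquare ⟨k, sq k⟩
    have key := prod_fix_le_of_min (QuotientGroup.mk' L) (QuotientGroup.mk'_surjective L) inferInstance hm hc
    have tot : (∏ g : G, Nat.card (V ⊓ centralizer {QuotientGroup.mk' L g} : Subgroup _)) *
        ∏ g : G, (centralizer {(g : G ⧸ L)}).relIndex V = (k ^ Nat.card G) ^ 2 := by
      rw [← Finset.prod_mul_distrib, ← pow_mul, mul_comm, pow_mul, ← cV, Nat.card_eq_fintype_card (α := G),
        ← Finset.card_univ, ← Finset.prod_const]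
      exact Finset.prod_congr rfl fun g _ => by rw [inf_comm]; exact card_inf_mul_relIndex _ _
    rw [cV, ← pow_mul, mul_comm, pow_mul, Nat.pow_le_pow_iff_left two_ne_zero] at key
    have e1 : (k ^ Nat.card G) ^ 2 = q ^ (a * Nat.card G) := by rw [← pow_mul, mul_comm, pow_mul, h9, ha, pow_mul]
    obtain ⟨i, -, hi⟩ := (Nat.dvd_prime_pow hq).1 (e1 ▸ dvd_pow_self _ two_ne_zero)
    obtain ⟨j, -, hj⟩ := (Nat.dvd_prime_pow hq).1 (e1 ▸ tot ▸ dvd_mul_left _ _)
    have le : k ^ Nat.card G ≤ ∏ g : G, (centralizer {(g : G ⧸ L)}).relIndex V :=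
      Nat.le_of_mul_le_mul_left (sq (k ^ Nat.card G) ▸ tot.ge.trans (Nat.mul_le_mul_right _ key)) (by positivity)
    rw [hi, hj] at le ⊢
    exact pow_dvd_pow _ ((Nat.pow_le_pow_iff_right hq.one_lt).1 le)
  · have := (le_stab c.nL).mpr (hp.inv h bot_le le_top c.nL h7 (ov _ h8))
    exact absurd (h9 ▸ le_inf (le_top.trans this) le_rfl) c.lt.not_ge

end Cfsg.Agent.Isaacs
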