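import Mathlib
import Cfsg.Agent.Perm.Support

/-! Babai's bound for the minimal degree of a primitive permutation group. -/

set_option autoImplicit false

namespace Cfsg.Agent.Babai

open Finset MulAction

variable (G : Type*) {Ω : Type*} [Group G] [MulAction G Ω]

def R (a b c d : Ω) : Prop := ∃ h : G, h • a = c ∧ h • b = d

variable {G} {a b c d e f x y z : Ω}

theorem R.refl (a b : Ω) : R G a b a b := ⟨1, one_smul _ _, one_smul _ _⟩

theorem R.symm (h : R G a b c d) : R G c d a b := by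
  obtain ⟨g, rfl, rfl⟩ := h
  exact ⟨g⁻¹, inv_smul_smul _ _, inv_smul_smul _ _⟩

theorem R.trans (h : R G a b c d) (h' : R G c d e f) : R G a b e f := by
  obtain ⟨g, rfl, rfl⟩ := h
  obtain ⟨g', rfl, rfl⟩ := h'
  exact ⟨g' * g, mul_smul _ _ _, mul_smul _ _ _⟩

theorem R.swap (h : R G a b c d) : R G b a d c := by
  obtain ⟨g, h1, h2⟩ := h
  exact ⟨g, h2, h1⟩

theorem R.smul (g : G) (a b : Ω) : R G a b (g • a) (g • b) := ⟨g, rfl, rfl⟩

variable [Fintype Ω]

open Classical in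
variable (G) in
noncomputable def D (x y : Ω) : Finset Ω := {γ | ¬ R G γ x γ y}

open Classical in
variable (G) in
noncomputable def O (x y γ : Ω) : Finset Ω := {z | R G x y γ z}

theorem mem_D : z ∈ D G x y ↔ ¬ R G z x z y := by simp [D]

theorem mem_O : z ∈ O G x y a ↔ R G x y a z := by simp [O]

theorem D_symm (x y : Ω) : D G x y = D G y x := by
  ext z; rw [mem_D, mem_D]; exact not_congr ⟨R.symm, R.symm⟩

theorem D_tri (x y z : Ω) : #(D G x z) ≤ #(D G x y) + #(D G y z) := by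
  classical
  refine (card_le_card fun γ h => ?_).trans (card_union_le _ _)
  rw [mem_union, mem_D, mem_D, ← not_and_or]
  exact fun e => mem_D.mp h (e.1.trans e.2)

theorem D_le (h : R G a b c d) : #(D G a b) ≤ #(D G c d) := by
  obtain ⟨g, rfl, rfl⟩ := h
  exact card_le_card_of_injOn (g • ·) (fun γ h => mem_coe.mpr (mem_D.mpr fun e => mem_D.mp h
    (((R.smul g γ a).trans e).trans (R.smul g γ b).symm))) fun _ _ _ _ e => MulAction.injective g e

theorem D_self (x : Ω) : #(D G x x) = 0 :=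
  card_eq_zero.mpr (eq_empty_of_forall_notMem fun _ h => mem_D.mp h (R.refl _ _))

theorem O_card [IsPretransitive G Ω] (x y a b : Ω) : #(O G x y a) = #(O G x y b) := by
  suffices ∀ a b : Ω, #(O G x y a) ≤ #(O G x y b) from (this a b).antisymm (this b a)
  intro a b
  obtain ⟨g, rfl⟩ := exists_smul_eq G a b
  exact card_le_card_of_injOn (g • ·) (fun γ h => mem_coe.mpr (mem_O.mpr ((mem_O.mp h).trans (R.smul g a γ))))
    fun _ _ _ _ e => MulAction.injective g e

variable [Finite G] [hp : IsPreprimitive G Ω]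

omit [Fintype Ω] in
theorem conn (hab : a ≠ b) (S : Set Ω) (hx : x ∈ S) (hS : ∀ u ∈ S, ∀ v, R G a b u v → v ∈ S) (y : Ω) : y ∈ S := by
  have : Nontrivial Ω := ⟨a, b, hab⟩
  obtain ⟨t, rfl⟩ := exists_smul_eq G a x
  obtain ⟨g, hg⟩ := exists_smul_eq G (t • a) (t • b)
  let T : Submonoid G :=
    { carrier := {s | ∀ h : G, h • t • a ∈ S → h • s • t • a ∈ S}
      mul_mem' := fun {s s'} h1 h2 h e => by
        have := h2 (h * s) (by rw [mul_smul]; exact h1 h e)
        rwa [mul_smul, ← mul_smul s] at this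
      one_mem' := fun h e => by rwa [one_smul] }
  let T' : Subgroup G :=
    { T with
      inv_mem' := fun {s} h => by
        have h1 : s⁻¹ = s ^ (orderOf s - 1) := by
          rw [inv_eq_iff_mul_eq_one, ← pow_succ', Nat.sub_add_cancel (orderOf_pos s), pow_orderOf_eq_one]
        exact h1 ▸ T.pow_mem h _ }
  have h1 : T' = ⊤ := ((isCoatom_stabilizer_iff_preprimitive G (t • a)).mpr hp).2 T' (lt_of_le_of_ne
    (fun s hs h e => by rwa [mem_stabilizer_iff.mp hs]) fun e => by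
      have : g ∈ T' := fun h e => hS _ e _ (by rw [hg]; exact (R.smul t a b).trans (R.smul h _ _))
      rw [← e, mem_stabilizer_iff, hg] at this
      exact hab (MulAction.injective t this).symm)
  obtain ⟨s, rfl⟩ := exists_smul_eq G (t • a) y
  have h2 : s ∈ T' := h1 ▸ Subgroup.mem_top s
  simpa using h2 1 (by rwa [one_smul])

theorem card_le_mul (hxy : x ≠ y) : Fintype.card Ω ≤ #(O G x y x) * #(D G x y) := by
  classical
  refine le_trans (card_le_card fun γ _ => ?_) (card_biUnion_le_card_mul (O G x y x) (D G x) _ fun z hz =>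
    D_le (mem_O.mp hz).symm)
  by_contra h
  simp only [mem_biUnion, not_exists, not_and, mem_D, not_not, mem_O] at h
  have h1 := conn (G := G) hxy {z | R G γ x γ z} (R.refl γ x) (by
    rintro _ ⟨g, hg, rfl⟩ v hv
    have h2 := h (g⁻¹ • v) (hv.trans ⟨g⁻¹, inv_smul_smul _ _, rfl⟩)
    exact h2.trans ⟨g, hg, smul_inv_smul _ _⟩)
  obtain ⟨g, h2, h3⟩ := h1 γ
  obtain rfl : x = γ := MulAction.injective g (h3.trans h2.symm)
  obtain ⟨g, h2, h3⟩ := h1 y
  exact hxy (h2.symm.trans h3)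

omit [Finite G] in
theorem card_O_le {M : ℕ} (hM : ∀ u v : Ω, #(D G u v) ≤ M) (h : 2 * #(O G x y x) ≤ Fintype.card Ω) :
    #(O G x y x) ≤ M := by
  classical
  set n := Fintype.card Ω
  set k := #(O G x y x)
  have h1 : ∀ γ : Ω, 2 * (k * (n - k)) ≤ #{p : Ω × Ω | γ ∈ D G p.1 p.2} := fun γ => by
    have e : #((O G x y γ ×ˢ (O G x y γ)ᶜ) ∪ ((O G x y γ)ᶜ ×ˢ O G x y γ)) = 2 * (k * (n - k)) := by
      rw [card_union_of_disjoint (disjoint_left.mpr fun p h1 h2 =>
        mem_compl.mp (mem_product.mp h2).1 (mem_product.mp h1).1), card_product, card_product, card_compl,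
        O_card x y γ x]
      ring
    refine e ▸ card_le_card fun p hp => mem_filter.mpr ⟨mem_univ _, mem_D.mpr fun r => ?_⟩
    simp only [mem_union, mem_product, mem_compl, mem_O] at hp
    rcases hp with ⟨h1, h2⟩ | ⟨h1, h2⟩
    · exact h2 (h1.trans r)
    · exact h1 (h2.trans r.symm)
  have h2 : n * (2 * (k * (n - k))) ≤ n * n * M := by
    calc n * (2 * (k * (n - k))) = ∑ _γ : Ω, 2 * (k * (n - k)) := by simp [n]
      _ ≤ ∑ γ : Ω, #{p : Ω × Ω | γ ∈ D G p.1 p.2} := sum_le_sum fun γ _ => h1 γ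
      _ = ∑ p : Ω × Ω, #(D G p.1 p.2) := by
        simp only [card_filter]
        rw [sum_comm]
        simp
      _ ≤ ∑ _p : Ω × Ω, M := sum_le_sum fun p _ => hM _ _
      _ = n * n * M := by simp [n]
  have hn : 0 < n := Fintype.card_pos_iff.mpr ⟨x⟩
  obtain ⟨j, hj⟩ : ∃ j, n = k + j := ⟨n - k, by omega⟩
  rw [show n - k = j by omega, mul_assoc] at h2
  have h3 := Nat.le_of_mul_le_mul_left h2 hn
  refine Nat.le_of_mul_le_mul_left (c := n) ?_ hn
  have : k * k ≤ k * j := Nat.mul_le_mul_left k (by omega)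
  nlinarith

theorem exists_small (h : ∃ x y z : Ω, x ≠ y ∧ x ≠ z ∧ ¬ R G x y x z) {M : ℕ} (hM : ∀ u v : Ω, #(D G u v) ≤ M) :
    Fintype.card Ω ≤ M * M := by
  classical
  obtain ⟨x, y, z, h1, h2, h3⟩ := h
  have h4 : #(O G x y x) + #(O G x z x) ≤ Fintype.card Ω := by
    rw [← card_union_of_disjoint (disjoint_left.mpr fun p a b => h3 ((mem_O.mp a).trans (mem_O.mp b).symm))]
    exact card_le_univ _
  by_cases h5 : 2 * #(O G x y x) ≤ Fintype.card Ω
  · exact (card_le_mul (G := G) h1).trans (Nat.mul_le_mul (card_O_le hM h5) (hM _ _))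
  · exact (card_le_mul (G := G) h2).trans (Nat.mul_le_mul (card_O_le hM (by omega)) (hM _ _))

theorem uniprim (h : ∃ x y z : Ω, x ≠ y ∧ x ≠ z ∧ ¬ R G x y x z) (hab : a ≠ b) :
    Fintype.card Ω ≤ 4 * #(D G a b) ^ 2 := by
  let A : Ω → Ω → Prop := fun u v => R G a b u v ∨ R G a b v u
  have hA : ∀ u v, A u v → #(D G u v) ≤ #(D G a b) := fun u v h =>
    h.elim (fun h => D_le h.symm) fun h => D_symm (G := G) u v ▸ D_le h.symm
  let B : Ω → Set Ω := fun x => {y | y = x ∨ A x y ∨ ∃ z, A x z ∧ A z y}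
  have hB : ∀ x, ∀ y ∈ B x, #(D G x y) ≤ 2 * #(D G a b) := by
    rintro x y (rfl | h | ⟨z, h1, h2⟩)
    · rw [D_self]; omega
    · have := hA _ _ h; omega
    · have := hA _ _ h1; have := hA _ _ h2; have := D_tri (G := G) x z y; omega
  by_cases hc : ∀ x y, y ∈ B x
  · have := exists_small h fun u v => hB u v (hc u v)
    nlinarith
  push Not at hc
  obtain ⟨x, y, hy⟩ := hc
  obtain ⟨w, hw, v, h1, h2⟩ : ∃ w ∈ B x, ∃ v, R G a b w v ∧ v ∉ B x := by
    by_contra! e
    exact hy (conn (G := G) hab (B x) (.inl rfl) e y)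
  have h3 : #(O G b a x) ≤ #(D G x v) := card_le_card fun γ hγ => mem_D.mpr fun r =>
    h2 (.inr (.inr ⟨γ, .inr (mem_O.mp hγ).swap, .inl ((mem_O.mp hγ).swap.trans r)⟩))
  have h4 := card_le_mul (G := G) hab.symm
  rw [O_card b a b x, D_symm] at h4
  have h5 := D_tri (G := G) x w v
  have h6 := hB x w hw
  have h7 := hA w v (.inl h1)
  nlinarith

omit hp in
theorem two_trans [DecidableEq Ω] (h : ∀ x y z : Ω, x ≠ y → x ≠ z → R G x y x z) (Γ : Finset Ω) (a : Ω)
    (hΓ : ∀ g : G, g • a = a → ∃ u ∈ Γ.erase a, g • u ∈ Γ.erase a) :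
    Fintype.card Ω - 1 ≤ #(Γ.erase a) ^ 2 := by
  classical
  have := Fintype.ofFinite G
  let fib : Ω → Ω → Finset G := fun u v => {g | g • a = a ∧ g • u = v}
  let S : Finset G := {g | g • a = a}
  have h1 : ∀ u v, v ≠ a → (Fintype.card Ω - 1) * #(fib u v) ≤ #S := fun u v hv => by
    calc (Fintype.card Ω - 1) * #(fib u v) = ∑ _w ∈ univ.erase a, #(fib u v) := by simp
      _ ≤ ∑ w ∈ univ.erase a, #(fib u w) := sum_le_sum fun w hw => by
        obtain ⟨t, h1, h2⟩ := h a v w hv.symm (ne_of_mem_erase hw).symm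
        refine card_le_card_of_injOn (t * ·) (fun g hg => ?_) fun _ _ _ _ e => mul_left_cancel e
        simp only [fib, coe_filter, mem_univ, true_and, Set.mem_ofPred_eq, mul_smul] at hg ⊢
        rw [hg.1, hg.2]; exact ⟨h1, h2⟩
      _ ≤ ∑ w, #(fib u w) := sum_le_sum_of_subset (erase_subset _ _)
      _ = #S := by
        rw [card_eq_sum_card_fiberwise (f := fun g : G => g • u) (s := S) (t := univ) fun _ _ => mem_univ _]
        refine sum_congr rfl fun w _ => ?_
        simp [fib, S, filter_filter]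
  have h2 : #S ≤ ∑ p ∈ Γ.erase a ×ˢ Γ.erase a, #(fib p.1 p.2) := by
    refine le_trans (card_le_card fun g hg => ?_) card_biUnion_le
    obtain ⟨u, hu, hv⟩ := hΓ g (mem_filter.mp hg).2
    exact mem_biUnion.mpr ⟨(u, g • u), mem_product.mpr ⟨hu, hv⟩,
      mem_filter.mpr ⟨mem_univ _, (mem_filter.mp hg).2, rfl⟩⟩
  have h3 : (Fintype.card Ω - 1) * #S ≤ #(Γ.erase a) ^ 2 * #S := by
    refine (Nat.mul_le_mul_left _ h2).trans ?_
    rw [mul_sum]
    refine (sum_le_card_nsmul _ _ #S fun p hp => h1 _ _ (ne_of_mem_erase (mem_product.mp hp).2)).trans ?_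
    rw [card_product, smul_eq_mul, sq]
  exact Nat.le_of_mul_le_mul_right h3 (card_pos.mpr ⟨1, by simp [S]⟩)

theorem main [DecidableEq Ω] (hA : ¬ alternatingGroup Ω ≤ (toPermHom G Ω).range) {g : G} (ha : g • a ≠ a) :
    Fintype.card Ω ≤ 4 * #{x : Ω | g • x ≠ x} ^ 2 := by
  by_cases h : ∃ x y z : Ω, x ≠ y ∧ x ≠ z ∧ ¬ R G x y x z
  · refine (uniprim h ha.symm).trans (Nat.mul_le_mul_left _ (Nat.pow_le_pow_left (card_le_card fun γ hγ => ?_) 2))
    exact mem_filter.mpr ⟨mem_univ _, fun e => mem_D.mp hγ ⟨g, e, rfl⟩⟩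
  push Not at h
  have h1 := two_trans h {x : Ω | g • x ≠ x} a fun y hy => by
    by_contra! e
    refine hA (Equiv.Perm.alternatingGroup_le_of_isPreprimitive_of_isThreeCycle_mem Perm.isPreprimitive_range
      (Perm.isThreeCycle_commutator (g := toPermHom G Ω g) (h := toPermHom G Ω (y⁻¹ * g * y)) (a := a) ha ?_ ?_)
      (mul_mem (mul_mem (mul_mem ⟨_, rfl⟩ ⟨_, rfl⟩) (inv_mem ⟨_, rfl⟩)) (inv_mem ⟨_, rfl⟩)))
    · change (y⁻¹ * g * y) • a ≠ a
      rwa [mul_smul, mul_smul, hy, Ne, inv_smul_eq_iff, hy]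
    · intro x hx
      by_contra! e'
      refine e x (by simpa [hx] using e'.1) (mem_erase.mpr ⟨fun f => hx (MulAction.injective y (f.trans hy.symm)), ?_⟩)
      have := e'.2
      change (y⁻¹ * g * y) • x ≠ x at this
      rw [mul_smul, mul_smul, Ne, inv_smul_eq_iff] at this
      simpa using this
  have h2 := card_erase_add_one (s := ({x : Ω | g • x ≠ x} : Finset Ω)) (a := a) (by simpa using ha)
  rw [← h2]
  have : Fintype.card Ω ≤ #(({x : Ω | g • x ≠ x} : Finset Ω).erase a) ^ 2 + 1 := by omega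
  nlinarith

end Cfsg.Agent.Babai
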