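import Mathlib
import Cfsg.Agent.S0713
import Cfsg.Agent.S0724
import Cfsg.Agent.Isaacs.Babai
import Cfsg.Agent.Perm.Burnside
import Cfsg.Agent.Perm.Small2
import Cfsg.Agent.Perm.PFixed

/-! Doubly transitive groups of degree eleven. -/

set_option autoImplicit false

namespace Cfsg.Agent.Deg11

open Finset MulAction Subgroup Cfsg.Agent.Perm

variable {G α : Type*} [Group G] [MulAction G α] [Fintype α] [DecidableEq α]

variable (α) in
def fx (g : G) : Finset α := {x | g • x = x}

theorem mem_fx {g : G} {x : α} : x ∈ fx α g ↔ g • x = x := by simp [fx]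

theorem fx_eq (g : G) : fx α g = (toPerm g : Equiv.Perm α).supportᶜ := by
  ext x; simp [mem_fx]

theorem fx_pow (g : G) (n : ℕ) : fx α g ⊆ fx α (g ^ n) := fun _ h =>
  mem_fx.mpr ((stabilizer G _).pow_mem (mem_fx.mp h) n)

theorem fx_modEq {g : G} {p : ℕ} [Fact p.Prime] (h : g ^ p = 1) : #(fx α g) ≡ Fintype.card α [MOD p] := by
  rw [fx_eq]
  refine Equiv.Perm.card_compl_support_modEq (n := 1) ?_
  change toPermHom G α g ^ p ^ 1 = 1
  rw [pow_one, ← map_pow, h, map_one]

theorem babai [Finite G] [IsPreprimitive G α] (h2 : IsMultiplyPretransitive G α 2)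
    (hA : ¬ alternatingGroup α ≤ (toPermHom G α).range) {g : G} {a : α} (ha : g • a ≠ a) :
    Fintype.card α - 1 ≤ (Fintype.card α - #(fx α g) - 1) ^ 2 := by
  have h1 := Babai.two_trans (G := G) (fun x y z h h' => two_trans h2 h h') (fx α g)ᶜ a fun y hy => by
    by_contra! e
    refine hA (Equiv.Perm.alternatingGroup_le_of_isPreprimitive_of_isThreeCycle_mem Perm.isPreprimitive_range
      (Perm.isThreeCycle_commutator (g := toPermHom G α g) (h := toPermHom G α (y⁻¹ * g * y)) (a := a) ha ?_ ?_)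
      (mul_mem (mul_mem (mul_mem ⟨_, rfl⟩ ⟨_, rfl⟩) (inv_mem ⟨_, rfl⟩)) (inv_mem ⟨_, rfl⟩)))
    · change (y⁻¹ * g * y) • a ≠ a
      rwa [mul_smul, mul_smul, hy, Ne, inv_smul_eq_iff, hy]
    · intro x hx
      by_contra! e'
      refine e x (by simpa [hx, mem_fx] using e'.1) (mem_erase.mpr ⟨fun f => hx (MulAction.injective y (f.trans hy.symm)), ?_⟩)
      have := e'.2
      change (y⁻¹ * g * y) • x ≠ x at this
      rw [mul_smul, mul_smul, Ne, inv_smul_eq_iff] at this
      simpa [mem_fx] using this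
  rwa [card_erase_of_mem (by simpa [mem_fx] using ha), card_compl] at h1

theorem exists_prime_pow [Finite G] {g : G} (h : g ≠ 1) : ∃ n, (orderOf (g ^ n)).Prime := by
  obtain ⟨p, hp, hd⟩ := Nat.exists_prime_and_dvd (mt orderOf_eq_one_iff.mp h)
  exact ⟨orderOf g / p, by rwa [orderOf_pow_orderOf_div (orderOf_pos g).ne' hd]⟩

variable [Finite G] [FaithfulSMul G α]

theorem fix_mem (hα : Fintype.card α = 11) [IsPreprimitive G α] (h2 : IsMultiplyPretransitive G α 2)
    (hA : ¬ alternatingGroup α ≤ (toPermHom G α).range) {g : G} (hg : g ≠ 1) :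
    #(fx α g) ∈ ({0, 1, 2, 3, 5} : Finset ℕ) := by
  have h1 : ∀ g : G, g ≠ 1 → #(fx α g) ≤ 6 := fun g hg => by
    obtain ⟨a, ha⟩ : ∃ a : α, g • a ≠ a := by
      by_contra! e
      exact hg (eq_one_of_forall_smul e)
    have := babai h2 hA ha
    rw [hα] at this
    by_contra! e
    have h : 11 - #(fx α g) - 1 ≤ 3 := by omega
    have := Nat.pow_le_pow_left h 2
    omega
  have h3 : ∀ g : G, (orderOf g).Prime → #(fx α g) ≠ 4 ∧ #(fx α g) ≠ 6 := fun g hp => by
    have := Fact.mk hp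
    have h4 := fx_modEq (α := α) (pow_orderOf_eq_one g)
    have ho : orderOf (toPermHom G α g) = orderOf g := orderOf_injective _ toPerm_injective g
    have hs : #(fx α g) + #(toPermHom G α g).support = 11 := by
      rw [fx_eq, ← hα, add_comm]; exact card_add_card_compl _
    have key : #(toPermHom G α g).support = orderOf g → orderOf g ≤ 8 → False := fun e e' =>
      hA (S0713.result _ Perm.isPreprimitive_range hp (by omega) (by omega)
        (Equiv.Perm.isCycle_of_prime_order (ho ▸ hp) (by have := hp.pos; omega)) e ⟨_, rfl⟩)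
    rw [hα] at h4
    constructor <;> intro e <;> rw [e] at h4
    · have := (Nat.prime_dvd_prime_iff_eq hp (by norm_num : Nat.Prime 7)).mp ((Nat.modEq_iff_dvd' (by norm_num)).mp h4)
      exact key (by omega) (by omega)
    · have := (Nat.prime_dvd_prime_iff_eq hp (by norm_num : Nat.Prime 5)).mp ((Nat.modEq_iff_dvd' (by norm_num)).mp h4)
      exact key (by omega) (by omega)
  obtain ⟨n, hn⟩ := exists_prime_pow hg
  have h4 := h3 _ hn
  have h5 := h1 _ (mt orderOf_eq_one_iff.mpr hn.ne_one)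
  have h6 := card_le_card (fx_pow (α := α) g n)
  have h7 : #(fx α g) ≠ 4 := fun e => by
    obtain ⟨x, hx⟩ : (fx α (g ^ n) \ fx α g).Nonempty := card_pos.mp (by rw [card_sdiff_of_subset (fx_pow g n)]; omega)
    simp only [mem_sdiff, mem_fx] at hx
    have : 1 < #(fx α (g ^ n) \ fx α g) := one_lt_card.mpr ⟨x, by simpa [mem_fx] using hx, g • x, by
      simp only [mem_sdiff, mem_fx]
      exact ⟨by rw [← mul_smul, ← pow_succ, pow_succ', mul_smul, hx.1], fun e => hx.2 (MulAction.injective g e)⟩,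
      Ne.symm hx.2⟩
    rw [card_sdiff_of_subset (fx_pow g n)] at this
    omega
  simp only [mem_insert, mem_singleton]
  omega

omit [Finite G] in
theorem bl (K : Subgroup G) (L : Finset ℕ) (h : ∀ g ∈ K, g ≠ 1 → #(fx α g) ∈ L) :
    Nat.card K ∣ ∏ l ∈ L, (Fintype.card α - l) := by
  rw [← card_map_of_injective (f := toPermHom G α) toPerm_injective]
  refine S0724.result _ L ?_
  rintro _ ⟨g, hg, rfl⟩ h1
  convert h g hg (fun e => h1 (by rw [e, map_one]))
  rw [← Nat.card_eq_finsetCard]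
  exact Nat.card_congr (Equiv.subtypeEquivRight fun x => by simp [mem_fx])

open _root_.Classical in
noncomputable def orb (K : Subgroup G) (c : α) : Finset α := {y | ∃ k ∈ K, k • c = y}

omit [Finite G] [FaithfulSMul G α] in
theorem mem_orb {K : Subgroup G} {c y : α} : y ∈ orb K c ↔ ∃ k ∈ K, k • c = y := by simp [orb]

omit [Finite G] [FaithfulSMul G α] in
theorem card_orb (K : Subgroup G) (c : α) : #(orb K c) * Nat.card (K ⊓ stabilizer G c :) = Nat.card K := by
  rw [← card_orbit_mul_card_stabilizer (G := K) c, ← Nat.card_eq_finsetCard]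
  congr 1
  · exact Nat.card_congr (Equiv.subtypeEquivRight fun x => by simp [mem_orb, mem_orbit_iff, Subgroup.smul_def])
  · rw [← Nat.card_congr (subgroupOfEquivOfLe (inf_le_left : K ⊓ stabilizer G c ≤ K)).toEquiv, inf_subgroupOf_left]
    rfl

omit [Finite G] [FaithfulSMul G α] in
theorem three {K : Subgroup G} {c : α} (hc : #(orb K c) = 3) :
    ∃ d ∈ orb K c, d ≠ c ∧ Nat.card (K ⊓ stabilizer G c :) ≤ 2 * Nat.card (K ⊓ stabilizer G c ⊓ stabilizer G d :) := by
  obtain ⟨d, hd, hdc⟩ := exists_mem_ne (by omega : 1 < #(orb K c)) c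
  refine ⟨d, hd, hdc, ?_⟩
  rw [← card_orb _ d]
  refine Nat.mul_le_mul_right _ ((card_le_card (t := (orb K c).erase c) fun y hy => ?_).trans ?_)
  · obtain ⟨k, ⟨h1, h2⟩, rfl⟩ := mem_orb.mp hy
    obtain ⟨k', h3, rfl⟩ := mem_orb.mp hd
    exact mem_erase.mpr ⟨fun e => hdc (MulAction.injective k (e.trans h2.symm)),
      mem_orb.mpr ⟨k * k', mul_mem h1 h3, mul_smul _ _ _⟩⟩
  · rw [card_erase_of_mem (mem_orb.mpr ⟨1, one_mem _, one_smul _ _⟩), hc]

omit [Finite G] [FaithfulSMul G α] in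
theorem orb_sub {a b c : α} (ha : c ≠ a) (hb : c ≠ b) :
    orb (stabilizer G a ⊓ stabilizer G b) c ⊆ (univ.erase a).erase b := fun y hy => by
  obtain ⟨k, ⟨h1, h2⟩, rfl⟩ := mem_orb.mp hy
  simp only [mem_erase, mem_univ, and_true]
  exact ⟨fun e => hb (MulAction.injective k (e.trans h2.symm)), fun e => ha (MulAction.injective k (e.trans h1.symm))⟩

omit [Finite G] [FaithfulSMul G α] in
theorem nine (hα : Fintype.card α = 11) {a b : α} (hab : a ≠ b)
    (h : ∀ c, c ≠ a → c ≠ b → #(orb (stabilizer G a ⊓ stabilizer G b) c) ≤ 9 →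
      #(orb (stabilizer G a ⊓ stabilizer G b) c) = 6 ∨ #(orb (stabilizer G a ⊓ stabilizer G b) c) = 9)
    {c : α} (ha : c ≠ a) (hb : c ≠ b) : #(orb (stabilizer G a ⊓ stabilizer G b) c) = 9 := by
  have h9 : #((univ.erase a).erase b) = 9 := by
    rw [card_erase_of_mem (by simp [hab.symm]), card_erase_of_mem (mem_univ _), card_univ, hα]
  refine (h c ha hb (h9 ▸ card_le_card (orb_sub ha hb))).resolve_left fun e => ?_
  have h3 := card_sdiff_of_subset (orb_sub (G := G) ha hb)
  obtain ⟨d, hd⟩ := card_pos.mp (by omega : 0 < #((univ.erase a).erase b \ orb (stabilizer G a ⊓ stabilizer G b) c))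
  obtain ⟨h1, h2⟩ := mem_sdiff.mp hd
  simp only [mem_erase, mem_univ, and_true] at h1
  have h4 : orb (stabilizer G a ⊓ stabilizer G b) d ⊆ (univ.erase a).erase b \ orb (stabilizer G a ⊓ stabilizer G b) c :=
    fun y hy => mem_sdiff.mpr ⟨orb_sub h1.2 h1.1 hy, fun hy' => by
      obtain ⟨k, h5, rfl⟩ := mem_orb.mp hy
      obtain ⟨k', h6, h7⟩ := mem_orb.mp hy'
      exact h2 (mem_orb.mpr ⟨k⁻¹ * k', mul_mem (inv_mem h5) h6, by rw [mul_smul, h7, inv_smul_smul]⟩)⟩
  have h5 := card_le_card h4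
  have := h d h1.2 h1.1 (by omega)
  omega

omit [Finite G] [FaithfulSMul G α] [Fintype α] [DecidableEq α] in
theorem mem_stab {k : ℕ} {x : Fin k ↪ α} {g : G} : g ∈ stabilizer G x ↔ ∀ i, g • x i = x i := by
  rw [mem_stabilizer_iff, DFunLike.ext_iff]; rfl

omit [FaithfulSMul G α] in
theorem count {k : ℕ} (h : IsMultiplyPretransitive G α k) (x : Fin k ↪ α) (v : G) :
    (#(fx α v)).descFactorial k * Nat.card (stabilizer G x) =
      Nat.card (centralizer ({v} : Set G)) * {g : G | IsConj v g ∧ g ∈ stabilizer G x}.ncard := by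
  rw [← card_fixedBy_quotient_mul]
  congr 1
  have h1 : Nat.card (fixedBy (G ⧸ stabilizer G x) v) = Nat.card (fixedBy (Fin k ↪ α) v) := by
    refine Set.ncard_congr (fun q _ => ofQuotientStabilizer G x q) (fun q hq => ?_)
      (fun _ _ _ _ e => injective_ofQuotientStabilizer G x e) fun y hy => ?_
    · rw [mem_fixedBy, ← ofQuotientStabilizer_smul, mem_fixedBy.mp hq]
    · obtain ⟨g, rfl⟩ := exists_smul_eq G x y
      exact ⟨g, injective_ofQuotientStabilizer G x (by rw [ofQuotientStabilizer_smul]; exact hy), rfl⟩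
  have h2 : Nat.card (fixedBy (Fin k ↪ α) v) = Nat.card (Fin k ↪ fx α v) :=
    Nat.card_congr ⟨fun y => ⟨fun i => ⟨y.1 i, mem_fx.mpr (mem_stab.mp y.2 i)⟩,
      fun _ _ e => y.1.injective (congrArg Subtype.val e)⟩,
      fun z => ⟨z.trans (.subtype _), mem_stab.mpr fun i => mem_fx.mp (z i).2⟩, fun _ => rfl, fun _ => rfl⟩
  rw [h1, h2, Nat.card_eq_fintype_card, Fintype.card_embedding_eq]
  simp

end Cfsg.Agent.Deg11
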