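import Mathlib
import Cfsg.Agent.Isaacs.Real2
import Cfsg.Agent.Core.Product

/-! Fully ramified characters: Sylow subgroups and complements (Howlett and Isaacs). -/

set_option autoImplicit false

namespace Cfsg.Agent.Isaacs

open Cfsg Cfsg.Agent.Char Cfsg.Agent.Core Subgroup
open scoped ComplexConjugate commutatorElement Pointwise

variable {G : Type*} [Group G] [Finite G] {D H K L M N P Q S X Z : Subgroup G} {θ φ ψ χ η ξ : G → ℂ} {p e : ℕ}

/-- `χ` is fully ramified over `θ` -/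
structure FR (X Z : Subgroup G) (χ θ : G → ℂ) (e : ℕ) : Prop where
  le : Z ≤ X
  nm : X ≤ normalizer (Z : Set G)
  irr : Irr X χ
  irr' : Irr Z θ
  res : Eqv Z χ ((e : ℂ) • θ)
  sq : e ^ 2 = Z.relIndex X

theorem FR.ne (h : FR X Z χ θ e) : (e : ℂ) ≠ 0 := fun i => relIndex_ne h.le (by rw [← h.sq, Nat.cast_pow, i]; simp)

theorem FR.inv (h : FR X Z χ θ e) : Inv X Z θ := (h.irr.inv.mono le_rfl h.le).of_smul h.nm h.ne h.res

theorem FR.zero (h : FR X Z χ θ e) : ∀ g ∈ X, g ∉ Z → χ g = 0 :=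
  (h.irr.norm_res_eq_iff h.le).mp (h.sq ▸ h.irr'.norm_of_smul h.res)

theorem FR.ind_eq (h : FR X Z χ θ e) (h1 : Z ≤ L) (h2 : L ≤ X) : Eqv L ((Z.relIndex L : ℂ) • χ) ((e : ℂ) • ind Z L θ) := fun x i => by
  by_cases j : x ∈ Z
  · simp [(h.inv.mono h2 le_rfl).ind_res (h2.trans h.nm) h1 x j, h.res x j, mul_left_comm]
  simp [h.zero x (h2 i) j, ind_eq_zero_of_normal (h2.trans h.nm) j]

theorem FR.inn_eq (h : FR X Z χ θ e) (h1 : Z ≤ L) (h2 : L ≤ X) (hψ : Chr L ψ) :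
    Z.relIndex L * inn L χ ψ = e * inn Z ψ θ := by
  rw [← inn_smul_left, (h.ind_eq h1 h2).inn_left, inn_smul_left, inn_ind_left h1 hψ.inv, h.irr'.chr.inn_comm (hψ.res h1)]

theorem FR.over_iff (h : FR X Z χ θ e) (h1 : Z ≤ L) (h2 : L ≤ X) (hψ : Chr L ψ) : inn L χ ψ ≠ 0 ↔ inn Z ψ θ ≠ 0 := by
  rw [← mul_ne_zero_iff_left (relIndex_ne h1), h.inn_eq h1 h2 hψ, mul_ne_zero_iff_left h.ne]

theorem FR.eqv (h : FR X Z χ θ e) (hη : Irr X η) (i : inn Z η θ ≠ 0) : Eqv X χ η :=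
  h.irr.eqv hη ((h.over_iff h.le le_rfl hη.chr).mpr i)

theorem FR.sylow [hp : Fact p.Prime] (h : FR X Z χ θ e) (hS : IsSylowOf p S X) : ∃ ξ f, FR (Z ⊔ S) Z ξ θ f := by
  have a : Z ⊔ S ≤ X := sup_le h.le hS.le
  obtain ⟨ξ, b, c⟩ := h.irr'.exists_over (le_sup_left : Z ≤ Z ⊔ S)
  obtain ⟨f, f0, d, g⟩ := b.ram (a.trans h.nm) le_sup_left h.irr' (h.inv.mono a le_rfl) c
  refine ⟨ξ, f, le_sup_left, a.trans h.nm, b, h.irr', g, ?_⟩
  obtain ⟨m, i⟩ := (h.irr.chr.res a).inn_nat b.chr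
  have j := h.inn_eq le_sup_left a b.chr
  rw [i, h.irr'.inn_of_smul g, ← Nat.cast_mul, ← Nat.cast_mul, Nat.cast_inj] at j
  obtain ⟨k, o⟩ := relIndex_sup_pow hp.out hS.isPGroup (hS.le.trans h.nm)
  obtain ⟨l, -, rfl⟩ := (Nat.dvd_prime_pow hp.out).mp (o ▸ d)
  have r : ¬ p ∣ (Z ⊔ S).relIndex X := fun r => hS.not_dvd (r.trans (relIndex_dvd_of_le_left _ le_sup_right))
  have s := h.sq.trans (relIndex_mul_relIndex _ _ _ le_sup_left a).symm
  obtain ⟨n, n0, u⟩ := h.irr'.deg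
  have v := Nat.le_of_mul_le_mul_right ((mul_assoc _ _ _).trans_le ((h.irr'.chr.indc (le_sup_left : Z ≤ Z ⊔ S)).mult_deg_le b (m := p ^ l) (by
    rw [inn_ind_left le_sup_left b.inv, h.irr'.chr.inn_comm (b.chr.res le_sup_left), h.irr'.inn_of_smul g]) (a := p ^ k * n)
    (b := p ^ l * n) (by simp [ind_one, o, u]) (by simp [g.one, u]))) n0
  rw [o] at j s ⊢
  have w : p ^ k * p ^ k ∣ p ^ k * (p ^ l * p ^ l) := ((hp.out.coprime_iff_not_dvd.mpr r).pow_left k |>.mul_left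
    ((hp.out.coprime_iff_not_dvd.mpr r).pow_left k)).dvd_of_dvd_mul_right ⟨m * m, by
      zify at s j ⊢
      linear_combination -(p ^ l * p ^ l) * s - (p ^ k * m + e * p ^ l) * j⟩
  rw [_root_.sq]
  exact v.antisymm (Nat.le_of_dvd (Nat.mul_pos f0 f0) (Nat.dvd_of_mul_dvd_mul_left (pow_pos hp.out.pos k) w))

theorem FR.exists_cj (h : FR X Z χ θ e) (h1 : Z ≤ L) (h2 : L ≤ X) (hn : X ≤ normalizer (L : Set G)) (a : Irr L ψ) (b : Irr L φ)
    (c : inn Z ψ θ ≠ 0) (d : inn Z φ θ ≠ 0) : ∃ g ∈ X, Eqv L φ (cj g ψ) :=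
  h.irr.exists_cj hn h2 a b ((h.over_iff h1 h2 a.chr).mpr c) ((h.over_iff h1 h2 b.chr).mpr d)

theorem FR.count (h : FR X Z χ θ e) (h1 : Z ≤ L) (h2 : L ≤ X) (hn : X ≤ normalizer (L : Set G)) (a : Irr L ψ) {f : ℕ}
    (f0 : 0 < f) (c : Eqv Z ψ ((f : ℂ) • θ)) : (stab L ψ).relIndex X * f ^ 2 = Z.relIndex L := by
  have b := h.irr'.inn_of_smul c
  have d := (h.over_iff h1 h2 a.chr).mpr (by rw [b, Nat.cast_ne_zero]; omega)
  have i := h.irr.deg_eq hn h2 a d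
  have j := h.inn_eq h1 h2 a.chr
  rw [h.res.one, c.one, Pi.smul_apply, Pi.smul_apply, smul_eq_mul, smul_eq_mul, ← mul_assoc, ← mul_assoc,
    mul_left_inj' h.irr'.one_ne] at i
  refine Nat.cast_injective (R := ℂ) (mul_right_cancel₀ d ?_)
  rw [j, b, i]; push_cast; ring

theorem FR.index_stab [hp : Fact p.Prime] [K.Normal] (h : FR ⊤ Z χ θ e) (hS : IsSylowOf p S ⊤) (hK : Z ≤ K)
    (hQ : Q = (Z ⊔ S) ⊓ K) (a : Irr Q ψ) (c : inn Z ψ θ ≠ 0) : (K ⊔ stab Q ψ).index = (stab Q ψ).relIndex (Z ⊔ S) := by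
  have := normal_of_le_normalizer h.nm
  obtain ⟨ξ, f, r⟩ := h.sylow hS
  have q1 : Z ≤ Q := hQ ▸ le_inf le_sup_left hK
  have q2 : Q ≤ K := hQ ▸ inf_le_right
  have q3 : Z ⊔ S ≤ normalizer (Q : Set G) := hQ ▸ le_normalizer_inf le_normalizer norm_top
  have q4 := hS.inf_of_normal le_top (norm_top (N := K))
  have q5 : Q = Z ⊔ S ⊓ K := hQ.trans (sup_inf_of_le_left norm_top hK)
  have q6 : S ⊓ K ≤ stab Q ψ := (q5.ge.trans' le_sup_right).trans a.inv.le_stab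
  have d := (forall_exists_mul_iff_relIndex_eq q3 (stab_le (L := Q) (θ := ψ))).mp fun n i => by
    obtain ⟨g, u, v⟩ := r.exists_cj q1 (hQ ▸ inf_le_left) q3 a (a.cjg (inv_mem i)) c (by
      rwa [← inn_conj, h.inv.inn_cj (norm_top (A := ⊤) trivial) trivial, inn_conj])
    exact ⟨_, inv_mem u, _, inv_mem ((cj_eqv_cj (q3 (one_mem _)) (mul_mem (q3 u) i)).mp (by
      simpa [cj_cj, cj_one] using v.cjg i)), by simp⟩
  obtain ⟨k, o⟩ := relIndex_sup_pow hp.out hS.isPGroup (hS.le.trans h.nm)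
  have g : K ⊓ normalizer (Q : Set G) ≤ stab Q ψ := relIndex_eq_one.mp (Nat.eq_one_of_dvd_coprimes
    ((hp.out.coprime_iff_not_dvd.mpr q4.not_dvd).pow_left k) (by
      rw [← relIndex_sup_eq_relIndex (stab_le.trans (le_normalizer_inf norm_top le_normalizer)), ← o]
      exact (Dvd.intro _ (relIndex_mul_relIndex _ _ _ le_sup_right (sup_le inf_le_right stab_le))).trans
        (d ▸ relIndex_dvd_of_le_left _ (q1.trans a.inv.le_stab))) ((relIndex_dvd_of_le_left _ q6).trans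
      (Dvd.intro _ (relIndex_mul_relIndex _ _ _ (le_inf inf_le_right (q6.trans stab_le)) inf_le_left))))
  rw [← (forall_exists_mul_iff_relIndex_eq_index (normalizer (Q : Set G)) _).mp fun x => ?_, ← inf_relIndex_right,
    sup_inf_of_le_right norm_top stab_le, sup_eq_right.mpr g, d]
  obtain ⟨y, u, z, v, rfl⟩ := (mem_sup_of_le_normalizer' norm_top).mp ((sup_comm _ _).trans q4.frattini_top |>.ge (mem_top x))
  exact ⟨y, q5 ▸ le_normalizer_sup norm_top le_rfl u, z, mem_sup_left v, rfl⟩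

theorem FR.stab_le_of_cyc (h : FR P Z χ θ e) (h1 : Z ≤ Q) (h2 : Q ≤ P) (hn : P ≤ normalizer (Q : Set G))
    (a : Irr Q ψ) (c : inn Z ψ θ ≠ 0) {u : G} (hu : u ∈ stab Q ψ ⊓ P) (hc : stab Q ψ ⊓ P ≤ Q ⊔ zpowers u) : u ∈ Q := by
  by_contra i
  have l : Q ≤ stab Q ψ ⊓ P := le_inf a.inv.le_stab h2
  have n := inf_le_right.trans hn (a := stab Q ψ ⊓ P)
  obtain ⟨μ, b, d⟩ := a.exists_ext_cyc n l (inv_stab.mono inf_le_left le_rfl) hc hu
  obtain ⟨β, f, g, j⟩ := exists_irr_not_ker n l hu i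
  have k := f.mul_of_ker n l g b.chr (a.congr d.symm)
  have o : inn Q μ ψ ≠ 0 := d.inn_left ▸ a.inn_self_ne
  have r : inn Q (β * μ) ψ ≠ 0 := a.inn_mul_ker g d ▸ f.one_ne
  have s : ∀ {μ}, Irr (stab Q ψ ⊓ P) μ → inn Q μ ψ ≠ 0 → inn (stab Q ψ ⊓ P) χ μ ≠ 0 := fun b o =>
    (h.over_iff (h1.trans l) inf_le_right b.chr).mpr ((b.chr.res l).over_trans h1 a h.irr'.chr o c)
  have t := f.eqv_of_mul n l g irr_one (fun _ _ => rfl) b.chr (a.congr d.symm)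
    ((a.eqv_of_stab hn l inf_le_right rfl k b r o h.irr (s k r) (s b o)).trans fun _ _ => (one_mul _).symm)
  exact j ((t u hu).trans t.one.symm)

theorem FR.exists_cent [Z.Normal] (h : FR ⊤ Z χ θ e) {c : G} (hc : c ∉ Z) : ∃ g, g * c * g⁻¹ * c⁻¹ ∈ Z ∧ g ∉ Z ⊔ zpowers c := by
  classical
  by_contra! a
  have := Fintype.ofFinite G
  set D := Z ⊔ zpowers c
  have d : c ∈ D := mem_sup_right (mem_zpowers c)
  obtain ⟨μ, b, f⟩ := h.irr'.exists_ext_cyc norm_top le_sup_left (h.inv.mono le_top le_rfl) le_rfl d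
  let α : G → ℂ := fun x => if x * c⁻¹ ∈ Z then μ x else 0
  have k : ∀ η, Nat.card D * inn D α η = Nat.card Z * inn Z (sh c μ) (sh c η) := fun η => by
    rw [card_mul_inn, card_mul_inn]
    refine (Finset.sum_of_injOn (fun z : Z => (⟨z * c, mul_mem (mem_sup_left z.2) d⟩ : D)) (fun x _ y _ i => by simpa using i)
      (by simp) (fun x _ i => ?_) fun z _ => by simp [α, sh]).symm
    rw [show α x = 0 from if_neg fun j => i ⟨⟨_, j⟩, by simp⟩, zero_mul]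
  have g : Eqv ⊤ (ind D ⊤ α) 0 := ind_inv.ext (inv_const 0) fun η i => by
    rw [inn_ind_left le_top i.inv, inn_zero_left, ← mul_right_inj' (card_ne_zero (G := D)), k, mul_zero]
    by_cases j : inn Z η θ = 0
    · rw [b.chr.inn_sh_eq_zero norm_top le_sup_left (i.chr.res le_top) (by
        rw [f.inn_left, h.irr'.chr.inn_comm (i.chr.res le_top), j]) d, mul_zero]
    rw [Eqv.inn_right (θ := sh c η) (φ := 0) fun z o => (h.eqv i j _ trivial).symm.trans (h.zero _ trivial fun r => hc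
      ((Z.mul_mem_cancel_left o).mp r)), inn_zero_right, mul_zero]
  have i := b.chr.inn_sh_self norm_top le_sup_left (h.irr'.congr f.symm) d
  rw [Eqv.inn_left (φ := 0) fun z o => ?_, inn_zero_left] at i
  · exact zero_ne_one i
  have j := g (z * c) trivial
  have m : z * c ∈ D := mul_mem (mem_sup_left o) d
  rw [ind_apply (mem_top _) le_top, Finset.sum_congr rfl (g := fun y => if y.1 ∈ D then μ (z * c) else 0) fun y _ => ?_, Finset.sum_ite,
    Finset.sum_const_zero, add_zero, Finset.sum_const, nsmul_eq_mul, Pi.zero_apply, mul_eq_zero, mul_eq_zero, Nat.cast_eq_zero,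
    Finset.card_eq_zero] at j
  · exact (j.resolve_left (inv_ne_zero card_ne_zero)).resolve_left (Finset.ne_empty_of_mem (a := 1) (by simp))
  have r : y * (z * c) * (y : G)⁻¹ * c⁻¹ ∈ Z ↔ y * c * (y : G)⁻¹ * c⁻¹ ∈ Z := by
    rw [show y * (z * c) * (y : G)⁻¹ * c⁻¹ = y * z * (y : G)⁻¹ * (y * c * (y : G)⁻¹ * c⁻¹) by group,
      Z.mul_mem_cancel_left (‹Z.Normal›.conj_mem z o y)]
  split_ifs with s
  · rw [Set.indicator_of_mem (conj_mem le_normalizer s m), ← b.inv _ s _ m]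
    refine if_pos (r.mpr ?_)
    obtain ⟨u, v, _, ⟨n, rfl⟩, w⟩ := (mem_sup_of_le_normalizer norm_top).mp s
    rw [w, show u * c ^ n * c * (u * c ^ n)⁻¹ * c⁻¹ = u * (c * u⁻¹ * c⁻¹) by group]
    exact mul_mem v (‹Z.Normal›.conj_mem _ (inv_mem v) c)
  exact Set.indicator_apply_eq_zero.mpr fun _ => if_neg fun t => s (a _ (r.mp t))

omit [Finite G] in
theorem fr_of {Z : Subgroup G} [Z.Normal] {χ : IrrCharacter G}
    (h : ∃ (θ : IrrCharacter Z) (e : ℕ), e ^ 2 = Z.index ∧ ∀ z : Z, χ.1 z = e * θ.1 z) : ∃ θ e, FR ⊤ Z χ.1 θ e :=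
  have ⟨θ, e, a, b⟩ := h
  ⟨_, e, le_top, norm_top, irr_top.mpr χ.2, irr_ez.mpr θ.2, fun x i => (b ⟨x, i⟩).trans (by simp [ez_mem _ i]), by simpa using a⟩

end Cfsg.Agent.Isaacs
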