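import Mathlib
import Cfsg.Agent.Perm.Multi
import Cfsg.Agent.Perm.PFixed
import Cfsg.Agent.Perm.PrimeDegree

set_option autoImplicit false
set_option linter.unusedSectionVars false

namespace Cfsg.Agent.Isaacs.GW

open MulAction Finset Cfsg.Agent.Perm

variable {G Ω : Type*} [Group G] [Fintype G] [Fintype Ω] [MulAction G Ω] [DecidableEq G]
  [DecidableEq Ω]

structure Sub (H : Finset G) : Prop where
  one : 1 ∈ H
  mul : ∀ {g h}, g ∈ H → h ∈ H → g * h ∈ H
  inv : ∀ {g}, g ∈ H → g⁻¹ ∈ H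

def ob (H : Finset G) (c : Ω) : Finset Ω := H.image (· • c)
def sb (H : Finset G) (c : Ω) : Finset G := H.filter (· • c = c)

theorem mem_ob {H : Finset G} {c x : Ω} : x ∈ ob H c ↔ ∃ g ∈ H, g • c = x := mem_image
theorem mem_sb {H : Finset G} {c : Ω} {g : G} : g ∈ sb H c ↔ g ∈ H ∧ g • c = c := mem_filter

theorem Sub.os {H : Finset G} (h : Sub H) (c : Ω) : #(ob H c) * #(sb H c) = #H := by
  rw [card_eq_sum_card_image (· • c) H, sum_const_nat (m := #(sb H c))]
  · rfl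
  intro x hx
  obtain ⟨k, hk, rfl⟩ := mem_image.1 hx
  refine card_nbij' (fun g => k⁻¹ * g) (fun g => k * g) ?_ ?_ (fun g _ => by simp)
    (fun g _ => by simp)
  · intro g hg
    simp only [coe_filter, Set.mem_ofPred_eq] at hg
    exact mem_sb.2 ⟨h.mul (h.inv hk) hg.1, by rw [mul_smul, hg.2, inv_smul_smul]⟩
  · intro g hg
    have := mem_sb.1 hg
    simp only [coe_filter, Set.mem_ofPred_eq]
    exact ⟨h.mul hk this.1, by rw [mul_smul, this.2]⟩

theorem Sub.self {H : Finset G} (h : Sub H) (c : Ω) : c ∈ ob H c := mem_ob.2 ⟨1, h.one, one_smul _ _⟩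

theorem Sub.ob_eq {H : Finset G} (h : Sub H) {c x : Ω} (hx : x ∈ ob H c) : ob H x = ob H c := by
  obtain ⟨k, hk, rfl⟩ := mem_ob.1 hx
  ext y
  simp only [mem_ob]
  constructor
  · rintro ⟨g, hg, rfl⟩; exact ⟨g * k, h.mul hg hk, mul_smul _ _ _⟩
  · rintro ⟨g, hg, rfl⟩; exact ⟨g * k⁻¹, h.mul hg (h.inv hk), by simp [mul_smul]⟩

theorem Sub.sum_ob {H : Finset G} (h : Sub H) (c : Ω) : ∑ x ∈ ob H c, #(sb H x) = #H := by
  rw [sum_const_nat (m := #(sb H c)), h.os]
  intro x hx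
  have h1 := h.os x
  rw [h.ob_eq hx, ← h.os c] at h1
  exact Nat.eq_of_mul_eq_mul_left (card_pos.2 ⟨c, h.self c⟩) h1

theorem Sub.sb {H : Finset G} (h : Sub H) (c : Ω) : Sub (sb H c) :=
  ⟨mem_sb.2 ⟨h.one, one_smul _ _⟩, fun hg hk => mem_sb.2 ⟨h.mul (mem_sb.1 hg).1 (mem_sb.1 hk).1,
    by rw [mul_smul, (mem_sb.1 hk).2, (mem_sb.1 hg).2]⟩,
    fun hg => mem_sb.2 ⟨h.inv (mem_sb.1 hg).1, inv_smul_eq_iff.2 (mem_sb.1 hg).2.symm⟩⟩

theorem sub_univ : Sub (univ : Finset G) := ⟨mem_univ _, fun _ _ => mem_univ _, fun _ => mem_univ _⟩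

variable (G) in
def St (a b : Ω) : Finset G := sb (sb univ a) b

theorem mem_St {a b : Ω} {g : G} : g ∈ St G a b ↔ g • a = a ∧ g • b = b := by
  simp [St, mem_sb]

theorem sub_St (a b : Ω) : Sub (St G a b) := (sub_univ.sb a).sb b

variable (Ω) in
def fx (g : G) : Finset Ω := univ.filter fun x => g • x = x

theorem mem_fx {g : G} {x : Ω} : x ∈ fx Ω g ↔ g • x = x := by simp [fx]

theorem sum_fx (H : Finset G) : ∑ g ∈ H, #(fx Ω g) = ∑ x : Ω, #(sb H x) :=
  sum_card_bipartiteAbove_eq_sum_card_bipartiteBelow (s := H) (t := univ) fun g (x : Ω) => g • x = x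

theorem card_sb [IsPretransitive G Ω] (a : Ω) :
    Fintype.card Ω * #(sb (univ : Finset G) a) = Fintype.card G := by
  have := sub_univ.os (G := G) a
  rwa [show ob (univ : Finset G) a = univ from eq_univ_of_forall fun x => mem_ob.2 (by
    obtain ⟨g, hg⟩ := exists_smul_eq G a x
    exact ⟨g, mem_univ _, hg⟩)] at this

theorem sum_sb [IsPretransitive G Ω] [Nonempty Ω] :
    ∑ a : Ω, #(sb (univ : Finset G) a) = Fintype.card G := by
  have := sub_univ.sum_ob (G := G) (Classical.arbitrary Ω)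
  rwa [show ob (univ : Finset G) (Classical.arbitrary Ω) = univ from
    eq_univ_of_forall fun x => mem_ob.2 (by
      obtain ⟨g, hg⟩ := exists_smul_eq G (Classical.arbitrary Ω) x
      exact ⟨g, mem_univ _, hg⟩)] at this

theorem der [IsPretransitive G Ω] [Nonempty Ω] :
    (#(univ.filter fun g : G => ∀ x : Ω, g • x ≠ x) : ℚ) =
      ∑ a : Ω, ∑ b ∈ univ.erase a, ∑ g ∈ St G a b, 1 / (#(fx Ω g) : ℚ) := by
  have h1 : ∑ g : G, #(fx Ω g) = Fintype.card G := by rw [sum_fx, sum_sb]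
  have h2 : ∀ a b : Ω, ∑ g ∈ St G a b, 1 / (#(fx Ω g) : ℚ) =
      ∑ g : G, if g • a = a ∧ g • b = b then 1 / (#(fx Ω g) : ℚ) else 0 := by
    intro a b
    rw [← sum_filter]
    congr 1; ext g; simp [mem_St]
  simp only [h2]
  rw [sum_congr rfl fun a _ => sum_comm, sum_comm]
  have h3 : ∀ g : G, (∑ a : Ω, ∑ b ∈ univ.erase a,
      if g • a = a ∧ g • b = b then 1 / (#(fx Ω g) : ℚ) else 0) =
      #(fx Ω g) - 1 + if ∀ x : Ω, g • x ≠ x then 1 else 0 := by
    intro g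
    have h4 : ∀ a : Ω, (∑ b ∈ univ.erase a,
        if g • a = a ∧ g • b = b then 1 / (#(fx Ω g) : ℚ) else 0) =
        if g • a = a then (#(fx Ω g) - 1) / (#(fx Ω g) : ℚ) else 0 := by
      intro a
      split_ifs with ha
      · simp only [ha, true_and]
        rw [← sum_filter, sum_const, show ((univ.erase a).filter fun x => g • x = x) = (fx Ω g).erase a by
          ext; simp [fx], card_erase_of_mem (mem_fx.2 ha), nsmul_eq_mul,
          Nat.cast_pred (card_pos.2 ⟨a, mem_fx.2 ha⟩), mul_one_div]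
      · simp [ha]
    simp only [h4]
    rw [← sum_filter, sum_const, nsmul_eq_mul]
    change (#(fx Ω g) : ℚ) * _ = _
    split_ifs with h
    · rw [show fx Ω g = ∅ from eq_empty_of_forall_notMem fun x hx => h x (mem_fx.1 hx)]
      simp
    · push Not at h
      obtain ⟨x, hx⟩ := h
      have : (#(fx Ω g) : ℚ) ≠ 0 := by exact_mod_cast (card_pos.2 ⟨x, mem_fx.2 hx⟩).ne'
      field_simp
      ring
  simp only [h3, sum_add_distrib, sum_sub_distrib, ← Nat.cast_sum, h1]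
  simp

theorem fx_pos {a b : Ω} {g : G} (hg : g ∈ St G a b) : (0 : ℚ) < #(fx Ω g) := by
  exact_mod_cast card_pos.2 ⟨a, mem_fx.2 (mem_St.1 hg).1⟩

theorem not_two [IsPretransitive G Ω] [Nonempty Ω]
    (h : ¬ ∀ a b c d : Ω, a ≠ b → c ≠ d → ∃ g : G, g • a = c ∧ g • b = d) :
    2 * Fintype.card G ≤ Fintype.card Ω * #(univ.filter fun g : G => ∀ x : Ω, g • x ≠ x) := by
  have hn : (0 : ℚ) < Fintype.card Ω := by exact_mod_cast Fintype.card_pos
  have h1 : ∀ a : Ω, 2 * #(sb (univ : Finset G) a) ≤ ∑ b ∈ univ.erase a, #(St G a b) := by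
    intro a
    obtain ⟨b, c, hb, hc, hbc⟩ : ∃ b c, b ≠ a ∧ c ≠ a ∧ c ∉ ob (sb (univ : Finset G) a) b := by
      by_contra hc
      push Not at hc
      refine h fun x y z w h1 h2 => ?_
      obtain ⟨g, rfl⟩ := exists_smul_eq G a x
      obtain ⟨k, rfl⟩ := exists_smul_eq G a z
      obtain ⟨u, hu, e⟩ := mem_ob.1 (hc (g⁻¹ • y) (k⁻¹ • w) (fun e => h1 (by simp [← e]))
        (fun e => h2 (by simp [← e])))
      exact ⟨k * u * g⁻¹, by simp [mul_smul, (mem_sb.1 hu).2], by simp [mul_smul, e]⟩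
    have hs := (sub_univ (G := G)).sb a
    have hd : Disjoint (ob (sb (univ : Finset G) a) b) (ob (sb (univ : Finset G) a) c) :=
      disjoint_left.2 fun x h1 h2 => hbc (by rw [← hs.ob_eq h1, hs.ob_eq h2]; exact hs.self c)
    have hm : ∀ b, b ≠ a → ob (sb (univ : Finset G) a) b ⊆ univ.erase a := fun b hb x hx => by
      obtain ⟨g, hg, rfl⟩ := mem_ob.1 hx
      exact mem_erase.2 ⟨fun e => hb (smul_left_cancel g (e.trans (mem_sb.1 hg).2.symm)),
        mem_univ _⟩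
    rw [two_mul]
    nth_rewrite 1 [← hs.sum_ob b]
    rw [← hs.sum_ob c, ← sum_union hd]
    exact sum_le_sum_of_subset (union_subset (hm b hb) (hm c hc))
  have h2 : ∀ a b : Ω, (#(St G a b) : ℚ) ≤
      Fintype.card Ω * ∑ g ∈ St G a b, 1 / (#(fx Ω g) : ℚ) := by
    intro a b
    rw [mul_sum, card_eq_sum_ones, Nat.cast_sum]
    refine sum_le_sum fun g hg => ?_
    rw [mul_one_div, Nat.cast_one, one_le_div (fx_pos hg)]
    exact_mod_cast card_le_univ _
  have h3 : ((2 * Fintype.card G : ℕ) : ℚ) ≤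
      Fintype.card Ω * #(univ.filter fun g : G => ∀ x : Ω, g • x ≠ x) := by
    rw [der, mul_sum]
    have : 2 * Fintype.card G = ∑ a : Ω, 2 * #(sb (univ : Finset G) a) := by
      rw [← mul_sum, sum_sb]
    rw [this, Nat.cast_sum]
    refine sum_le_sum fun a _ => ?_
    rw [mul_sum]
    refine le_trans ?_ (sum_le_sum fun b _ => h2 a b)
    exact_mod_cast h1 a
  exact_mod_cast h3

variable (G Ω) in
def Two : Prop := ∀ a b c d : Ω, a ≠ b → c ≠ d → ∃ g : G, g • a = c ∧ g • b = d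

variable (G) in
def Ln (a b : Ω) : Finset Ω := univ.filter fun x => ∀ g ∈ St G a b, g • x = x

variable (G) in
def V (a b : Ω) : Finset Ω := univ.filter fun x => 3 ≤ #(ob (St G a b) x)

theorem mem_Ln {a b x : Ω} : x ∈ Ln G a b ↔ ∀ g ∈ St G a b, g • x = x := by simp [Ln]
theorem mem_V {a b x : Ω} : x ∈ V G a b ↔ 3 ≤ #(ob (St G a b) x) := by simp [V]

theorem St_conj {a b : Ω} {g : G} (h : G) (hg : g ∈ St G a b) :
    h * g * h⁻¹ ∈ St G (h • a) (h • b) := by
  rw [mem_St] at hg ⊢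
  simp [mul_smul, hg.1, hg.2]

theorem St_comm (a b : Ω) : St G a b = St G b a := by ext; simp [mem_St, and_comm]

theorem Ln_comm (a b : Ω) : Ln G a b = Ln G b a := by rw [Ln, St_comm a b, Ln]

theorem card_St (two : Two G Ω) {a b c d : Ω} (h1 : a ≠ b) (h2 : c ≠ d) :
    #(St G a b) = #(St G c d) := by
  have : ∀ {a b c d : Ω}, a ≠ b → c ≠ d → #(St G a b) ≤ #(St G c d) := by
    intro a b c d h1 h2
    obtain ⟨g, rfl, rfl⟩ := two a b c d h1 h2
    exact card_le_card_of_injOn (fun h => g * h * g⁻¹) (fun h hh => St_conj g hh)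
      (fun h _ k _ e => by simpa using e)
  exact le_antisymm (this h1 h2) (this h2 h1)

theorem card_Ln (two : Two G Ω) {a b c d : Ω} (h1 : a ≠ b) (h2 : c ≠ d) :
    #(Ln G a b) ≤ #(Ln G c d) := by
  obtain ⟨g, rfl, rfl⟩ := two a b c d h1 h2
  refine card_le_card_of_injOn (fun x => g • x) (fun x hx => mem_Ln.2 fun h hh => ?_)
    (fun h _ k _ e => by simpa using e)
  have := mem_Ln.1 hx _ (by simpa using St_conj g⁻¹ hh)
  simpa [mul_smul, inv_smul_eq_iff] using this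

theorem card_V (two : Two G Ω) {a b c d : Ω} (h1 : a ≠ b) (h2 : c ≠ d) :
    #(V G a b) ≤ #(V G c d) := by
  obtain ⟨g, rfl, rfl⟩ := two a b c d h1 h2
  refine card_le_card_of_injOn (fun x => g • x) (fun x hx => mem_V.2 ((mem_V.1 hx).trans ?_))
    (fun h _ k _ e => by simpa using e)
  refine card_le_card_of_injOn (fun x => g • x) (fun y hy => ?_) (fun h _ k _ e => by simpa using e)
  obtain ⟨k, hk, rfl⟩ := mem_ob.1 hy
  exact mem_ob.2 ⟨_, St_conj g hk, by simp [mul_smul]⟩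

theorem St_eq (two : Two G Ω) {a b c d : Ω} (h1 : a ≠ b) (h2 : c ≠ d) (hc : c ∈ Ln G a b)
    (hd : d ∈ Ln G a b) : St G a b = St G c d :=
  eq_of_subset_of_card_le (fun g hg => mem_St.2 ⟨mem_Ln.1 hc g hg, mem_Ln.1 hd g hg⟩)
    (card_St two h2 h1).le

theorem left_mem_Ln (a b : Ω) : a ∈ Ln G a b := mem_Ln.2 fun _ hg => (mem_St.1 hg).1
theorem right_mem_Ln (a b : Ω) : b ∈ Ln G a b := mem_Ln.2 fun _ hg => (mem_St.1 hg).2

theorem exists_mv [FaithfulSMul G Ω] {g : G} (hg : g ≠ 1) : ∃ x : Ω, g • x ≠ x := by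
  by_contra h
  push Not at h
  exact hg (eq_one_of_forall_smul h)

theorem sub_bound [FaithfulSMul G Ω] (two : Two G Ω) {a b : Ω} (hab : a ≠ b) {g : G} (hg : g ≠ 1) :
    #(fx Ω g) * (#(Ln G a b) - 1) ≤ Fintype.card Ω - 1 := by
  obtain ⟨z, hz⟩ := exists_mv (Ω := Ω) hg
  have hne : ∀ y ∈ fx Ω g, z ≠ y := fun y hy e => hz (e ▸ mem_fx.1 hy)
  have hdis : (fx Ω g : Set Ω).PairwiseDisjoint fun y => (Ln G z y).erase z := by
    intro y hy y' hy' hyy
    rw [Function.onFun, disjoint_left]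
    intro w hw hw'
    rw [mem_erase] at hw hw'
    have e1 := St_eq two (hne y hy) hw.1.symm (left_mem_Ln z y) hw.2
    have e2 := St_eq two (hne y' hy') hw.1.symm (left_mem_Ln z y') hw'.2
    have e3 := St_eq two (hne y hy) hyy (right_mem_Ln z y)
      (mem_Ln.2 fun k hk => (mem_St.1 (e2 ▸ e1 ▸ hk)).2)
    exact hz (mem_St.1 (e3 ▸ mem_St.2 ⟨mem_fx.1 hy, mem_fx.1 hy'⟩ : g ∈ St G z y)).1
  have h1 := card_le_card (show (fx Ω g).biUnion (fun y => (Ln G z y).erase z) ⊆ univ.erase z from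
    fun w hw => by
      obtain ⟨y, -, hw⟩ := mem_biUnion.1 hw
      exact mem_erase.2 ⟨(mem_erase.1 hw).1, mem_univ _⟩)
  rw [card_biUnion hdis, card_erase_of_mem (mem_univ _), card_univ] at h1
  refine le_trans ?_ h1
  rw [← smul_eq_mul]
  refine card_nsmul_le_sum _ _ _ fun y hy => ?_
  rw [card_erase_of_mem (left_mem_Ln z y)]
  exact Nat.sub_le_sub_right (card_Ln two hab (hne y hy)) 1

theorem three_le {s : Finset Ω} {x y z : Ω} (hx : x ∈ s) (hy : y ∈ s) (hz : z ∈ s) (h1 : x ≠ y)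
    (h2 : x ≠ z) (h3 : y ≠ z) : 3 ≤ #s := two_lt_card.2 ⟨x, hx, y, hy, z, hz, h1, h2, h3⟩

theorem v0_step (two : Two G Ω) (hV : ∀ p q : Ω, p ≠ q → V G p q = ∅) {a b x y : Ω} (hab : a ≠ b)
    (hx : x ∉ Ln G a b) {k1 : G} (hk1 : k1 ∈ St G a b) (h1 : k1 • x = x) (h2 : k1 • y ≠ y) :
    ∃ k ∈ St G x y, k • b ∈ Ln G a b ∧ k • b ≠ a ∧ k • b ≠ b := by
  have hob : ∀ p q r : Ω, p ≠ q → #(ob (St G p q) r) ≤ 2 := fun p q r h => by
    by_contra hc
    exact notMem_empty r (hV p q h ▸ mem_V.2 (by omega))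
  have hpart : ∀ (p q r : Ω) (g k : G), p ≠ q → g ∈ St G p q → k ∈ St G p q → g • r = r →
      g • k • r = k • r := by
    intro p q r g k h hg hk hr
    by_cases hkr : k • r = r
    · rw [hkr, hr]
    by_contra hc
    have := three_le ((sub_St p q).self r) (mem_ob.2 ⟨k, hk, rfl⟩)
      (mem_ob.2 ⟨g * k, (sub_St p q).mul hg hk, mul_smul _ _ _⟩) (Ne.symm hkr)
      (fun e => hkr (smul_left_cancel g (e.symm.trans hr.symm))) (Ne.symm hc)
    have := hob p q r h
    omega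
  have hhalf : ∀ p q r : Ω, p ≠ q → #(St G a b) ≤ 2 * #(sb (St G p q) r) := fun p q r h => by
    rw [card_St two hab h, ← (sub_St p q).os r]
    exact Nat.mul_le_mul_right _ (hob p q r h)
  have hax : a ≠ x := fun e => hx (e ▸ left_mem_Ln a b)
  have hay : a ≠ y := fun e => h2 (e ▸ (mem_St.1 hk1).1)
  have hK1 : 2 * #(sb (St G a b) x) ≤ #(St G a b) := by
    rw [← (sub_St a b).os x]
    refine Nat.mul_le_mul_right _ ?_
    obtain ⟨g, hg, hgx⟩ : ∃ g ∈ St G a b, g • x ≠ x := by simpa [mem_Ln] using hx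
    exact one_lt_card.2 ⟨x, (sub_St a b).self x, _, mem_ob.2 ⟨g, hg, rfl⟩, hgx.symm⟩
  have hW : #(sb (sb (St G a b) x) y) < #(sb (St G a b) x) :=
    card_lt_card ⟨filter_subset _ _, fun h => h2 (mem_sb.1 (h (mem_sb.2 ⟨hk1, h1⟩))).2⟩
  obtain ⟨k, hk, hk'⟩ := exists_mem_notMem_of_card_lt_card
    (s := sb (sb (St G a b) x) y) (t := sb (St G a x) y) (by have := hhalf a x y hax; omega)
  obtain ⟨k2, hk2, hk2'⟩ := exists_mem_notMem_of_card_lt_card
    (s := sb (sb (St G a b) x) y) (t := sb (St G a b) y) (by have := hhalf a b y hab; omega)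
  simp only [mem_sb, mem_St] at hk hk' hk2 hk2'
  have f1 : ∀ g ∈ St G a b, g • x = x → g • k • b = k • b := fun g hg hgx =>
    hpart a x b g k hax (mem_St.2 ⟨(mem_St.1 hg).1, hgx⟩) (mem_St.2 hk.1) (mem_St.1 hg).2
  have f2 : k2 • k • b = k • b :=
    hpart a y b k2 k hay (mem_St.2 ⟨hk2.1.1, hk2.2⟩) (mem_St.2 ⟨hk.1.1, hk.2⟩) hk2.1.2
  refine ⟨k, mem_St.2 ⟨hk.1.2, hk.2⟩, mem_Ln.2 fun g hg => ?_,
    fun e => hab (smul_left_cancel k (hk.1.1.trans e.symm)), fun e => hk' ⟨⟨⟨hk.1.1, e⟩, hk.1.2⟩, hk.2⟩⟩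
  by_cases hgx : g • x = x
  · exact f1 g hg hgx
  have hs := sub_St (G := G) a b
  have h3 : k2⁻¹ • g • x = x := by
    by_contra hc
    have := three_le (hs.self x) (mem_ob.2 ⟨g, hg, rfl⟩) (mem_ob.2 ⟨k2, mem_St.2 hk2.1, rfl⟩)
      (Ne.symm hgx) (fun e => hk2' ⟨⟨hk2.1, e.symm⟩, hk2.2⟩) (fun e => hc (by rw [e, inv_smul_smul]))
    have := hob a b x hab
    omega
  have := f1 (k2⁻¹ * g) (hs.mul (hs.inv (mem_St.2 hk2.1)) hg) (by rw [mul_smul, h3])
  rw [mul_smul, inv_smul_eq_iff, f2] at this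
  exact this

theorem v0 [FaithfulSMul G Ω] (two : Two G Ω) {a b : Ω} (hab : a ≠ b) (hV : V G a b = ∅)
    (hf : #(Ln G a b) ≤ 3) : #(St G a b) ≤ 2 := by
  have hV' : ∀ p q : Ω, p ≠ q → V G p q = ∅ := fun p q h => by
    have := card_V two h hab
    rw [hV, card_empty] at this
    exact card_eq_zero.1 (by omega)
  by_contra hm
  obtain ⟨g, hg, hg1⟩ := exists_mem_ne (s := St G a b) (by omega) 1
  obtain ⟨x, hx⟩ := exists_mv (Ω := Ω) hg1
  have hxL : x ∉ Ln G a b := fun h => hx (mem_Ln.1 h g hg)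
  have h1 : 1 < #(sb (St G a b) x) := by
    have h2 := (sub_St (G := G) a b).os x
    have h3 : #(ob (St G a b) x) ≤ 2 := by
      by_contra hc
      exact notMem_empty x (hV ▸ mem_V.2 (by omega))
    by_contra hc
    have := Nat.mul_le_mul h3 (not_lt.1 hc)
    omega
  obtain ⟨k1, hk1, hk⟩ := exists_mem_ne h1 1
  obtain ⟨y, hy⟩ := exists_mv (Ω := Ω) hk
  rw [mem_sb] at hk1
  obtain ⟨k, k0, k1', k2, k3⟩ := v0_step two hV' hab hxL hk1.1 hk1.2 hy
  obtain ⟨l, l0, l1, l2, l3⟩ := v0_step two hV' hab.symm (x := x) (y := y)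
    (Ln_comm (G := G) a b ▸ hxL) (St_comm (G := G) a b ▸ hk1.1) hk1.2 hy
  have l1' : l • a ∈ Ln G a b := Ln_comm (G := G) b a ▸ l1
  have e : l • a = k • b := by
    by_contra e
    have := (three_lt_card (s := Ln G a b)).2 ⟨a, left_mem_Ln a b, b, right_mem_Ln a b, _, k1', _, l1', hab,
      k2.symm, l3.symm, k3.symm, l2.symm, Ne.symm e⟩
    omega
  have hxy : x ≠ y := fun e => hy (e ▸ hk1.2)
  have := three_le ((sub_St x y).self (k • b))
    (mem_ob.2 ⟨k⁻¹, (sub_St x y).inv k0, inv_smul_smul _ _⟩)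
    (mem_ob.2 ⟨l⁻¹, (sub_St x y).inv l0, show l⁻¹ • k • b = a by rw [← e, inv_smul_smul]⟩)
    k3 k2 hab.symm
  exact notMem_empty _ (hV' x y hxy ▸ mem_V.2 this)

theorem ob_sub_V {a b x : Ω} (hx : x ∈ V G a b) : ob (St G a b) x ⊆ V G a b := fun _ hy =>
  mem_V.2 (by rw [(sub_St a b).ob_eq hy]; exact mem_V.1 hx)

theorem v3 [FaithfulSMul G Ω] (two : Two G Ω) (hn : 7 ≤ Fintype.card Ω) {a b : Ω} (hab : a ≠ b)
    (hV : (V G a b).Nonempty) : 4 ≤ #(V G a b) := by
  by_contra hc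
  obtain ⟨x, hx⟩ := hV
  have h1 := card_le_card (ob_sub_V hx)
  have h2 := mem_V.1 hx
  have h3 : 3 ∣ Nat.card (stabilizer G a ⊓ stabilizer G b : Subgroup G) := by
    have : Nat.card (stabilizer G a ⊓ stabilizer G b : Subgroup G) = #(St G a b) := by
      rw [← Set.ncard_coe_finset]
      exact congrArg Set.ncard (Set.ext fun g => by simp [mem_St])
    rw [this, ← (sub_St a b).os x, show #(ob (St G a b) x) = 3 by omega]
    exact dvd_mul_right _ _
  haveI : Fact (Nat.Prime 3) := ⟨Nat.prime_three⟩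
  obtain ⟨⟨g, hg⟩, hg3⟩ := exists_prime_orderOf_dvd_card' 3 h3
  rw [Subgroup.orderOf_mk] at hg3
  have hg1 : g ≠ 1 := fun e => by simp [e] at hg3
  have hg' : g * g * g = 1 := by rw [← pow_orderOf_eq_one g, hg3, pow_three']
  have h4 : ∀ (g : G) (x : Ω), g * g * g = 1 → g • x ≠ x → g • g • x ≠ x := fun g x h hx e => by
    have := congrArg (g • ·) e
    simp only [← mul_smul, ← mul_assoc, h, one_smul] at this
    exact hx this.symm
  have key : ∀ (g : G) (p q : Ω), g * g * g = 1 → g ≠ 1 → p ≠ q → g ∈ St G p q →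
      (fx Ω g)ᶜ = V G p q := by
    intro g p q h h1 hpq hg
    refine eq_of_subset_of_card_le (fun x hx => ?_) ?_
    · rw [mem_compl, mem_fx] at hx
      exact mem_V.2 (three_le ((sub_St p q).self x) (mem_ob.2 ⟨g, hg, rfl⟩)
        (mem_ob.2 ⟨g * g, (sub_St p q).mul hg hg, mul_smul _ _ _⟩) (Ne.symm hx) (h4 g x h hx).symm
        (fun e => hx (smul_left_cancel g e).symm))
    · obtain ⟨x, hx⟩ := exists_mv (Ω := Ω) h1
      have := three_le (s := (fx Ω g)ᶜ) (x := x) (y := g • x) (z := g • g • x)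
        (by simpa [mem_fx] using hx) (by simpa [mem_fx] using hx) (by simpa [mem_fx] using hx)
        (Ne.symm hx) (h4 g x h hx).symm (fun e => hx (smul_left_cancel g e).symm)
      have := card_V two hpq hab
      omega
  obtain ⟨c, hc'⟩ := exists_mv (Ω := Ω) hg1
  obtain ⟨h, e1, e2⟩ := two c (g • c) c a hc'.symm (fun e => hc' (e ▸ hg.1))
  have a1 : h * g * h⁻¹ * (h * g * h⁻¹) * (h * g * h⁻¹) = 1 := by
    calc _ = h * (g * g * g) * h⁻¹ := by group
      _ = 1 := by rw [hg']; simp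
  have a2 : h * g * h⁻¹ ≠ 1 := by simpa using hg1
  have a3 : (h * g * h⁻¹) • c = a := by
    rw [mul_smul, mul_smul, inv_smul_eq_iff.2 e1.symm, e2]
  have b1 := key g a b hg' hg1 hab (mem_St.2 hg)
  have b2 := key _ _ _ a1 a2 (fun e => hab (smul_left_cancel h e)) (St_conj h (mem_St.2 hg))
  have b3 := card_V two (fun e => hab (smul_left_cancel h e)) hab (a := h • a) (b := h • b)
  have b4 := card_union_add_card_inter (fx Ω g)ᶜ (fx Ω (h * g * h⁻¹))ᶜ
  have b5 : 0 < #((fx Ω g)ᶜ ∩ (fx Ω (h * g * h⁻¹))ᶜ) := card_pos.2 ⟨c, by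
    simp only [mem_inter, mem_compl, mem_fx, a3]
    exact ⟨hc', fun e => hc' (e ▸ hg.1)⟩⟩
  have b6 := card_compl ((fx Ω g)ᶜ ∪ (fx Ω (h * g * h⁻¹))ᶜ)
  rw [← b1] at hc
  rw [← b1, ← b2] at b3
  obtain ⟨p, hp, q, hq, hpq⟩ := one_lt_card.1
    (show 1 < #((fx Ω g)ᶜ ∪ (fx Ω (h * g * h⁻¹))ᶜ)ᶜ by omega)
  simp only [compl_union, compl_compl, mem_inter, mem_fx] at hp hq
  have c1 := key g p q hg' hg1 hpq (mem_St.2 ⟨hp.1, hq.1⟩)
  have c2 := key _ p q a1 a2 hpq (mem_St.2 ⟨hp.2, hq.2⟩)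
  have : a ∈ fx Ω (h * g * h⁻¹) := by
    rw [← compl_injective (c1.trans c2.symm)]; exact mem_fx.2 hg.1
  exact hc' ((smul_left_cancel _ (a3.trans (mem_fx.1 this).symm)) ▸ hg.1)

theorem v4 {a b : Ω} (hV : 4 ≤ #(V G a b)) :
    2 * ∑ x : Ω, #(sb (St G a b) x) + 2 * #(St G a b) ≤
      #(St G a b) * (Fintype.card Ω + #(Ln G a b)) := by
  have hs := sub_St (G := G) a b
  set m := #(St G a b)
  have h1 : 2 * ∑ x ∈ V G a b, #(sb (St G a b) x) + 2 * m ≤ m * #(V G a b) := by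
    by_cases h6 : 6 ≤ #(V G a b)
    · have : ∑ x ∈ V G a b, 3 * #(sb (St G a b) x) ≤ #(V G a b) * m := by
        rw [← smul_eq_mul]
        refine sum_le_card_nsmul _ _ _ fun x hx => ?_
        rw [show m = _ from (hs.os x).symm]
        exact Nat.mul_le_mul_right _ (mem_V.1 hx)
      rw [← mul_sum] at this
      nlinarith
    · obtain ⟨x, hx⟩ := card_pos.1 (show 0 < #(V G a b) by omega)
      have : ob (St G a b) x = V G a b := by
        refine (ob_sub_V hx).antisymm fun y hy => ?_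
        by_contra hy'
        have hd : Disjoint (ob (St G a b) x) (ob (St G a b) y) :=
          disjoint_left.2 fun z h1 h2 => hy' (by rw [← hs.ob_eq h1, hs.ob_eq h2]; exact hs.self y)
        have := card_le_card (union_subset (ob_sub_V hx) (ob_sub_V hy))
        rw [card_union_of_disjoint hd] at this
        have := mem_V.1 hx
        have := mem_V.1 hy
        omega
      rw [← this, hs.sum_ob, this]
      nlinarith
  have h2 : ∑ x ∈ (V G a b)ᶜ, 2 * #(sb (St G a b) x) ≤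
      ∑ x ∈ (V G a b)ᶜ, (m + if x ∈ Ln G a b then m else 0) := by
    refine sum_le_sum fun x _ => ?_
    split_ifs with hx
    · have : #(sb (St G a b) x) ≤ m := card_le_card (filter_subset _ _)
      omega
    · rw [add_zero, show m = _ from (hs.os x).symm]
      refine Nat.mul_le_mul_right _ ?_
      obtain ⟨g, hg, hgx⟩ : ∃ g ∈ St G a b, g • x ≠ x := by simpa [mem_Ln] using hx
      exact one_lt_card.2 ⟨x, hs.self x, _, mem_ob.2 ⟨g, hg, rfl⟩, hgx.symm⟩
  rw [sum_add_distrib, ← mul_sum, ← sum_filter, sum_const, sum_const, smul_eq_mul, smul_eq_mul] at h2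
  have h3 : #((V G a b)ᶜ.filter (· ∈ Ln G a b)) ≤ #(Ln G a b) :=
    card_le_card fun x hx => (mem_filter.1 hx).2
  have h4 := card_add_card_compl (V G a b)
  rw [← sum_add_sum_compl (V G a b), ← h4]
  nlinarith

theorem card_two (two : Two G Ω) [IsPretransitive G Ω] {a b : Ω} (hab : a ≠ b) :
    Fintype.card Ω * ((Fintype.card Ω - 1) * #(St G a b)) = Fintype.card G := by
  have := ((sub_univ (G := G)).sb a).os b
  rw [show ob (sb (univ : Finset G) a) b = univ.erase a by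
    ext x
    simp only [mem_ob, mem_sb, mem_univ, true_and, mem_erase, and_true]
    constructor
    · rintro ⟨g, hg, rfl⟩ e
      exact hab (smul_left_cancel g (hg.trans e.symm))
    · intro hx
      exact two a b a x hab (Ne.symm hx), card_erase_of_mem (mem_univ _), card_univ] at this
  rw [← card_sb (G := G) a, ← this]; rfl

theorem fx_one : #(fx Ω (1 : G)) = Fintype.card Ω := by simp [fx]

theorem main [FaithfulSMul G Ω] [IsPretransitive G Ω] (two : Two G Ω) (hn : 7 ≤ Fintype.card Ω)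
    {a b : Ω} (hab : a ≠ b) (hm : 2 ≤ #(St G a b)) :
    2 * (#(St G a b) : ℚ) ≤ Fintype.card Ω * ∑ g ∈ St G a b, 1 / (#(fx Ω g) : ℚ) := by
  have hs := sub_St (G := G) a b
  have hn0 : (7 : ℚ) ≤ Fintype.card Ω := by exact_mod_cast hn
  have hm0 : (2 : ℚ) ≤ #(St G a b) := by exact_mod_cast hm
  rw [← add_sum_erase _ _ hs.one, fx_one, mul_add, mul_one_div_cancel (by positivity)]
  have hc : (#((St G a b).erase 1) : ℚ) = #(St G a b) - 1 := by
    rw [card_erase_of_mem hs.one, Nat.cast_pred (by omega)]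
  have hb : ∀ c : ℚ, (∀ g ∈ St G a b, g ≠ 1 → c * #(fx Ω g) ≤ Fintype.card Ω) →
      2 * (#(St G a b) : ℚ) ≤ 1 + (#(St G a b) - 1) * c →
      2 * (#(St G a b) : ℚ) ≤
        1 + Fintype.card Ω * ∑ g ∈ (St G a b).erase 1, 1 / (#(fx Ω g) : ℚ) := by
    intro c h1 h2
    refine h2.trans (add_le_add_right ?_ 1)
    rw [mul_sum, ← hc, ← nsmul_eq_mul]
    refine card_nsmul_le_sum _ _ _ fun g hg => ?_
    rw [mem_erase] at hg
    rw [mul_one_div, le_div_iff₀ (fx_pos hg.2)]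
    exact h1 g hg.2 hg.1
  have hf2 : 2 ≤ #(Ln G a b) := one_lt_card.2 ⟨a, left_mem_Ln a b, b, right_mem_Ln a b, hab⟩
  by_cases hf : 4 ≤ #(Ln G a b)
  · refine hb 3 (fun g _ hg => ?_) (by linarith)
    have := sub_bound two hab hg
    have h2 : #(fx Ω g) * 3 ≤ #(fx Ω g) * (#(Ln G a b) - 1) := Nat.mul_le_mul_left _ (by omega)
    exact_mod_cast (show 3 * #(fx Ω g) ≤ Fintype.card Ω by omega)
  by_cases hV : V G a b = ∅
  · have hm2 : #(St G a b) = 2 := le_antisymm (v0 two hab hV (by omega)) hm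
    refine hb 3 (fun g hg hg1 => ?_) (by linarith)
    have h1 : St G a b = {1, g} := (eq_of_subset_of_card_le (by
      intro x hx
      rcases mem_insert.1 hx with rfl | hx
      · exact hs.one
      · rwa [mem_singleton.1 hx]) (by rw [card_pair hg1.symm, hm2])).symm
    have h2 : fx Ω g = Ln G a b := by
      ext x; simp [mem_fx, mem_Ln, h1]
    have h3 : g ^ 2 ^ 1 = 1 := by
      have := hs.mul hg hg
      rw [h1] at this
      simpa [pow_two, hg1] using this
    haveI : Fact (Nat.Prime 2) := ⟨Nat.prime_two⟩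
    have h4 := card_modEq_fixedBy (α := Ω) h3
    rw [show (fixedBy Ω g).ncard = #(fx Ω g) by
      rw [← Set.ncard_coe_finset]; congr 1; ext; simp [mem_fx], Nat.card_eq_fintype_card] at h4
    have h5 : Fintype.card Ω ≠ 7 := by
      intro h7
      haveI : Fact (Nat.Prime 7) := ⟨by norm_num⟩
      obtain ⟨d, d1, -, d2, d3⟩ := prime_degree_sylow_count (G := G) (α := Ω)
        (Nat.card_eq_fintype_card.trans h7) (default : Sylow 7 G)
      rw [Nat.card_eq_fintype_card (α := G), ← card_two two hab, h7, hm2] at d2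
      have := Nat.le_of_dvd (by norm_num) d1
      unfold Nat.ModEq at d3
      interval_cases d <;> omega
    unfold Nat.ModEq at h4
    rw [h2] at h4 ⊢
    exact_mod_cast (show 3 * #(Ln G a b) ≤ Fintype.card Ω by omega)
  by_cases hB : #(Ln G a b) = 3 ∧ Fintype.card Ω + 1 ≤ 2 * #(St G a b)
  · have h1 : (Fintype.card Ω : ℚ) + 1 ≤ 2 * #(St G a b) := by exact_mod_cast hB.2
    refine hb (2 * Fintype.card Ω / (Fintype.card Ω - 1)) (fun g _ hg => ?_) ?_
    · have := sub_bound two hab hg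
      rw [hB.1] at this
      have h2 : (#(fx Ω g) : ℚ) * 2 + 1 ≤ Fintype.card Ω := by
        exact_mod_cast (show #(fx Ω g) * 2 + 1 ≤ Fintype.card Ω by omega)
      rw [div_mul_eq_mul_div, div_le_iff₀ (by linarith)]
      nlinarith
    · rw [← sub_le_iff_le_add', ← mul_div_assoc, le_div_iff₀ (by linarith)]
      nlinarith
  have h1 := v4 (v3 two hn hab (nonempty_iff_ne_empty.2 hV))
  rw [← sum_fx, ← add_sum_erase _ _ hs.one, fx_one] at h1
  have h2 := sq_sum_div_le_sum_sq_div (R := ℚ) ((St G a b).erase 1) (fun _ => 1)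
    (g := fun g => #(fx Ω g)) (fun g hg => fx_pos (mem_erase.1 hg).2)
  simp only [sum_const, nsmul_eq_mul, mul_one, one_pow, hc, ← Nat.cast_sum] at h2
  have h3 : (0 : ℚ) < (∑ g ∈ (St G a b).erase 1, #(fx Ω g) : ℕ) := by
    rw [Nat.cast_sum]
    refine sum_pos (fun g hg => fx_pos (mem_erase.1 hg).2) (card_pos.1 ?_)
    rw [card_erase_of_mem hs.one]; omega
  refine le_trans ?_ (add_le_add_right (mul_le_mul_of_nonneg_left h2 (by positivity)) 1)
  rw [← sub_le_iff_le_add', ← mul_div_assoc, le_div_iff₀ h3]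
  generalize (∑ g ∈ (St G a b).erase 1, #(fx Ω g)) = T at *
  generalize #(St G a b) = m at *
  generalize Fintype.card Ω = n at *
  have h4 : (2 * m - 1 : ℚ) * (2 * (n + T)) ≤ 2 * (n * m ^ 2) := by
    by_cases h5 : #(Ln G a b) = 2
    · rw [h5] at h1
      have : (2 * (n + T) + 2 * m : ℚ) ≤ m * (n + 2) := by exact_mod_cast h1
      nlinarith
    · have h6 : #(Ln G a b) = 3 := by omega
      rw [h6] at h1
      have h7 : (2 * (n + T) + 2 * m : ℚ) ≤ m * (n + 3) := by exact_mod_cast h1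
      have h8 : (2 * m : ℚ) ≤ n := by exact_mod_cast (show 2 * m ≤ n by omega)
      nlinarith
  nlinarith

theorem two_big [FaithfulSMul G Ω] [IsPretransitive G Ω] (two : Two G Ω) (hn : 7 ≤ Fintype.card Ω)
    {a b : Ω} (hab : a ≠ b) (hm : 2 ≤ #(St G a b)) :
    2 * Fintype.card G ≤ Fintype.card Ω * #(univ.filter fun g : G => ∀ x : Ω, g • x ≠ x) := by
  haveI : Nonempty Ω := ⟨a⟩
  have h3 : ((2 * Fintype.card G : ℕ) : ℚ) ≤
      Fintype.card Ω * #(univ.filter fun g : G => ∀ x : Ω, g • x ≠ x) := by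
    rw [der, mul_sum]
    have : 2 * Fintype.card G = ∑ c : Ω, ∑ d ∈ univ.erase c, 2 * #(St G c d) := by
      rw [sum_const_nat (m := (Fintype.card Ω - 1) * (2 * #(St G a b))), ← card_two two hab,
        card_univ]
      · ring
      intro c _
      rw [sum_const_nat (m := 2 * #(St G a b)), card_erase_of_mem (mem_univ _), card_univ]
      intro d hd
      rw [card_St two hab (mem_erase.1 hd).1.symm]
    rw [this, Nat.cast_sum]
    refine sum_le_sum fun c _ => ?_
    rw [mul_sum, Nat.cast_sum]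
    refine sum_le_sum fun d hd => ?_
    have hcd := (mem_erase.1 hd).1.symm
    exact_mod_cast main two hn hcd (card_St two hab hcd ▸ hm)
  exact_mod_cast h3

theorem sharp [IsPretransitive G Ω] (two : Two G Ω) {a b : Ω} (hab : a ≠ b)
    (hm : #(St G a b) ≤ 1) : (∀ c d : Ω, c ≠ d → St G c d = {1}) ∧
    Fintype.card G = Fintype.card Ω * (Fintype.card Ω - 1) ∧
    #(univ.filter fun g : G => ∀ x : Ω, g • x ≠ x) = Fintype.card Ω - 1 := by
  haveI : Nonempty Ω := ⟨a⟩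
  have h1 : ∀ c d : Ω, c ≠ d → St G c d = {1} := fun c d h =>
    eq_singleton_iff_unique_mem.2 ⟨(sub_St c d).one, fun x hx =>
      card_le_one.1 (card_St two hab h ▸ hm) _ hx _ (sub_St c d).one⟩
  refine ⟨h1, by rw [← card_two two hab, h1 a b hab]; simp, ?_⟩
  have := der (G := G) (Ω := Ω)
  rw [sum_congr rfl fun c _ => sum_congr rfl fun d hd => by
    rw [h1 c d (mem_erase.1 hd).1.symm, sum_singleton, fx_one]] at this
  have hn : (Fintype.card Ω : ℚ) ≠ 0 := by exact_mod_cast Fintype.card_ne_zero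
  simp only [sum_const, card_erase_of_mem (mem_univ _), card_univ, nsmul_eq_mul] at this
  rw [mul_left_comm, mul_one_div_cancel hn, mul_one] at this
  exact_mod_cast this

end Cfsg.Agent.Isaacs.GW
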