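import Mathlib
import Cfsg.Agent.Isaacs.NonLin
import Cfsg.Agent.Core.MinNormal
import Cfsg.Agent.Core.Coprime2

/-! Characters vanishing on all but two conjugacy classes. -/

set_option autoImplicit false

open scoped ComplexConjugate commutatorElement

namespace Cfsg.Agent.Isaacs

open Cfsg Cfsg.Agent.Char Subgroup

variable {G : Type*} [Group G] [Finite G] {K N : Subgroup G} {χ : IrrCharacter G} {p : ℕ}

/-- The basic properties of a character vanishing off two classes. -/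
structure Gag (χ : IrrCharacter G) (N : Subgroup G) : Prop where
  normal : N.Normal
  ne : N ≠ ⊥
  mem : ∀ g, χ.1 g ≠ 0 ↔ g ∈ N
  cnj : ∀ x ∈ N, ∀ y ∈ N, x ≠ 1 → y ≠ 1 → IsConj x y
  faith : ∀ g, χ.1 g = χ.1 1 → g = 1
  ker : ∀ ψ : IrrCharacter G, ψ ≠ χ → ∀ g ∈ N, ψ.1 g = ψ.1 1

theorem exists_gag (hG : 2 < Nat.card G)
    (h : Nat.card {C : ConjClasses G // ∃ g ∈ C.carrier, χ.1 g ≠ 0} = 2) : ∃ N, Gag χ N := by
  classical
  have := Fintype.ofFinite G
  have h0 := isIrr_one_ne_zero χ.2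
  obtain ⟨⟨C, x, hx, x0⟩, h1, h2⟩ := (Nat.card_eq_two_iff' (⟨ConjClasses.mk 1, 1, ConjClasses.mem_carrier_mk, h0⟩ :
    {C : ConjClasses G // ∃ g ∈ C.carrier, χ.1 g ≠ 0})).mp h
  obtain rfl : ConjClasses.mk x = C := ConjClasses.mem_carrier_iff_mk_eq.mp hx
  have x1 : x ≠ 1 := by rintro rfl; exact h1 rfl
  have h3 : ∀ g, χ.1 g ≠ 0 → g ≠ 1 → IsConj x g := fun g a b => (ConjClasses.mk_eq_mk_iff_isConj.mp
    (congrArg Subtype.val (h2 ⟨ConjClasses.mk g, g, ConjClasses.mem_carrier_mk, a⟩ fun e => b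
      (isConj_one_left.mp (ConjClasses.mk_eq_mk_iff_isConj.mp (congrArg Subtype.val e)))))).symm
  have h4 : ∀ ψ : IrrCharacter G, Nat.card G * classInner χ.1 ψ.1 = χ.1 1 * conj (ψ.1 1) +
      (centralizer {x}).index * (χ.1 x * conj (ψ.1 x)) := fun ψ => by
    rw [card_mul_classInner, ← sum_classInd_mul x (f := fun g => χ.1 g * conj (ψ.1 g))
      (classFun_mul (irr_classFun χ) (classFun_conj (irr_classFun ψ))),
      ← Finset.add_sum_erase _ _ (Finset.mem_univ 1), ← Finset.add_sum_erase _ _ (Finset.mem_univ 1), classInd_apply,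
      if_neg (by simpa using x1), zero_mul, zero_add, add_right_inj]
    refine Finset.sum_congr rfl fun g hg => ?_
    rcases eq_or_ne (χ.1 g) 0 with e | e
    · simp [e]
    · simp [classInd_apply, h3 g e (Finset.ne_of_mem_erase hg), -isConj_iff]
  have h5 : χ ≠ ⟨_, isIrr_one⟩ := by
    rintro rfl
    have e := h4 ⟨_, isIrr_one⟩
    rw [classInner_irr_self] at e
    simp only [mul_one, map_one] at e
    have e2 : Nat.card G = 1 + (centralizer {x}).index := by exact_mod_cast e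
    have := Nat.le_of_dvd one_pos ((Nat.dvd_add_left dvd_rfl).mp (e2 ▸ index_dvd_card (centralizer {x})))
    omega
  have h6 := h4 ⟨_, isIrr_one⟩
  rw [classInner_irr_ne h5] at h6
  simp only [mul_one, map_one, mul_zero] at h6
  have h7 : ∀ ψ : IrrCharacter G, ψ ≠ χ → ψ.1 x = ψ.1 1 := fun ψ a => by
    have := h4 ψ
    rw [classInner_irr_ne a.symm, mul_zero] at this
    exact (starRingEnd ℂ).injective (mul_left_cancel₀ h0 (by linear_combination this - conj (ψ.1 x) * h6))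
  have h8 : ∀ g, χ.1 g = χ.1 1 → g = 1 := fun g e => by_contra fun a => by
    rw [classFun_isConj (irr_classFun χ) (h3 g (e ▸ h0) a), e] at h6
    exact mul_ne_zero (Nat.cast_add_one_ne_zero (centralizer {x}).index) h0 (by linear_combination -h6)
  have h9 : ∀ g, χ.1 g ≠ 0 ↔ g ∈ ⨅ ψ : {ψ // ψ ≠ χ}, charKer ψ.1.1 := fun g => by
    simp only [mem_iInf, mem_charKer_iff (irr_isChar _)]
    refine ⟨fun a ψ => ?_, fun a b => ?_⟩
    · rcases eq_or_ne g 1 with rfl | b
      · rfl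
      · rw [← classFun_isConj (irr_classFun _) (h3 g a b), h7 _ ψ.2]
    · have e := sum_irr_one_mul_of_ne (g := g) (by rintro rfl; exact h0 b)
      rw [← Finset.add_sum_erase _ _ (Finset.mem_univ χ), b, mul_zero, zero_add, Finset.sum_congr rfl
        (g := fun ψ => ((charDegree ψ.1 ^ 2 : ℕ) : ℂ)) fun ψ c => by
          rw [a ⟨ψ, Finset.ne_of_mem_erase c⟩, ← Block.irr_degree_cast, Nat.cast_pow, sq], ← Nat.cast_sum,
        Nat.cast_eq_zero, Finset.sum_eq_zero_iff] at e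
      exact pow_ne_zero 2 (Block.irr_degree_ne_zero _) (e _ (Finset.mem_erase.mpr ⟨h5.symm, Finset.mem_univ _⟩))
  exact ⟨_, normal_iInf_normal fun ψ => charKer_normal (irr_classFun _), fun e => x1 (mem_bot.mp (e.le ((h9 x).mp x0))),
    h9, fun a ha b hb a1 b1 => (h3 a ((h9 a).mpr ha) a1).symm.trans (h3 b ((h9 b).mpr hb) b1), h8,
    fun ψ a g hg => (mem_charKer_iff (irr_isChar _)).mp (mem_iInf.mp hg ⟨ψ, a⟩)⟩

theorem gag_of (hG : 2 < Nat.card G) (h : Nat.card {C : ConjClasses G // ∃ g ∈ C.carrier, χ.1 g ≠ 0} = 2)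
    (hN : ∀ g, g ∈ N ↔ χ.1 g ≠ 0) : Gag χ N := by
  obtain ⟨M, hM⟩ := exists_gag hG h
  rwa [Subgroup.ext fun g => (hN g).trans (hM.mem g)]

namespace Gag

variable (h : Gag χ N)
include h

theorem eq_of_faith {ψ : IrrCharacter G} (hψ : ∀ g, ψ.1 g = ψ.1 1 → g = 1) : ψ = χ :=
  by_contra fun a => h.ne (eq_bot_iff.mpr fun g hg => hψ g (h.ker ψ a g hg))

theorem le [K.Normal] (hK : K ≠ ⊥) : N ≤ K := fun z hz => mem_of_forall_irr_charKer K fun ψ a b =>
  h.ker ⟨ψ, a⟩ (by rintro rfl; exact hK (eq_bot_iff.mpr fun g hg =>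
    h.faith g ((mem_charKer_iff (isIrr_isChar a)).mp (b hg)))) z hz

theorem exists_elem : ∃ p : ℕ, p.Prime ∧ IsElementaryAbelian p N := by
  have := h.normal
  obtain ⟨x, hx, hp⟩ := Core.exists_mem_prime_orderOf h.ne
  have := Fact.mk hp
  refine Core.minimal_normal_elementary N (Core.solvable_of_isPGroup (p := orderOf x) fun y => ⟨1, ?_⟩) h.ne
    fun M _ hM => (eq_or_ne M ⊥).imp_right fun a => hM.antisymm (h.le a)
  rcases eq_or_ne (y : G) 1 with e | e
  · simp [Subtype.ext_iff, e]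
  · obtain ⟨c, hc⟩ := isConj_iff.mp (h.cnj x hx y y.2 (by rintro rfl; simp [Nat.not_prime_one] at hp) e)
    simp [Subtype.ext_iff, ← hc, conj_pow]

theorem isConj_mul {x y : G} (hx : x ∈ N) (hy : y ∉ N) : IsConj (x * y) y :=
  (isConj_iff_forall_irr _ _).mpr fun ψ => by
    rcases eq_or_ne ψ χ with rfl | a
    · rw [not_not.mp (mt (h.mem y).mp hy), not_not.mp (mt (h.mem _).mp fun b => hy ((N.mul_mem_cancel_left hx).mp b))]
    · exact isChar_mul_of_eq (irr_isChar ψ) (h.ker ψ a x hx) y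

variable [hp : Fact p.Prime] (hN : IsPGroup p N)
include hN

theorem eq_one {x y : G} (hx : x ∈ N) (h1 : x ≠ 1) (hc : x * y = y * x) (hy : (orderOf y).Coprime p) : y = 1 := by
  have co : ∀ z ∈ N, (orderOf z).Coprime (orderOf y) := fun z hz => by
    obtain ⟨k, hk⟩ := IsPGroup.iff_orderOf.mp hN ⟨z, hz⟩
    rw [← orderOf_mk (ha := hz), hk]; exact hy.symm.pow_left k
  by_cases a : y ∈ N
  · exact orderOf_eq_one_iff.mp (Nat.coprime_self _ |>.mp (co y a))
  obtain ⟨c, e⟩ := isConj_iff.mp (h.isConj_mul hx a)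
  have := (MulAut.conj c).orderOf_eq (x * y)
  rw [MulAut.conj_apply, e, (show Commute x y from hc).orderOf_mul_eq_mul_orderOf_of_coprime (co x hx)] at this
  exact absurd (orderOf_eq_one_iff.mp ((right_eq_mul₀ (orderOf_pos y).ne').mp this)) h1

theorem pgroup {x : G} (hx : x ∈ N) (h1 : x ≠ 1) : IsPGroup p (centralizer {x}) :=
  Core.isPGroup_iff_isPiSubgroup.mpr fun q hq hd => by_contra fun a => by
    have := Fact.mk hq
    obtain ⟨y, hy⟩ := exists_prime_orderOf_dvd_card' q hd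
    have := h.eq_one hN hx h1 (mem_centralizer_singleton_iff.mp y.2).symm (by
      rw [orderOf_coe, hy]; exact (Nat.coprime_primes hq hp.out).mpr a)
    exact hq.ne_one (by rw [← hy, ← orderOf_coe, this, orderOf_one])

omit hp hN in
theorem card_cent [N.Normal] {x : G} (hx : x ∉ N) :
    Nat.card (centralizer ({x} : Set G)) = Nat.card (centralizer ({(x : G ⧸ N)} : Set (G ⧸ N))) := by
  classical
  have := sum_irr_quotient N fun f => ‖f x‖ ^ 2
  rw [sum_irr_norm_sq, Finset.sum_subset (Finset.subset_univ _) fun ψ _ a => by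
    rcases eq_or_ne ψ χ with rfl | b
    · simp [not_not.mp (mt (h.mem x).mp hx)]
    · exact absurd (Finset.mem_filter.mpr ⟨Finset.mem_univ _, fun g hg =>
        (mem_charKer_iff (irr_isChar ψ)).mpr (h.ker ψ b g hg)⟩) a,
    sum_irr_norm_sq] at this
  exact_mod_cast this.symm

theorem card_le (P : Sylow p G) {z : G} (hz : z ∉ N) {W : Subgroup G} (hW : ∀ g ∈ (P : Subgroup G), ⁅g, z⁆ ∈ W) :
    Nat.card N ≤ Nat.card W := by
  have := h.normal
  obtain ⟨a, ha⟩ := (P.isPGroup'.to_le (inf_le_right : centralizer {z} ⊓ (P : Subgroup G) ≤ P)).exists_card_eq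
  obtain ⟨b, hb⟩ := hN.exists_card_eq
  have h1 : p ^ (a + b) ∣ Nat.card G := by
    rw [card_eq_card_quotient_mul_card_subgroup N, pow_add, ← ha, hb]
    exact Nat.mul_dvd_mul_right ((card_dvd_of_le inf_le_left).trans (h.card_cent hz ▸ card_subgroup_dvd_card _)) _
  have h2 := Nat.le_of_dvd Nat.card_pos (P.pow_dvd_card_of_pow_dvd_card h1)
  rw [← Core.card_inf_mul_relIndex (centralizer {z}), pow_add, ← ha, ← hb] at h2
  exact (Nat.le_of_mul_le_mul_left h2 Nat.card_pos).trans (PGrp.relIndex_centralizer_singleton_le hW)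

end Gag

end Cfsg.Agent.Isaacs
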