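import Mathlib
import Cfsg.Agent.PGrp.Basic
import Cfsg.Agent.Core.PSolvable
import Cfsg.Agent.Inv.QD
import Cfsg.Agent.LocalEven.SylowIn
import Cfsg.Prelude.Def_CaseTheorems

/-! Sectional 2-rank: basic tools. -/

set_option autoImplicit false

namespace Cfsg.Agent.Isaacs.HR

open Subgroup Cfsg Cfsg.Agent Cfsg.Agent.PGrp
open scoped Pointwise commutatorElement

variable {G : Type*} [Group G]

/-- every section of exponent two of `K` has order at most `2 ^ k` -/
def Rk (k : ℕ) (K : Subgroup G) : Prop :=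
  ∀ N H : Subgroup G, H ≤ K → N ≤ H → (∀ x ∈ H, x ^ 2 ∈ N) → Nat.card H ≤ 2 ^ k * Nat.card N

theorem Rk.mono {k : ℕ} {K L : Subgroup G} (h : Rk k K) (hL : L ≤ K) : Rk k L :=
  fun N H hH => h N H (hH.trans hL)

theorem Rk.le {k l : ℕ} {K : Subgroup G} (h : Rk k K) (hl : k ≤ l) : Rk l K :=
  fun N H a b c => (h N H a b c).trans (Nat.mul_le_mul_right _ (Nat.pow_le_pow_right (by norm_num) hl))

theorem comm_mem {N H : Subgroup G} (h : ∀ x ∈ H, x ^ 2 ∈ N) {x y : G} (hx : x ∈ H) (hy : y ∈ H) :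
    ⁅x, y⁆ ∈ N := by
  have : ⁅x, y⁆ = (x * y) ^ 2 * (y⁻¹ * x⁻¹ * y) ^ 2 * y⁻¹ ^ 2 := by
    simp only [commutatorElement_def, sq]; group
  rw [this]
  exact N.mul_mem (N.mul_mem (h _ (H.mul_mem hx hy))
    (h _ (H.mul_mem (H.mul_mem (H.inv_mem hy) (H.inv_mem hx)) hy))) (h _ (H.inv_mem hy))

theorem le_nz_of_sq [Finite G] {N H : Subgroup G} (hN : N ≤ H) (h : ∀ x ∈ H, x ^ 2 ∈ N) :
    H ≤ normalizer (N : Set G) := fun x hx => mem_normalizer_of_conj_mem fun n hn => by
  have : x * n * x⁻¹ = ⁅x, n⁆ * n := by simp only [commutatorElement_def]; group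
  rw [this]; exact N.mul_mem (comm_mem h hx (hN hn)) hn

theorem rk_of_card [Finite G] {k : ℕ} {K : Subgroup G} (h : Nat.card K ≤ 2 ^ k) : Rk k K :=
  fun N _ hH _ _ => ((card_le_of_le hH).trans h).trans (Nat.le_mul_of_pos_right _ Nat.card_pos)

theorem rk_add [Finite G] {a b : ℕ} {K L : Subgroup G} (hn : K ≤ normalizer (L : Set G))
    (hLK : L ≤ K) (hL : Rk a L)
    (hq : ∀ N H : Subgroup G, L ≤ N → N ≤ H → H ≤ K → (∀ x ∈ H, x ^ 2 ∈ N) →
      Nat.card H ≤ 2 ^ b * Nat.card N) : Rk (a + b) K := by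
  intro N H hH hN h2
  have e1 := card_sup_mul_card_inf (N := L) (H := H) (hH.trans hn)
  have e2 := card_sup_mul_card_inf (N := L) (H := N) ((hN.trans hH).trans hn)
  have i1 := hL (L ⊓ N) (L ⊓ H) inf_le_left (inf_le_inf_left _ hN)
    fun x hx => ⟨L.pow_mem hx.1 2, h2 x hx.2⟩
  have i2 := hq (L ⊔ N) (L ⊔ H) le_sup_left (sup_le_sup_left hN _) (sup_le hLK hH) (by
    intro x hx
    obtain ⟨l, hl, y, hy, rfl⟩ := (mem_sup_of_le_normalizer (hH.trans hn)).1 hx
    have : (l * y) ^ 2 = l * (y * l * y⁻¹) * y ^ 2 := by simp only [sq]; group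
    rw [this]
    exact mul_mem (mem_sup_left (L.mul_mem hl (conj_mem_of_mem_normalizer (hn (hH hy)) hl)))
      (mem_sup_right (h2 y hy)))
  have hp : 0 < Nat.card L := Nat.card_pos
  refine Nat.le_of_mul_le_mul_left ?_ hp
  rw [← e1, pow_add]
  calc _ ≤ (2 ^ b * Nat.card ↥(L ⊔ N)) * (2 ^ a * Nat.card ↥(L ⊓ N)) := Nat.mul_le_mul i2 i1
    _ = 2 ^ a * 2 ^ b * (Nat.card ↥(L ⊔ N) * Nat.card ↥(L ⊓ N)) := by ring
    _ = _ := by rw [e2]; ring

theorem rk_add_card [Finite G] {a b : ℕ} {K L : Subgroup G} (hn : K ≤ normalizer (L : Set G))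
    (hLK : L ≤ K) (hL : Rk a L) (hc : Nat.card K ≤ 2 ^ b * Nat.card L) : Rk (a + b) K :=
  rk_add hn hLK hL fun _ _ h1 _ h3 _ =>
    (card_le_of_le h3).trans (hc.trans (Nat.mul_le_mul_left _ (card_le_of_le h1)))

theorem rk_zpowers [Finite G] (x : G) : Rk 1 (zpowers x) := by
  intro N H hH hN h2
  obtain ⟨a, rfl⟩ := Inv.exists_eq_zpowers_of_le hH
  have := card_sup_zpowers_le (N := N) (x := a) (n := 2) (by norm_num)
    (le_nz_of_sq hN h2 (mem_zpowers a)) (h2 a (mem_zpowers a))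
  rw [sup_eq_right.2 hN] at this
  omega

/-- the class of `x` in `H` has at most `|N|` elements -/
theorem card_le_mul_cent [Finite G] {H W : Subgroup G} {x : G} (h : ∀ g ∈ H, ⁅g, x⁆ ∈ W) :
    Nat.card H ≤ Nat.card ↥(centralizer {x} ⊓ H) * Nat.card W := by
  rw [← card_inf_mul_relIndex (centralizer {x}) H]
  exact Nat.mul_le_mul_left _ (relIndex_centralizer_singleton_le h)

theorem card_le_of_cent [Finite G] {H N C : Subgroup G} {x : G} (h2 : ∀ g ∈ H, g ^ 2 ∈ N)
    (hx : x ∈ H) (hC : ∀ g ∈ H, g * x = x * g → g ∈ C) :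
    Nat.card H ≤ Nat.card C * Nat.card N :=
  (card_le_mul_cent fun _ hg => comm_mem h2 hg hx).trans (Nat.mul_le_mul_right _ (card_le_of_le
    fun g hg => hC g hg.2 (mem_centralizer_singleton_iff.1 hg.1)))

theorem rk_conj {k : ℕ} {K : Subgroup G} (h : Rk k K) (g : G) : Rk k (MulAut.conj g • K) := by
  intro N H hH hN h2
  have := h (MulAut.conj g⁻¹ • N) (MulAut.conj g⁻¹ • H) (by
    intro x hx
    rw [mem_pointwise_smul_iff_inv_smul_mem] at hx
    have := hH hx
    rw [mem_pointwise_smul_iff_inv_smul_mem] at this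
    simpa [mul_assoc] using this) (pointwise_smul_le_pointwise_smul_iff.2 hN) (by
    intro x hx
    rw [mem_pointwise_smul_iff_inv_smul_mem] at hx ⊢
    rw [smul_pow']
    exact h2 _ hx)
  rwa [Nat.card_congr (equivSMul _ H).toEquiv.symm, Nat.card_congr (equivSMul _ N).toEquiv.symm] at this

theorem rk_top_of_sylow [Finite G] {k : ℕ} (S : Sylow 2 G) (h : Rk k (S : Subgroup G)) :
    Rk k (⊤ : Subgroup G) := by
  have : Fact (Nat.Prime 2) := ⟨Nat.prime_two⟩
  intro N H _ hN h2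
  obtain ⟨P⟩ : Nonempty (Sylow 2 H) := inferInstance
  set Q : Subgroup G := (P : Subgroup H).map H.subtype with hQ
  have hQH : Q ≤ H := map_subtype_le _
  have hQp : IsPGroup 2 Q := P.isPGroup'.map _
  obtain ⟨R, hR⟩ := hQp.exists_le_sylow
  obtain ⟨g, hg⟩ := MulAction.exists_smul_eq G S R
  have hRk : Rk k (R : Subgroup G) := by
    rw [← hg, Sylow.coe_subgroup_smul]; exact rk_conj h g
  have h3 := hRk (N ⊓ Q) Q hR inf_le_right fun x hx => ⟨h2 x (hQH hx), Q.pow_mem hx 2⟩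
  have hn := le_nz_of_sq hN h2
  have e := card_sup_mul_card_inf (N := N) (H := Q) (hQH.trans hn)
  have htop : N ⊔ Q = H := by
    have hle : N ⊔ Q ≤ H := sup_le hN hQH
    have hnn : H ≤ normalizer ((N ⊔ Q : Subgroup G) : Set G) :=
      le_nz_of_sq hle fun x hx => mem_sup_left (h2 x hx)
    have hno : ((N ⊔ Q).subgroupOf H).Normal := normal_subgroupOf_of_le_normalizer hnn
    have hp : IsPGroup 2 (H ⧸ (N ⊔ Q).subgroupOf H) := by
      intro a
      obtain ⟨a, rfl⟩ := QuotientGroup.mk_surjective a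
      refine ⟨1, ?_⟩
      rw [← QuotientGroup.mk_pow, QuotientGroup.eq_one_iff, pow_one]
      exact mem_subgroupOf.2 (mem_sup_left (h2 a a.2))
    obtain ⟨j, hj⟩ := hp.exists_card_eq
    have hd : ((N ⊔ Q).subgroupOf H).index ∣ (P : Subgroup H).index :=
      index_dvd_of_le fun x hx => mem_subgroupOf.2 (mem_sup_right (mem_map_of_mem _ hx))
    have hnd := P.not_dvd_index
    have hj' : ((N ⊔ Q).subgroupOf H).index = 2 ^ j := hj
    have : j = 0 := by
      by_contra h0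
      exact hnd ((dvd_pow_self 2 h0).trans (hj' ▸ hd))
    rw [this, pow_zero, index_eq_one, subgroupOf_eq_top] at hj'
    exact le_antisymm hle hj'
  rw [htop] at e
  have hp : 0 < Nat.card ↥(N ⊓ Q) := Nat.card_pos
  refine Nat.le_of_mul_le_mul_right ?_ hp
  rw [e]
  calc _ ≤ Nat.card N * (2 ^ k * Nat.card ↥(N ⊓ Q)) := Nat.mul_le_mul_left _ h3
    _ = _ := by ring

theorem sectional_of_rk [Finite G] {k : ℕ} (h : Rk k (⊤ : Subgroup G)) : SectionalPRankLE 2 k G := by
  intro H N _ A _ h2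
  let f := H.subtype
  have hf : Function.Injective f := H.subtype_injective
  have hle : N ≤ A.comap (QuotientGroup.mk' N) := QuotientGroup.le_comap_mk' N A
  have := h (N.map f) ((A.comap (QuotientGroup.mk' N)).map f) le_top (map_mono hle) (by
      rintro _ ⟨x, hx, rfl⟩
      rw [← map_pow]
      exact mem_map_of_mem f ((QuotientGroup.eq_one_iff _).mp (h2 _ hx)))
  rw [card_map_of_injective hf, card_map_of_injective hf, card_eq_card_mul_relIndex hle,
    Core.relIndex_eq_card_map_mk', map_comap_eq_self_of_surjective (QuotientGroup.mk'_surjective N),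
    mul_comm] at this
  exact Nat.le_of_mul_le_mul_right this Nat.card_pos

theorem rk_mc [Finite G] {D : Subgroup G} {x y : G} {n : ℕ} (h : Inv.MC D x y n) : Rk 2 D := by
  refine rk_add_card (a := 1) (b := 1) (L := zpowers x) ?_ h.le (rk_zpowers x) ?_
  · exact fun s hs => mem_normalizer_of_conj_mem fun a ha => h.conj_memX hs ha
  · rw [h.card, Nat.card_zpowers, h.ord]; apply le_of_eq; ring

/-- normalizer growth, with an element whose square is inside -/
theorem exists_nz [Finite G] {S T : Subgroup G} (hS : IsPGroup 2 S) (hlt : T < S) :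
    ∃ g ∈ S, g ∈ normalizer (T : Set G) ∧ g ∉ T ∧ g ^ 2 ∈ T := by
  have : Fact (Nat.Prime 2) := ⟨Nat.prime_two⟩
  obtain ⟨x, hx, hn, hT⟩ := LocalEven.exists_mem_normalizer_of_lt hS hlt
  obtain ⟨k, hk⟩ := hS ⟨x, hx⟩
  obtain ⟨j, h1, h2⟩ := exists_pow_notMem_pow_mem (p := 2) hT ⟨k, by simpa using congrArg Subtype.val hk⟩
  exact ⟨_, S.pow_mem hx _, pow_mem hn _, h1, h2⟩

end Cfsg.Agent.Isaacs.HR
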