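import Mathlib
import Cfsg.Agent.Classical.PSL2Basic
import Cfsg.Agent.Classical.AutPSL2
import Cfsg.Agent.Core.SylowOf

/-! Overgroups of `SL₂(q)` acting on the natural module: the semilinear structure. -/

set_option autoImplicit false

open Subgroup Matrix Cfsg.Agent.Classical.SL2Basic Cfsg.Agent.Core
open scoped MatrixGroups Pointwise

namespace Cfsg.Agent.Isaacs

variable {G : Type*} [Group G] {F : Type*} [Field F] [DistribMulAction G (Fin 2 → F)]

/-- `L` acts on `F²` as `SL₂(F)`, and `G` is faithful. -/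
structure NS (L : Subgroup G) (σ : L →* SL(2, F)) : Prop where
  faith : ∀ g : G, (∀ w : Fin 2 → F, g • w = w) → g = 1
  surj : Function.Surjective σ
  act : ∀ (l : L) (w : Fin 2 → F), (l : G) • w = (σ l : Matrix (Fin 2) (Fin 2) F) *ᵥ w

namespace NS

/-- first basis vector -/
def e0 (F : Type*) [Field F] : Fin 2 → F := ![1, 0]
/-- second basis vector -/
def e1 (F : Type*) [Field F] : Fin 2 → F := ![0, 1]

@[simp] theorem e00 : e0 F 0 = 1 := rfl
@[simp] theorem e01 : e0 F 1 = 0 := rfl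
@[simp] theorem e10 : e1 F 0 = 0 := rfl
@[simp] theorem e11 : e1 F 1 = 1 := rfl

omit [Field F] in
theorem vext {v w : Fin 2 → F} (h0 : v 0 = w 0) (h1 : v 1 = w 1) : v = w := by
  ext i; fin_cases i
  · exact h0
  · exact h1

theorem dec (w : Fin 2 → F) : w = w 0 • e0 F + w 1 • e1 F := vext (by simp) (by simp)

variable (G F) in
/-- upper unitriangular elements -/
def UU : Subgroup G where
  carrier := {x | ∃ t : F, ∀ w : Fin 2 → F, x • w = w + (t * w 1) • e0 F}
  one_mem' := ⟨0, fun w => by simp⟩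
  mul_mem' := by
    rintro x y ⟨s, hs⟩ ⟨t, ht⟩
    exact ⟨s + t, fun w => by rw [mul_smul, ht, hs]; exact vext (by simp; ring) (by simp)⟩
  inv_mem' := by
    rintro x ⟨t, ht⟩
    exact ⟨-t, fun w => by rw [inv_smul_eq_iff, ht]; exact vext (by simp) (by simp)⟩

variable (G F) in
/-- the stabiliser of the first axis -/
def BB [Finite G] : Subgroup G where
  carrier := {k | ∀ w : Fin 2 → F, w 1 = 0 → (k • w) 1 = 0}
  one_mem' := fun w hw => by rwa [one_smul]
  mul_mem' := fun {a b} ha hb w hw => by rw [mul_smul]; exact ha _ (hb w hw)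
  inv_mem' := fun {k} hk w hw => by
    have : ∀ n : ℕ, (k ^ n • w) 1 = 0 := fun n => by
      induction n with
      | zero => rwa [pow_zero, one_smul]
      | succ n ih => rw [pow_succ', mul_smul]; exact hk _ ih
    rw [eq_inv_of_mul_eq_one_left (mul_pow_sub_one (orderOf_pos k).ne' k ▸ pow_orderOf_eq_one k :
      k * k ^ (orderOf k - 1) = 1), inv_inv]
    exact this _

variable (G F) in
/-- elements trivial on the first axis and on the quotient -/
def AA : Subgroup G where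
  carrier := {x | (∀ w : Fin 2 → F, w 1 = 0 → x • w = w) ∧ ∀ w : Fin 2 → F, (x • w - w) 1 = 0}
  one_mem' := ⟨fun w _ => one_smul _ _, fun w => by simp⟩
  mul_mem' := fun {a b} ha hb => ⟨fun w hw => by rw [mul_smul, hb.1 w hw, ha.1 w hw], fun w => by
    have h1 := ha.2 (b • w)
    have h2 := hb.2 w
    rw [Pi.sub_apply] at h1 h2 ⊢
    rw [mul_smul]; linear_combination h1 + h2⟩
  inv_mem' := fun {a} ha => ⟨fun w hw => by rw [inv_smul_eq_iff, ha.1 w hw], fun w => by
    have h1 := ha.2 (a⁻¹ • w)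
    rw [Pi.sub_apply, smul_inv_smul] at h1
    rw [Pi.sub_apply]; linear_combination -h1⟩

theorem fixU {x : G} (hx : x ∈ UU G F) {w : Fin 2 → F} (hw : w 1 = 0) : x • w = w := by
  obtain ⟨t, ht⟩ := hx
  rw [ht, hw]; simp

theorem UA : UU G F ≤ AA G F := fun _ hx => ⟨fun _ hw => fixU hx hw, fun w => by
  obtain ⟨t, ht⟩ := hx
  rw [ht]; simp⟩

theorem AB [Finite G] : BB G F ≤ normalizer (AA G F : Set G) := fun k hk => by
  have key : ∀ k ∈ BB G F, ∀ x ∈ AA G F, k * x * k⁻¹ ∈ AA G F := fun k hk x hx =>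
    ⟨fun w hw => by rw [mul_smul, mul_smul, hx.1 _ ((BB G F).inv_mem hk w hw), smul_inv_smul],
      fun w => by
        have := hk _ (hx.2 (k⁻¹ • w))
        rwa [smul_sub, smul_inv_smul, ← mul_smul, ← mul_smul] at this⟩
  refine mem_normalizer_iff.mpr fun x => ⟨key k hk x, fun hx => ?_⟩
  simpa [mul_assoc] using key _ ((BB G F).inv_mem hk) _ hx

theorem AleB [Finite G] : AA G F ≤ BB G F := fun _ hx w hw => by rw [hx.1 w hw, hw]

/-- semilinear elements -/
def Semi (n : G) (τ : F ≃+* F) : Prop := ∀ (c : F) (w : Fin 2 → F), n • (c • w) = τ c • n • w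

theorem Semi.mul {n m : G} {τ τ' : F ≃+* F} (h : Semi n τ) (h' : Semi m τ') :
    Semi (n * m) (τ * τ') := fun c w => by rw [mul_smul, h', h, mul_smul]; rfl

theorem Semi.one : Semi (1 : G) (1 : F ≃+* F) := fun c w => by simp

theorem Semi.uniq {n : G} {τ τ' : F ≃+* F} (h : Semi n τ) (h' : Semi n τ') : τ = τ' := by
  ext c
  have h1 : n • e0 F ≠ 0 := fun e => one_ne_zero (congrFun ((smul_eq_zero_iff_eq n).mp e) 0)
  exact smul_left_injective F h1 ((h c _).symm.trans (h' c _))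

variable {L : Subgroup G} {σ : L →* SL(2, F)} (h : NS L σ)
include h

theorem eq_of {x y : G} (e : ∀ w : Fin 2 → F, x • w = y • w) : x = y :=
  (inv_mul_eq_one.mp (h.faith _ fun w => by rw [mul_smul, ← e, inv_smul_smul]))

theorem exU (t : F) : ∃ x ∈ L, ∀ w : Fin 2 → F, x • w = w + (t * w 1) • e0 F := by
  obtain ⟨l, hl⟩ := h.surj (upper t)
  refine ⟨l, l.2, fun w => ?_⟩
  rw [h.act, hl]
  exact vext (by simp [upper, mkSL, mulVec, dotProduct]) (by simp [upper, mkSL, mulVec, dotProduct])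

theorem exL (t : F) : ∃ x ∈ L, ∀ w : Fin 2 → F, x • w = w + (t * w 0) • e1 F := by
  obtain ⟨l, hl⟩ := h.surj (lower t)
  refine ⟨l, l.2, fun w => ?_⟩
  rw [h.act, hl]
  exact vext (by simp [lower, mkSL, mulVec, dotProduct])
    (by simp [lower, mkSL, mulVec, dotProduct, add_comm])

theorem UL : UU G F ≤ L := by
  rintro x ⟨t, ht⟩
  obtain ⟨y, hy, hy2⟩ := h.exU t
  rwa [h.eq_of (x := x) (y := y) fun w => by rw [ht, hy2]]

theorem inj : Function.Injective σ := fun a b e =>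
  Subtype.ext (h.eq_of fun w => by rw [h.act, h.act, e])

theorem fix_iff {x : G} (hx : x ∈ UU G F) (h1 : x ≠ 1) {w : Fin 2 → F} (e : x • w = w) : w 1 = 0 := by
  obtain ⟨t, ht⟩ := hx
  have h2 : t ≠ 0 := fun e => h1 (h.faith _ fun w => by rw [ht, e]; simp)
  rw [ht] at e
  simpa [h2] using congrFun e 0

theorem cardU : Nat.card (UU G F) = Nat.card F := by
  choose x hx hx2 using h.exU
  refine (Nat.card_eq_of_bijective (fun t => (⟨x t, t, hx2 t⟩ : UU G F)) ⟨fun s t e => ?_, ?_⟩).symm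
  · have e' : x s = x t := congrArg Subtype.val e
    have := congrFun ((hx2 s (e1 F)).symm.trans (e' ▸ hx2 t (e1 F))) 0
    simpa using this
  · rintro ⟨y, t, ht⟩
    exact ⟨t, Subtype.ext (h.eq_of fun w => by rw [ht, hx2])⟩

theorem commU {x y : G} (hx : x ∈ UU G F) (hy : y ∈ UU G F) : x * y = y * x := by
  obtain ⟨s, hs⟩ := hx
  obtain ⟨t, ht⟩ := hy
  exact h.eq_of fun w => by
    rw [mul_smul, mul_smul, ht, hs, hs, ht]; exact vext (by simp; ring) (by simp)

theorem scalar (f : (Fin 2 → F) →+ (Fin 2 → F)) (hf : ∀ l ∈ L, ∀ w, f (l • w) = l • f w) :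
    ∃ μ : F, ∀ w, f w = μ • w := by
  have h0 : ∀ t : F, f (t • e0 F) = (t * f (e1 F) 1) • e0 F := fun t => by
    obtain ⟨x, hx, hx2⟩ := h.exU t
    have := hf x hx (e1 F)
    rw [hx2, hx2, map_add] at this
    simpa using this
  have h1 : ∀ t : F, f (t • e1 F) = (t * f (e0 F) 0) • e1 F := fun t => by
    obtain ⟨x, hx, hx2⟩ := h.exL t
    have := hf x hx (e0 F)
    rw [hx2, hx2, map_add] at this
    simpa using this
  have h2 : f (e0 F) 0 = f (e1 F) 1 := by simpa using congrFun (h0 1) 0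
  refine ⟨f (e1 F) 1, fun w => ?_⟩
  conv_lhs => rw [dec w, map_add, h0, h1, h2]
  exact vext (by simp; ring) (by simp; ring)

theorem exists_semi [Finite F] {n : G} (hn : n ∈ normalizer (L : Set G)) : ∃ τ : F ≃+* F, Semi n τ := by
  have : ∀ c : F, ∃ μ : F, ∀ w : Fin 2 → F, n • (c • w) = μ • n • w := fun c => by
    obtain ⟨μ, hμ⟩ := h.scalar ((DistribSMul.toAddMonoidHom _ n).comp
      ((DistribSMul.toAddMonoidHom _ c).comp (DistribSMul.toAddMonoidHom _ n⁻¹))) fun l hl w => by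
        have hl' : n⁻¹ * l * n ∈ L := by
          simpa using (mem_normalizer_iff.mp (inv_mem hn) l).mp hl
        have lin : ∀ v : Fin 2 → F, (n⁻¹ * l * n) • (c • v) = c • (n⁻¹ * l * n) • v := fun v => by
          have := h.act ⟨_, hl'⟩
          simp only at this
          rw [this, this, mulVec_smul]
        show n • c • n⁻¹ • l • w = l • n • c • n⁻¹ • w
        have := lin (n⁻¹ • w)
        rw [mul_smul, mul_smul, mul_smul, mul_smul, smul_inv_smul] at this
        rw [← this, smul_inv_smul]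
    exact ⟨μ, fun w => by simpa using hμ (n • w)⟩
  choose μ hμ using this
  have h1 : n • e0 F ≠ 0 := fun e => one_ne_zero (congrFun ((smul_eq_zero_iff_eq n).mp e) 0)
  have hi := smul_left_injective F h1
  let f : F →+* F :=
    { toFun := μ
      map_one' := hi (by simp only; rw [← hμ, one_smul, one_smul])
      map_mul' := fun a b => hi (by simp only; rw [← hμ, mul_smul, hμ, hμ, mul_smul])
      map_zero' := hi (by simp only; rw [← hμ, zero_smul, zero_smul, smul_zero])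
      map_add' := fun a b => hi (by simp only; rw [← hμ, add_smul, smul_add, hμ, hμ, add_smul]) }
  exact ⟨RingEquiv.ofBijective f (Finite.injective_iff_bijective.mp f.injective), hμ⟩

theorem trans {w : Fin 2 → F} (hw : w ≠ 0) : ∃ l ∈ L, l • e0 F = w := by
  by_cases h0 : w 0 = 0
  · have h1 : w 1 ≠ 0 := fun h1 => hw (vext h0 h1)
    obtain ⟨l, hl⟩ := h.surj (mkSL 0 (-(w 1)⁻¹) (w 1) 0 (by field_simp; ring))
    refine ⟨l, l.2, ?_⟩
    rw [h.act, hl]
    exact vext (by simp [mkSL, mulVec, dotProduct, h0]) (by simp [mkSL, mulVec, dotProduct])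
  · obtain ⟨l, hl⟩ := h.surj (mkSL (w 0) 0 (w 1) (w 0)⁻¹ (by field_simp; ring))
    refine ⟨l, l.2, ?_⟩
    rw [h.act, hl]
    exact vext (by simp [mkSL, mulVec, dotProduct]) (by simp [mkSL, mulVec, dotProduct])

theorem pgA (p : ℕ) [CharP F p] : IsPGroup p (AA G F) := fun x => ⟨1, Subtype.ext (h.faith _ fun w => by
  have : ∀ n : ℕ, (x : G) ^ n • w = w + (n : F) • ((x : G) • w - w) := fun n => by
    induction n with
    | zero => simp
    | succ n ih =>
      rw [pow_succ', mul_smul, ih, smul_add, x.2.1 ((n : F) • ((x : G) • w - w))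
        (by rw [Pi.smul_apply, x.2.2 w, smul_zero])]
      push_cast; rw [add_smul, one_smul]; abel
  simpa using this p)⟩

/-- if every conjugate of `U` lies in `L`, then `L` is normal -/
theorem normal_of (hc : ∀ g : G, ∀ u ∈ UU G F, g * u * g⁻¹ ∈ L) : L.Normal := by
  refine ⟨fun l hl g => ?_⟩
  have := eq_top_of_upper_lower (((L.comap (MulAut.conj g).toMonoidHom).subgroupOf L).map σ)
    (fun c => ?_) (fun c => ?_)
  · obtain ⟨a, ha, e⟩ := (this ▸ mem_top (σ ⟨l, hl⟩) : σ ⟨l, hl⟩ ∈ Subgroup.map σ _)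
    rw [h.inj e] at ha
    exact ha
  · obtain ⟨l, hl⟩ := h.surj (upper c)
    refine ⟨l, hc g l ⟨c, fun w => ?_⟩, hl⟩
    rw [h.act, hl]
    exact vext (by simp [upper, mkSL, mulVec, dotProduct]) (by simp [upper, mkSL, mulVec, dotProduct])
  · obtain ⟨l, hl⟩ := h.surj (upper (-c))
    obtain ⟨m, hm⟩ := h.surj (mkSL 0 (-1) 1 0 (by simp))
    refine ⟨m * l * m⁻¹, ?_, ?_⟩
    · have := hc (g * m) l ⟨-c, fun w => ?_⟩
      · show g * ((m : G) * l * (m : G)⁻¹) * g⁻¹ ∈ L
        convert this using 1; group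
      · rw [h.act, hl]
        exact vext (by simp [upper, mkSL, mulVec, dotProduct])
          (by simp [upper, mkSL, mulVec, dotProduct])
    · rw [map_mul, map_mul, map_inv, hl, hm, mul_inv_eq_iff_eq_mul]
      apply sl2_ext <;> simp only [Classical.SL2Basic.mul_apply] <;> simp [upper, lower, mkSL]

section Syl

variable [Finite G] [Finite F] {p : ℕ} [hp : Fact p.Prime] [CharP F p] {S : Subgroup G}
  (hS : IsSylowOf p S ⊤) (hN : S ≤ normalizer (L : Set G)) (hU : UU G F ≤ S)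
include hS hN hU

omit hN [Finite G] in
theorem exv : ∃ v : Fin 2 → F, v 0 ≠ 0 ∧ v 1 = 0 ∧ ∀ s ∈ S, s • v = v := by
  have hd : p ∣ Nat.card (Fin 2 → F) := by
    have := Fintype.ofFinite F
    obtain ⟨n, -, hn⟩ := FiniteField.card F p
    rw [Nat.card_fun, Nat.card_eq_fintype_card, hn]
    exact (dvd_pow_self p n.ne_zero).trans (dvd_pow_self _ (by simp))
  obtain ⟨v, hv, h0⟩ := hS.isPGroup.exists_fixed_point_of_prime_dvd_card_of_fixed_point (Fin 2 → F) hd
    (a := 0) (fun g => smul_zero g)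
  have fx : ∀ s ∈ S, s • v = v := fun s hs => hv ⟨s, hs⟩
  obtain ⟨x, -, hx⟩ := h.exU 1
  have h1 : v 1 = 0 := by
    have := congrFun ((hx v).symm.trans (fx x (hU ⟨1, hx⟩))) 0
    simpa using this
  exact ⟨v, fun e => h0 (vext e h1).symm, h1, fx⟩

omit [Finite G] in
theorem semi_v {s : G} (hs : s ∈ S) : ∃ τ : F ≃+* F, Semi s τ ∧ (τ = 1 → s ∈ UU G F) ∧
    ∃ v : Fin 2 → F, v 0 ≠ 0 ∧ v 1 = 0 ∧ ∀ c : F, s • (c • v) = τ c • v := by
  obtain ⟨τ, hτ⟩ := h.exists_semi (hN hs)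
  obtain ⟨v, h0, h1, fx⟩ := h.exv hS hU
  refine ⟨τ, hτ, ?_, v, h0, h1, fun c => by rw [hτ, fx s hs]⟩
  rintro rfl
  have lin : ∀ (c : F) (w : Fin 2 → F), s • (c • w) = c • s • w := hτ
  have f0 : s • e0 F = e0 F := by
    have : e0 F = (v 0)⁻¹ • v := vext (by simp [h0]) (by simp [h1])
    rw [this, lin, fx s hs]
  have a1 : ∀ w : Fin 2 → F, s • w = w 0 • e0 F + w 1 • s • e1 F := fun w => by
    conv_lhs => rw [dec w, smul_add, lin, lin, f0]
  have a2 : ∀ n : ℕ, (s ^ n • e1 F) 1 = (s • e1 F) 1 ^ n := fun n => by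
    induction n with
    | zero => simp
    | succ n ih => rw [pow_succ', mul_smul, a1, pow_succ, ← ih]; simp
  obtain ⟨k, hk⟩ := hS.isPGroup ⟨s, hs⟩
  have hk' : s ^ p ^ k = 1 := congrArg Subtype.val hk
  have a3 : (s • e1 F) 1 = 1 := by
    have := a2 (p ^ k)
    rw [hk', one_smul, e11] at this
    have h2 : ((s • e1 F) 1 - 1) ^ p ^ k = 0 := by rw [sub_pow_char_pow, ← this]; simp
    exact sub_eq_zero.mp (pow_eq_zero_iff (pow_pos hp.out.pos k).ne' |>.mp h2)
  exact ⟨(s • e1 F) 0, fun w => by rw [a1]; exact vext (by simp; ring) (by simp [a3])⟩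

theorem SB : S ≤ BB G F := fun s hs w hw => by
  obtain ⟨τ, -, -, v, h0, h1, hv⟩ := h.semi_v hS hN hU hs
  have : w = (w 0 / v 0) • v := vext (by simp [h0]) (by simp [h1, hw])
  rw [this, hv]; simp [h1]

theorem memU {s : G} (hs : s ∈ S) (e : ∀ w : Fin 2 → F, w 1 = 0 → s • w = w) : s ∈ UU G F := by
  obtain ⟨τ, -, h2, v, h0, h1, hv⟩ := h.semi_v hS hN hU hs
  refine h2 (RingEquiv.ext fun c => ?_)
  have := congrFun ((hv c).symm.trans (e _ (by simp [h1]))) 0
  simpa [h0] using this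

theorem AU : AA G F ≤ UU G F := fun x hx =>
  h.memU hS hN hU ((hS.of_le (h.SB hS hN hU) le_top).normal_le (h.pgA p) AleB AB hx) hx.1

theorem BU {k u : G} (hk : k ∈ BB G F) (hu : u ∈ UU G F) : k * u * k⁻¹ ∈ UU G F :=
  h.AU hS hN hU ((mem_normalizer_iff.mp (AB hk) u).mp (UA hu))

/-- strong closure forces normality -/
theorem normal_of_sc (sc : ∀ g : G, ∀ u ∈ UU G F, g * u * g⁻¹ ∈ S → g * u * g⁻¹ ∈ UU G F) :
    L.Normal := by
  have hB := hS.of_le (h.SB hS hN hU) le_top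
  have iii : ∀ g : G, ∀ u ∈ UU G F, u ≠ 1 → g⁻¹ * u * g ∈ BB G F → g ∈ BB G F := fun g u hu h1 hg => by
    obtain ⟨c, hc, hle⟩ := hB.exists_conj_le (Q := zpowers (g⁻¹ * u * g)) (by
      have := (hS.isPGroup.to_le ((zpowers_le).mpr (hU hu))).map (MulAut.conj g⁻¹).toMonoidHom
      have e : (MulAut.conj g⁻¹).toMonoidHom u = g⁻¹ * u * g := by simp
      rwa [MonoidHom.map_zpowers, e] at this) ((zpowers_le).mpr hg)
    have h2 : (c * g⁻¹) * u * (c * g⁻¹)⁻¹ ∈ S := by
      have := hle (smul_mem_pointwise_smul _ (MulAut.conj c) _ (mem_zpowers _))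
      convert this using 1
      simp [mul_assoc]
    have h3 := sc _ u hu h2
    have h4 : c * g⁻¹ ∈ BB G F := fun w hw => h.fix_iff h3 (fun e => h1 (conj_eq_one_iff.mp e)) (by
      rw [mul_smul, mul_smul, inv_smul_smul, fixU hu hw])
    simpa using (BB G F).inv_mem ((BB G F).mul_mem ((BB G F).inv_mem hc) h4)
  have spread : ∀ g : G, ∀ d : Fin 2 → F, d ≠ 0 → d 1 = 0 → (g⁻¹ • d) 1 = 0 → g ∈ BB G F := by
    by_contra hne
    push Not at hne
    obtain ⟨g, ⟨d, hd0, hd1, hd2, hg⟩, hmax⟩ := Set.exists_max_image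
      {g : G | ∃ d : Fin 2 → F, d ≠ 0 ∧ d 1 = 0 ∧ (g⁻¹ • d) 1 = 0 ∧ g ∉ BB G F}
      (fun g => {w : Fin 2 → F | w 1 = 0 ∧ (g⁻¹ • w) 1 = 0}.ncard) (Set.toFinite _) hne
    obtain ⟨y, hy, hx⟩ : ∃ y : Fin 2 → F, y 1 = 0 ∧ (g • y) 1 ≠ 0 := by
      by_contra hh
      push Not at hh
      exact hg hh
    have hd : d 0 ≠ 0 := fun e => hd0 (vext e hd1)
    obtain ⟨u, -, hu⟩ := h.exU (d 0 / (g • y) 1)
    have huU : u ∈ UU G F := ⟨_, hu⟩
    have ux : u • g • y = g • y + d := by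
      rw [hu]; exact vext (by simp [hx]) (by simp [hd1])
    have u1 : u ≠ 1 := fun e => hd0 (by rw [e, one_smul] at ux; simpa using ux)
    have key : ∀ w : Fin 2 → F, (g⁻¹ * u * g)⁻¹ • g⁻¹ • w = g⁻¹ • u⁻¹ • w := fun w => by
      simp [mul_smul]
    have := hmax (g⁻¹ * u * g) ⟨g⁻¹ • d, fun e => hd0 ((smul_eq_zero_iff_eq _).mp e), hd2, by
      rw [key, fixU (inv_mem huU) hd1, hd2], fun hh => hg (iii g u huU u1 hh)⟩
    refine absurd this (not_le.mpr ?_)
    rw [Nat.lt_iff_add_one_le, ← Set.ncard_insert_of_notMem (a := g • y + d) (fun hh => hx (by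
      simpa [hd1] using hh.1))]
    refine Set.ncard_le_ncard_of_injOn (fun w => g⁻¹ • w) ?_ (MulAction.injective _).injOn
    rintro w (rfl | hw)
    · refine ⟨by rw [smul_add, inv_smul_smul, Pi.add_apply, hy, hd2, add_zero], ?_⟩
      rw [key, ← ux, inv_smul_smul, inv_smul_smul, hy]
    · exact ⟨hw.2, by rw [key, fixU (inv_mem huU) hw.1, hw.2]⟩
  refine h.normal_of fun g u hu => ?_
  have h0 : e0 F ≠ 0 := fun e => one_ne_zero (congrFun e 0)
  obtain ⟨l, hl, e⟩ := h.trans (w := g • e0 F) (fun e => h0 ((smul_eq_zero_iff_eq g).mp e))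
  have := h.UL (h.BU hS hN hU (spread (l⁻¹ * g) (e0 F) h0 rfl (by
    rw [_root_.mul_inv_rev, inv_inv, mul_smul, e, inv_smul_smul]; rfl)) hu)
  convert L.mul_mem (L.mul_mem hl this) (L.inv_mem hl) using 1; group

theorem sc_or : (∀ g : G, ∀ u ∈ UU G F, g * u * g⁻¹ ∈ S → g * u * g⁻¹ ∈ UU G F) ∨
    (Nat.card F = 4 ∧ ∃ s ∈ S, s ∉ UU G F) := by
  by_contra hne
  push Not at hne
  obtain ⟨⟨g, u, hu, hs, hsU⟩, h4⟩ := hne
  have h4' : Nat.card F ≠ 4 := fun e => hsU (h4 e _ hs)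
  have u1 : u ≠ 1 := fun e => hsU (by rw [e]; simp)
  set s := g * u * g⁻¹ with hsd
  obtain ⟨τ, hτ, hτ1, v, h0, h1, hv⟩ := h.semi_v hS hN hU hs
  have q : ∀ w : Fin 2 → F, s • (s • w - w) = s • w - w := fun w => by
    have := (UA hu).1 _ ((UA hu).2 (g⁻¹ • w))
    rw [hsd]
    calc _ = g • u • (u • g⁻¹ • w - g⁻¹ • w) := by simp [mul_smul, smul_sub]
      _ = _ := by rw [this]; simp [mul_smul, smul_sub]
  have q2 : ∀ c : F, τ (τ c - c) = τ c - c := fun c => by
    have := q (c • v)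
    rw [hv, ← sub_smul, hv] at this
    simpa [h0] using congrFun this 0
  obtain ⟨c, hc⟩ : ∃ c, τ c ≠ c := by
    by_contra hh
    push Not at hh
    exact hsU (hτ1 (RingEquiv.ext hh))
  have h2 : (2 : F) = 0 := by
    by_contra h2
    have a1 := q2 c
    have a2 := q2 (c * c)
    rw [map_sub] at a1
    rw [map_sub, map_mul, map_mul] at a2
    have : 2 * (τ c - c) ^ 2 = 0 := by
      have : τ (τ c) = 2 * τ c - c := by linear_combination a1
      rw [this] at a2
      linear_combination a2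
    exact hc (sub_eq_zero.mp (pow_eq_zero_iff two_ne_zero |>.mp ((mul_eq_zero.mp this).resolve_left h2)))
  obtain rfl : p = 2 := (Nat.prime_dvd_prime_iff_eq hp.out Nat.prime_two).mp
    ((CharP.cast_eq_zero_iff F p 2).mp (by exact_mod_cast h2))
  have sqU : ∀ x ∈ UU G F, x * x = 1 := by
    rintro x ⟨t, ht⟩
    exact h.faith _ fun w => by
      rw [mul_smul, ht, ht]
      exact vext (by simp; linear_combination (t * w 1) * h2) (by simp)
  have s2 : s * s = 1 := by
    calc _ = g * (u * u) * g⁻¹ := by rw [hsd]; group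
      _ = 1 := by rw [sqU u hu]; group
  have hF : 4 < Nat.card F := by
    have := Fintype.ofFinite F
    obtain ⟨n, -, hn⟩ := FiniteField.card F 2
    have a1 : 2 < Fintype.card F := Fintype.two_lt_card_iff.mpr ⟨c, 0, 1, fun e => hc (by simp [e]),
      fun e => hc (by simp [e]), zero_ne_one⟩
    rw [Nat.card_eq_fintype_card] at h4' ⊢
    rw [hn] at a1 h4' ⊢
    rcases (show (n : ℕ) ≤ 1 ∨ (n : ℕ) = 2 ∨ 3 ≤ (n : ℕ) by omega) with a | a | a
    · have := Nat.pow_le_pow_right (show 0 < 2 by norm_num) a; omega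
    · rw [a] at h4'; omega
    · have := Nat.pow_le_pow_right (show 0 < 2 by norm_num) a; omega
  have hsB := h.SB hS hN hU hs
  obtain ⟨x1, x2, hx1, hx2, c1, c2, n1, n2, n12⟩ : ∃ x1 x2 : G, x1 ∈ UU G F ∧ x2 ∈ UU G F ∧
      x1 * s = s * x1 ∧ x2 * s = s * x2 ∧ x1 ≠ 1 ∧ x2 ≠ 1 ∧ x1 ≠ x2 := by
    let φ : UU G F →* UU G F := MonoidHom.mk' (fun x => x * ⟨s * x * s⁻¹, h.BU hS hN hU hsB x.2⟩)
      fun a b => Subtype.ext (by
        have := h.commU b.2 (h.BU hS hN hU hsB a.2)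
        simp only [coe_mul]
        calc _ = a * (b * (s * a * s⁻¹)) * (s * b * s⁻¹) := by group
          _ = _ := by rw [this]; group)
    let C : Subgroup (UU G F) := (centralizer {s}).subgroupOf (UU G F)
    have k1 : φ.ker ≤ C := fun x hx => by
      have e : (x : G) * (s * x * s⁻¹) = 1 := congrArg Subtype.val hx
      rw [mem_subgroupOf, mem_centralizer_singleton_iff, eq_comm, ← mul_inv_eq_iff_eq_mul,
        eq_inv_of_mul_eq_one_right e, inv_eq_of_mul_eq_one_right (sqU _ x.2)]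
    have k2 : φ.range ≤ C := by
      rintro _ ⟨x, rfl⟩
      rw [mem_subgroupOf, mem_centralizer_singleton_iff]
      show (x : G) * (s * x * s⁻¹) * s = s * (x * (s * x * s⁻¹))
      conv_lhs => rw [h.commU x.2 (h.BU hS hN hU hsB x.2)]
      rw [inv_eq_of_mul_eq_one_right s2]; group
    have k3 := φ.ker.card_mul_index
    rw [index_ker, h.cardU] at k3
    have k4 : 2 < Nat.card C := by
      by_contra hh
      have a := (card_le_of_le k1).trans (not_lt.mp hh)
      have b := (card_le_of_le k2).trans (not_lt.mp hh)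
      have := Nat.mul_le_mul a b
      omega
    have := Fintype.ofFinite C
    rw [Nat.card_eq_fintype_card, Fintype.two_lt_card_iff] at k4
    obtain ⟨a, b, c, hab, hac, hbc⟩ := k4
    have fin : ∀ a b : C, a ≠ 1 → b ≠ 1 → a ≠ b → ∃ x1 x2 : G, x1 ∈ UU G F ∧ x2 ∈ UU G F ∧
        x1 * s = s * x1 ∧ x2 * s = s * x2 ∧ x1 ≠ 1 ∧ x2 ≠ 1 ∧ x1 ≠ x2 := fun a b ha hb hab =>
      ⟨a, b, a.1.2, b.1.2, mem_centralizer_singleton_iff.mp a.2, mem_centralizer_singleton_iff.mp b.2,
        fun e => ha (Subtype.ext (Subtype.ext e)), fun e => hb (Subtype.ext (Subtype.ext e)),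
        fun e => hab (Subtype.ext (Subtype.ext e))⟩
    by_cases ha : a = 1
    · exact fin b c (ha ▸ hab.symm) (ha ▸ hac.symm) hbc
    by_cases hb : b = 1
    · exact fin a c ha (hb ▸ hbc.symm) hac
    · exact fin a b ha hb hab
  obtain ⟨k, hk, hle⟩ := (hS.of_le (h.SB hS hN hU) le_top).exists_conj_le
    (Q := (centralizer {s} ⊓ S).map (MulAut.conj g⁻¹).toMonoidHom)
    ((hS.isPGroup.to_le inf_le_right).map _) (by
      rintro _ ⟨e, he, rfl⟩ w hw
      refine h.fix_iff hu u1 ?_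
      have := mem_centralizer_singleton_iff.mp he.1
      have e2 : u * (g⁻¹ * e * g) = (g⁻¹ * e * g) * u := by
        calc _ = g⁻¹ * (s * e) * g := by rw [hsd]; group
          _ = _ := by rw [← this, hsd]; group
      simp only [MulEquiv.toMonoidHom_eq_coe, MonoidHom.coe_coe, MulAut.conj_apply, inv_inv]
      rw [← mul_smul, e2, mul_smul, fixU hu hw])
  have inS : ∀ x ∈ UU G F, x * s = s * x → (k * g⁻¹) * x * (k * g⁻¹)⁻¹ ∈ S := fun x hx e => by
    have := hle (smul_mem_pointwise_smul _ (MulAut.conj k) _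
      ⟨x, ⟨mem_centralizer_singleton_iff.mpr e, hU hx⟩, rfl⟩)
    convert this using 1
    simp [mul_assoc]
  have fin : ∀ x ∈ UU G F, x ≠ 1 → (k * g⁻¹) * x * (k * g⁻¹)⁻¹ ∉ UU G F := fun x hx x1 hy => by
    refine hsU (h.memU hS hN hU hs fun w hw => ?_)
    have a1 : ((k * g⁻¹) • w) 1 = 0 := h.fix_iff hy (fun e => x1 (conj_eq_one_iff.mp e)) (by
      rw [mul_smul, mul_smul, inv_smul_smul, fixU hx hw])
    have a2 := (BB G F).inv_mem hk _ a1
    rw [mul_smul, inv_smul_smul] at a2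
    rw [hsd, mul_smul, mul_smul, fixU hu a2, smul_inv_smul]
  have sq : ∀ x ∈ UU G F, ∀ τ : F ≃+* F, Semi ((k * g⁻¹) * x * (k * g⁻¹)⁻¹) τ → τ * τ = 1 :=
    fun x hx τ hτ => by
      have := hτ.mul hτ
      rw [show (k * g⁻¹) * x * (k * g⁻¹)⁻¹ * ((k * g⁻¹) * x * (k * g⁻¹)⁻¹) =
        (k * g⁻¹) * (x * x) * (k * g⁻¹)⁻¹ by group, sqU x hx, mul_one, mul_inv_cancel] at this
      exact this.uniq Semi.one
  obtain ⟨τ1, a1, b1, -⟩ := h.semi_v hS hN hU (inS x1 hx1 c1)
  obtain ⟨τ2, a2, b2, -⟩ := h.semi_v hS hN hU (inS x2 hx2 c2)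
  obtain ⟨τ3, a3, b3, -⟩ := h.semi_v hS hN hU (inS (x1 * x2) (mul_mem hx1 hx2)
    ((show Commute x1 s from c1).mul_left c2))
  have t1 : τ1 ≠ 1 := fun e => fin x1 hx1 n1 (b1 e)
  have t2 : τ2 ≠ 1 := fun e => fin x2 hx2 n2 (b2 e)
  have t3 : τ3 ≠ 1 := fun e => fin _ (mul_mem hx1 hx2) (fun e => n12 (by
    rw [eq_inv_of_mul_eq_one_left e, inv_eq_of_mul_eq_one_right (sqU _ hx2)])) (b3 e)
  have e3 : τ3 = τ1 * τ2 := a3.uniq (by
    have := a1.mul a2
    rwa [show (k * g⁻¹) * x1 * (k * g⁻¹)⁻¹ * ((k * g⁻¹) * x2 * (k * g⁻¹)⁻¹) =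
        (k * g⁻¹) * (x1 * x2) * (k * g⁻¹)⁻¹ by group] at this)
  have t12 : τ1 ≠ τ2 := fun e => t3 (by rw [e3, e, sq x2 hx2 τ2 a2])
  classical
  have := Classical.AutPSL2.isCyclic_ringAut (F := F)
  have := Classical.AutPSL2.finite_ringAut (F := F)
  have := Fintype.ofFinite (F ≃+* F)
  have hc := IsCyclic.card_pow_eq_one_le (α := F ≃+* F) (n := 2) two_pos
  have : ({1, τ1, τ2} : Finset (F ≃+* F)) ⊆ Finset.univ.filter (fun a => a ^ 2 = 1) := by
    intro a ha
    simp only [Finset.mem_insert, Finset.mem_singleton] at ha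
    rcases ha with rfl | rfl | rfl
    · simp
    · simpa [pow_two] using sq x1 hx1 _ a1
    · simpa [pow_two] using sq x2 hx2 _ a2
  have := (Finset.card_le_card this).trans hc
  rw [Finset.card_eq_three.mpr ⟨1, τ1, τ2, t1.symm, t2.symm, t12, rfl⟩] at this
  omega

end Syl

end NS

end Cfsg.Agent.Isaacs
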