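import Mathlib
import Cfsg.Agent.PGrp.Class
import Cfsg.Agent.PGrp.IndexP
import Cfsg.Agent.PGrp.Frattini
import Cfsg.Agent.Core.Coprime2

/-! Groups of order `p ^ 4`. -/

set_option autoImplicit false

namespace Cfsg.Agent.Isaacs

open Cfsg Subgroup

theorem index_center_of_four {P : Type*} [Group P] [Finite P] {p : ℕ} [hp : Fact p.Prime] (hP : Nat.card P = p ^ 4)
    (h : ¬ IsMulCommutative P) : (center P).index = p * Nat.card (commutator P) := by
  have hG := IsPGroup.of_card hP
  have p0 := hp.out.pos
  obtain ⟨K, _, -, hK⟩ := PGrp.exists_normal_le_card_eq hG ⊤ 2 (by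
    rw [card_top, hP]; exact Nat.pow_le_pow_right p0 (by norm_num))
  have := IsPGroup.isMulCommutative_of_card_eq_prime_sq hK
  obtain ⟨M, -, h1, h2, h3⟩ := PGrp.exists_normal_between_card_eq hG K (centralizer K) (le_centralizer K) 1 (by
    have := Nat.mul_le_mul_left (Nat.card (centralizer (K : Set P))) (PGrp.index_centralizer_le_of_card_eq_sq hG K hK)
    rw [card_mul_index, hP] at this
    rw [hK]; exact Nat.le_of_mul_le_mul_right (by rw [← pow_add, ← pow_succ]; exact this) p0)
  refine PGrp.index_center_of_abelian_index_prime hG h (Core.isMulCommutative_of_relIndex_prime h1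
    (le_centralizer_iff.mp h2) ?_) (Nat.eq_of_mul_eq_mul_left (Nat.card_pos (α := M)) ?_)
  · rw [Nat.eq_of_mul_eq_mul_left Nat.card_pos ((Core.card_mul_relIndex h1).trans h3), pow_one]; exact hp.out
  · rw [card_mul_index, hP, h3, hK]; ring

end Cfsg.Agent.Isaacs
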