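import Mathlib
import Cfsg.Agent.Isaacs.Canon
import Cfsg.Agent.Isaacs.GalFix
import Cfsg.Agent.Isaacs.Misc
import Cfsg.Agent.Isaacs.Tri
import Cfsg.Agent.Perm.SieveChar
import Cfsg.Agent.PLocal.FF7

/-! Schur's bound for `p`-solvable linear groups. -/

set_option autoImplicit false

namespace Cfsg.Agent.Isaacs

open Cfsg Cfsg.Agent.Char Subgroup
open scoped commutatorElement

variable {G : Type*} [Group G] [Finite G] {K L P : Subgroup G} {θ φ χ ψ : G → ℂ} {p n : ℕ}

theorem Chr.of_add_eq (h : Chr K θ) (h' : Chr K φ) {x : G} (hx : x ∈ K) (e : (θ + φ) x = (θ + φ) 1) :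
    θ x = θ 1 ∧ φ x = φ 1 := by
  have a : (⟨x, hx⟩ : K) ∈ charKer _ := (mem_charKer_iff (isChar_add h h')).mpr e
  rw [charKer_add h h'] at a
  exact ⟨(mem_charKer_iff h).mp a.1, (mem_charKer_iff h').mp a.2⟩

theorem Chr.exists_rat (hn : L ≤ normalizer (K : Set G)) (hl : K ≤ L) (hc : (Nat.card K).Coprime (K.relIndex L))
    (n : ℕ) : ∀ χ : G → ℂ, Chr L χ → χ 1 = n → ∃ (ψ : G → ℂ) (m : ℕ), Chr L ψ ∧ ψ 1 = m ∧ m ≤ n ∧
      (∀ x ∈ K, ψ x = ψ 1 → χ x = χ 1) ∧ ∀ s ∈ L, (Nat.card K).Coprime (orderOf s) →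
        ∀ k, k.Coprime (orderOf s) → ψ (s ^ k) = ψ s := by
  induction n using Nat.strong_induction_on with
  | _ n ih =>
  intro χ a b
  rcases n.eq_zero_or_pos with rfl | n0
  · have := a.eqv_zero (by simpa using b)
    exact ⟨0, 0, chr_zero, by simp, le_rfl, fun x i _ => (this x (hl i)).trans this.one.symm, by simp⟩
  obtain ⟨η, c, d⟩ := a.inv.exists_irr' (b ▸ Nat.cast_ne_zero.mpr n0.ne')
  obtain ⟨j, j0, e⟩ := c.deg
  have k := a.deg_le c d b e
  obtain ⟨ψ, m, u, v, w, y, z⟩ := ih (n - j) (Nat.sub_lt n0 j0) _ (a.sub_constit c d) (by simp [b, e, k])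
  obtain ⟨θ, t1, t2⟩ := c.exists_under hl
  set T := stab K θ ⊓ L
  have t3 : K ≤ T := le_inf t1.inv.le_stab hl
  have t4 : T ≤ normalizer (K : Set G) := inf_le_right.trans hn
  have t5 := hc.coprime_dvd_right (Dvd.intro _ (relIndex_mul_relIndex K T L t3 inf_le_right))
  obtain ⟨β, b1, b2⟩ := t1.exists_canon t4 t3 t5 (inv_stab.mono inf_le_left le_rfl)
  have b3 : inn K β θ = 1 := b2.inn_left.trans t1.inn_self
  have b4 := t1.ind_of_stab hn t3 inf_le_right le_rfl (b1.irr t3) (b3 ▸ one_ne_zero)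
  have b5 := (t1.inn_ind_stab hn t3 inf_le_right rfl (b1.irr t3) (b3 ▸ one_ne_zero)).trans b3
  obtain ⟨F, -, -, f⟩ := exists_orbit hn hl θ
  have f1 := f _ t1 c t2
  have f2 := f _ t1 b4 (b5 ▸ one_ne_zero)
  rw [b5, one_smul] at f2
  rw [← f2] at f1
  have f3 : ∀ x ∈ K, η x = inn K η θ * ind T L β x := fun x i => congrFun f1 ⟨x, i⟩
  obtain ⟨r, r1⟩ := (c.chr.res hl).inn_nat t1.chr
  obtain ⟨l, -, l1⟩ := b4.deg
  have l2 : j = r * l := by rw [← Nat.cast_inj (R := ℂ), ← e, f3 1 (one_mem _), r1, l1, Nat.cast_mul]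
  refine ⟨ind T L β + ψ, l + m, b4.chr.add u, by simp [l1, v], ?_, fun x i o => ?_, fun s i o q g => ?_⟩
  · have := Nat.le_mul_of_pos_left l (Nat.pos_of_mul_pos_right (l2 ▸ j0))
    omega
  · obtain ⟨o1, o2⟩ := b4.chr.of_add_eq u (hl i) o
    have := y x i o2
    rw [Pi.sub_apply, Pi.sub_apply, f3 x i, f3 1 (one_mem _), o1] at this
    exact sub_left_inj.mp this
  have := Fintype.ofFinite L
  rw [Pi.add_apply, Pi.add_apply, z s i o q g, ind_apply (pow_mem i q) inf_le_right, ind_apply i inf_le_right]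
  congr 3
  funext y
  have o1 : orderOf (y.1 * s * y.1⁻¹) = orderOf s := (MulAut.conj y.1).orderOf_eq s
  rw [← conj_pow]
  by_cases o2 : y.1 * s * y.1⁻¹ ∈ T
  · rw [Set.indicator_of_mem o2, Set.indicator_of_mem (pow_mem o2 q)]
    simpa using b1.apply_pow t4 t3 t5 (one_mem _) o2 (Commute.one_left _) (o1 ▸ o) (o1 ▸ g)
  · rw [Set.indicator_of_notMem o2, Set.indicator_of_notMem fun o3 =>
      o2 (mem_of_pow_pow o3 (by rw [← o1, pow_orderOf_eq_one]; exact one_mem _) g)]

theorem Chr.schur (h : Chr P ψ) (hn : ψ 1 = n) (hp : p.Prime) (hP : IsPGroup p P)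
    (e : ∀ s ∈ P, ∀ k, k.Coprime (orderOf s) → ψ (s ^ k) = ψ s) :
    (kerS P ψ).relIndex P ∣ p ^ (n / (p - 1)) * (n / (p - 1)).factorial := by
  have a := chr_top.mpr h
  have := Core.normal_of_le_normalizer (a.normalizes_kerS norm_top a.inv)
  obtain ⟨φ, b, c⟩ := a.exists_push (QuotientGroup.mk' (kerS ⊤ fun x : P => ψ x)) (a.ker_kerS.mono (by simp))
  rw [map_top_of_surjective _ (QuotientGroup.mk'_surjective _)] at b
  have d : φ 1 = ψ 1 := c 1 trivial
  have := Perm.schur_dvd (chr_top.mp b) (d.trans hn) hp (R := ⊤) ((hP.to_quotient _).to_subgroup _)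
    (fun g _ => g.inductionOn fun g i => (QuotientGroup.eq_one_iff g).mpr
      (a.mem_kerS.mpr ⟨trivial, (c g trivial).symm.trans (i.trans d)⟩))
    fun g _ => g.inductionOn fun g => (c g trivial).symm ▸ Galois.exists_int_of_forall_pow (isChar_isGenChar h)
      fun k i => e g g.2 k (by simpa using i)
  rwa [card_top, ← index, show kerS ⊤ (fun x : P => ψ x) = (kerS P ψ).subgroupOf P from
    ext fun x => by simp [a.mem_kerS, h.mem_kerS, mem_subgroupOf]] at this

theorem psolv_schur [hp : Fact p.Prime] (hs : IsPSolvable p G) (h : Chr ⊤ χ) (hf : ∀ g, χ g = χ 1 → g = 1)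
    (hn : χ 1 = n) : ∃ m ≤ n, p ^ (pCore p G).index.factorization p ∣ p ^ (m / (p - 1)) * (m / (p - 1)).factorial := by
  set O := pCore p G
  set f := QuotientGroup.mk' O
  have s := QuotientGroup.mk'_surjective O
  obtain ⟨j, e⟩ := (Core.pCore_isPGroup (G := G) p).exists_card_eq
  have a : (pPrimeCore p (G ⧸ O)).comap f ≥ O := (QuotientGroup.ker_mk' O).ge.trans (ker_le_comap f _)
  have b : O.relIndex ((pPrimeCore p (G ⧸ O)).comap f) = Nat.card (pPrimeCore p (G ⧸ O)) :=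
    Nat.eq_of_mul_eq_mul_left Nat.card_pos ((Core.card_mul_relIndex a).trans (Core.card_comap_mk' O _))
  have c := Core.pPrimeCore_coprime (G := G ⧸ O) p
  obtain ⟨K, k1, k2, k3, k4⟩ := Core.exists_complement_in O _ a norm_top (by rw [b, e]; exact c.symm.pow_left j)
  rw [b] at k4
  have k5 : K.map f = pPrimeCore p (G ⧸ O) := by
    rw [← map_comap_eq_self_of_surjective s (pPrimeCore p _), ← k3, Subgroup.map_sup, QuotientGroup.map_mk'_self, bot_sup_eq]
  have k6 := Core.normalizer_map_mk' K O (by rw [k4, e]; exact c.pow_right j)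
    (.inr (Core.solvable_of_isPGroup (Core.pCore_isPGroup p)))
  rw [k5, normalizer_eq_top] at k6
  obtain ⟨P, p1⟩ := Core.exists_isSylowOf p (normalizer (K : Set G))
  obtain ⟨i, p2⟩ := p1.isPGroup.exists_card_eq
  have p3 : K ⊔ P ≤ normalizer (K : Set G) := sup_le le_normalizer p1.le
  have p4 : (Nat.card K).Coprime (Nat.card P) := by rw [k4, p2]; exact c.pow_right i
  obtain ⟨ψ, m, u, v, w, y, z⟩ := Chr.exists_rat p3 le_sup_left (p4.coprime_dvd_right (by
    rw [Core.relIndex_sup_of_le_normalizer p1.le]; exact Core.relIndex_dvd_card' _ _)) n χ (h.res le_top) hn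
  refine ⟨m, w, .trans ?_ ((u.res le_sup_right).schur v hp.out p1.isPGroup fun x i =>
    z x (mem_sup_right i) (p4.coprime_dvd_right (orderOf_dvd_natCard _ i)))⟩
  have q := (k6 ▸ p1.map f).card_eq_pow
  rw [card_top, ← index, ← relIndex_ker, QuotientGroup.ker_mk'] at q
  rw [← q]
  refine relIndex_dvd_of_le_left P fun x i => ?_
  obtain ⟨i1, i2⟩ := (u.res le_sup_right).mem_kerS.mp i
  have i3 := PLocal.centralizer_pPrimeCore_le (Core.IsPSolvable.quotient hs O) (Core.pCore_quotient_pCore p)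
    (show f x ∈ centralizer _ from k5 ▸ by
      rintro _ ⟨g, o, rfl⟩
      rw [← map_mul, ← map_mul, commutatorElement_eq_one_iff_mul_comm.mp (hf _ (y _
        (Core.commutator_le_of_le_normalizer p1.le (commutator_mem_commutator o i1)) (u.ker_kerS _
          (((commutator_comm _ _).le.trans (Core.commutator_le_of_le_normalizer (u.normalizes_kerS le_normalizer u.inv)))
            (commutator_mem_commutator (mem_sup_left o) (u.mem_kerS.mpr ⟨mem_sup_right i1, i2⟩))))))])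
  exact (QuotientGroup.eq_one_iff x).mp (orderOf_eq_one_iff.mp ((Nat.coprime_self _).mp ((k4 ▸ p4).coprime_dvd_left
    (orderOf_dvd_natCard _ i3) |>.coprime_dvd_right ((orderOf_map_dvd f x).trans (orderOf_dvd_natCard _ i1)))))

end Cfsg.Agent.Isaacs
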