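import Mathlib
import Cfsg.Agent.Isaacs.Blich
import Cfsg.Agent.Isaacs.FrobSchur

/-! Groups all of whose nonlinear irreducible character degrees are primes are solvable. -/

set_option autoImplicit false

open scoped ComplexConjugate commutatorElement Pointwise

namespace Cfsg.Agent.Isaacs

open Cfsg Cfsg.Agent.Char Subgroup

variable {G : Type*} [Group G] [Finite G] {χ : G → ℂ} {n : ℕ}

omit [Finite G] in
theorem sq_two (h : IsCharacter G χ) (h2 : χ 1 = 2) (g : G) : χ (g * g) = χ g ^ 2 - 2 * detChar χ g := by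
  obtain ⟨n, ρ, rfl, e⟩ := Det.exists_rep_detChar h
  obtain rfl : n = 2 := by simpa [← Nat.cast_inj (R := ℂ)] using h2
  rw [e, ← mx_trace, ← mx_trace, map_mul, ← LinearMap.det_toMatrix']
  change _ = _ - 2 * (mx ρ g).det
  simp [Matrix.trace_fin_two, Matrix.det_fin_two, Matrix.mul_apply]
  ring

omit [Finite G] in
theorem det_of_perfect (h : IsCharacter G χ) (hc : commutator G = ⊤) (g : G) : detChar χ g = 1 := by
  obtain ⟨l, e⟩ := Det.exists_detHom h
  rw [e]
  simpa using Abelianization.commutator_subset_ker l (hc.ge (mem_top g))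

theorem mem_center_of_norm (h : Irr ⊤ χ) (hf : ∀ g, χ g = χ 1 → g = 1) {g : G} (e : ‖χ g‖ = ‖χ 1‖) : g ∈ center G :=
  charCenter_le_center (inv_top_top.mp h.inv) (eq_bot_iff.mpr fun x i => hf x (apply_eq_of_mem_charKer i))
    ((mem_charCenter_iff (chr_top.mp h.chr)).mpr e)

theorem prime_cd.{u} (G : Type u) [Group G] [Finite G] : (CD (⊥ : Subgroup G) ⊤ fun d => d ≠ 1 → d.Prime) →
    Group.IsSolvable G := by
  refine Core.induction_on_card (P := fun G _ _ => (CD (⊥ : Subgroup G) ⊤ fun d => d ≠ 1 → d.Prime) →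
    Group.IsSolvable G) (fun G _ _ ih h => ?_) G
  by_contra ns
  have sim : ∀ N : Subgroup G, N.Normal → N = ⊥ ∨ N = ⊤ := fun N _ => by
    by_contra! c
    have a := ih N (Core.card_lt_of_ne_top N c.2) ((h.under norm_top le_top).mono le_rfl fun d ⟨k, _, e⟩ i =>
      (Nat.prime_mul_iff.mp (e fun j => i (Nat.eq_one_of_mul_eq_one_left j))).elim (fun j => absurd j.2 i) (·.1)).sub'
    have b := ih _ (Core.card_quotient_lt N c.1) (h.mono bot_le fun _ => id).quot
    exact ns (Group.isSolvable_of_ker_le_range N.subtype (QuotientGroup.mk' N) (by simp))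
  have hc : commutator G = ⊤ := (sim _ inferInstance).resolve_left fun e =>
    ns ⟨⟨1, by rw [derivedSeries_one, e]⟩⟩
  have hz : center G = ⊥ := (sim _ inferInstance).resolve_right fun e =>
    ns (Group.isSolvable_of_comm fun a b => mem_center_iff.mp (e.ge (mem_top b)) a)
  have fa : ∀ χ : G → ℂ, Irr ⊤ χ → χ 1 ≠ 1 → ∀ g, χ g = χ 1 → g = 1 := fun χ a b g c =>
    (sim _ (Core.normal_of_le_normalizer (a.chr.normalizes_kerS norm_top a.inv))).elim
      (fun e => e.le (a.chr.mem_kerS.mpr ⟨trivial, c⟩)) fun e => absurd (a.eqv_one (e ▸ a.chr.ker_kerS)).one b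
  have ex : ∀ m n, ∃ (χ : G → ℂ) (d : ℕ), Irr ⊤ χ ∧ χ 1 = d ∧ d ≠ 1 ∧ d ≠ m ∧ d ≠ n := fun m n => by
    by_contra! c
    exact ns ⟨⟨3, three_deg G m n fun χ a _ d b => by have := c χ d a b; omega⟩⟩
  classical
  have ex1 : ∃ d : ℕ, ∃ χ : G → ℂ, Irr ⊤ χ ∧ χ 1 = d ∧ d ≠ 1 := (ex 1 1).elim fun χ ⟨d, a, b, c, _⟩ => ⟨d, χ, a, b, c⟩
  obtain ⟨χ, a, b, c⟩ := Nat.find_spec ex1
  have mn := fun (d : ℕ) (i : ∃ χ : G → ℂ, Irr ⊤ χ ∧ χ 1 = d ∧ d ≠ 1) => Nat.find_min' ex1 i
  generalize Nat.find ex1 = q at *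
  have hq := h χ a ker_bot q b c
  have f := fa χ a (by rw [b]; exact_mod_cast c)
  have q2 : q ≠ 2 := by
    rintro rfl
    obtain ⟨t, ht⟩ := exists_prime_orderOf_dvd_card' (G := G) 2 (by simpa using a.deg_dvd b)
    have e := sq_two (chr_top.mp a.chr) b t
    rw [det_of_perfect (chr_top.mp a.chr) hc, ← sq, ← ht, pow_orderOf_eq_one, ht, b] at e
    have : ‖χ t‖ = ‖χ 1‖ := by
      rw [← sq_eq_sq₀ (norm_nonneg _) (norm_nonneg _), ← norm_pow, ← norm_pow, b]
      congr 1; push_cast at e ⊢; linear_combination -e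
    rw [mem_bot.mp (hz.le (mem_center_of_norm a f this))] at ht
    simp at ht
  obtain ⟨A, hA⟩ := blichfeldt q G ⟨χ, q, a.chr, b, le_rfl, f⟩
  have cA := Faith.comm (H := A) ⟨χ, q, a.chr, b, le_rfl, f⟩ fun p i j => Nat.lt_of_succ_lt (hA.1 p i j)
  have big : ∀ (ψ : G → ℂ) (r : ℕ), Irr ⊤ ψ → ψ 1 = r → r ≠ 1 → r ≠ q → r.Prime ∧ ¬ r ∣ A.index ∧ r ∣ Nat.card A :=
    fun ψ r u v w x => by
      have y := h ψ u ker_bot r v w
      have z := hA.2 r y (show q + 1 < r by
        have := mn r ⟨ψ, u, v, w⟩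
        have := hq.eq_two_or_odd
        have := y.eq_two_or_odd
        have := hq.two_le
        omega)
      exact ⟨y, z, (y.dvd_mul.mp (by simpa [card_mul_index] using u.deg_dvd v)).resolve_right z⟩
  obtain ⟨ψ, r, u, v, w, -, x⟩ := ex q q
  obtain ⟨φ, s, u', v', w', y, x'⟩ := ex r q
  obtain ⟨r1, -, r3⟩ := big ψ r u v w x
  obtain ⟨s1, s2, -⟩ := big φ s u' v' w' x'
  have k := inn_one_of_vanish (S := A) (ψ := φ) fun g i j =>
    (isIrr_eq_zero_or_norm_eq_of_coprime (irr_top.mp u') g v' (s1.coprime_iff_not_dvd.mpr fun l =>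
      s2 (l.trans (index_dvd_of_le fun z o => mem_centralizer_singleton_iff.mpr
        (comm_of_commutator_eq_bot cA o i))))).resolve_right fun l =>
      j (hz.le (mem_center_of_norm u' (fa φ u' (by rw [v']; exact_mod_cast w')) l))
  obtain ⟨m, e⟩ := (u'.chr.res (le_top (a := A))).inn_nat chr_one
  rw [e, v', ← Nat.cast_mul, Nat.cast_inj] at k
  exact y ((Nat.prime_dvd_prime_iff_eq r1 s1).mp (r3.trans ⟨m, k.symm⟩)).symm

end Cfsg.Agent.Isaacs
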