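import Mathlib
import Cfsg.Agent.Isaacs.RealCh
import Cfsg.Agent.Isaacs.NonLin
import Cfsg.Agent.Block.Omega

/-! Counting characters lying over an extendible character of a perfect normal subgroup. -/

set_option autoImplicit false

namespace Cfsg.Agent.Isaacs

open Cfsg Cfsg.Agent.Char Subgroup Finset
open scoped ComplexConjugate commutatorElement

variable {G : Type*} [Group G] [Finite G] {H K N T : Subgroup G} {θ φ ψ χ : G → ℂ} {p : ℕ}

theorem Chr.card_constit_le (s : Finset (IrrCharacter G)) :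
    ∀ θ (n : ℕ), Chr ⊤ θ → θ 1 = n → (∀ χ ∈ s, inn ⊤ θ χ.1 ≠ 0) → s.card ≤ n := by
  classical
  refine s.induction_on (fun _ _ _ _ _ => Nat.zero_le _) fun χ s a ih θ n h e i => ?_
  have b := h.sub_constit (irr_top.mpr χ.2) (i χ (mem_insert_self _ _))
  obtain ⟨m, c⟩ := b.deg
  obtain ⟨d, d0, f⟩ := (irr_top.mpr χ.2).deg
  have := ih _ m b c fun η j => by
    rw [inn_sub_left, (irr_top.mpr χ.2).inn_eq_zero (irr_top.mpr η.2) fun k => a (Subtype.ext (eqv_top.mp k) ▸ j), sub_zero]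
    exact i η (mem_insert_of_mem j)
  rw [Pi.sub_apply, e, f, sub_eq_iff_eq_add, ← Nat.cast_add, Nat.cast_inj] at c
  rw [card_insert_of_notMem a]
  omega

theorem card_lin_le [N.Normal] (hN : N ≤ ⁅(⊤ : Subgroup G), ⊤⁆) (hT : T = stab N φ ⊓ ⊤) (hφ : Irr N φ) (hψ : Irr T ψ)
    (e : Eqv N ψ φ) (P Q : (G → ℂ) → Prop) (hPQ : ∀ l, Irr ⊤ l → l 1 = 1 → P l → Q (ind T ⊤ (l * ψ))) :
    Nat.card {χ : IrrCharacter G // charDegree χ.1 = 1 ∧ P χ.1} ≤
      T.index * Nat.card {χ : IrrCharacter G // charDegree χ.1 = charDegree φ * T.index ∧ Q χ.1} := by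
  classical
  have l : N ≤ T := hT ▸ le_inf hφ.inv.le_stab le_top
  have a : ∀ χ : IrrCharacter G, charDegree χ.1 = 1 → Irr T χ.1 ∧ Ker N χ.1 ∧ Irr T (χ.1 * ψ) ∧ inn N (χ.1 * ψ) φ ≠ 0 :=
    fun χ i => by
      have c := (irr_top.mpr χ.2).chr
      have j := deg_eq_one_iff.mp i
      have k := (c.ker_comm j).mono hN
      exact ⟨(c.res le_top).irr_of_one j, k, hψ.lin_mul (c.res le_top) j,
        (Eqv.inn_left fun x m => by simp [k x m, j, e x m]).trans_ne hφ.inn_self_ne⟩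
  have b : ∀ χ : IrrCharacter G, charDegree χ.1 = 1 → Irr ⊤ (ind T ⊤ (χ.1 * ψ)) := fun χ i =>
    hφ.ind_of_stab norm_top l le_top hT.ge (a χ i).2.2.1 (a χ i).2.2.2
  let f : IrrCharacter G → IrrCharacter G := fun χ => if i : charDegree χ.1 = 1 then ⟨_, irr_top.mp (b χ i)⟩ else χ
  rw [Nat.card_eq_fintype_card, Nat.card_eq_fintype_card, Fintype.card_subtype, Fintype.card_subtype]
  refine card_le_mul_card_image_of_maps_to (f := f) (fun χ i => ?_) _ fun η _ => ?_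
  · obtain ⟨i, j⟩ := (mem_filter.mp i).2
    obtain ⟨d, -, k⟩ := hφ.deg
    simp only [f, dif_pos i, mem_filter, mem_univ, true_and]
    exact ⟨Block.charDegree_of_eq (by rw [ind_one, Pi.mul_apply, deg_eq_one_iff.mp i, e.one, Block.charDegree_of_eq k, k,
      relIndex_top_right, Nat.cast_mul, one_mul, mul_comm]), hPQ _ (irr_top.mpr χ.2) (deg_eq_one_iff.mp i) j⟩
  refine (Nat.eq_zero_or_pos _).elim (fun i => i.trans_le (Nat.zero_le _)) fun i => ?_
  obtain ⟨χ, i⟩ := card_pos.mp i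
  have j := (mem_filter.mp (mem_filter.mp i).1).2.1
  refine Chr.card_constit_le _ (ind T ⊤ χ.1) _ ((a χ j).1.chr.indc le_top) (by
    rw [ind_one, deg_eq_one_iff.mp j, mul_one, relIndex_top_right]) fun μ k => ?_
  have m := (mem_filter.mp (mem_filter.mp k).1).2.1
  have o := congrArg Subtype.val ((mem_filter.mp k).2.trans (mem_filter.mp i).2.symm)
  simp only [f, dif_pos j, dif_pos m] at o
  rw [inn_ind_left le_top (irr_top.mpr μ.2).inv, (a χ j).1.inn_of_eqv ((a χ j).1.eqv_of_mul (hT ▸ inf_le_left.trans stab_le) l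
    (a χ j).2.1 (a μ m).1 (a μ m).2.1 hψ.chr (hφ.congr e.symm) (hφ.eqv_of_stab norm_top l le_top hT (a χ j).2.2.1 (a μ m).2.2.1
      (a χ j).2.2.2 (a μ m).2.2.2 (b χ j) ((inn_ind_right le_top (b χ j).inv).symm.trans_ne (b χ j).inn_self_ne)
        ((inn_ind_right le_top (b χ j).inv).symm.trans_ne (o ▸ (b χ j).inn_self_ne))))]
  exact one_ne_zero

omit [Finite G] in
theorem le_comm_of_min (hN : N.Normal) (hmin : ∀ M : Subgroup G, M.Normal → M ≤ N → M = ⊥ ∨ M = N)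
    (hna : ¬ IsMulCommutative N) : N ≤ ⁅(⊤ : Subgroup G), ⊤⁆ :=
  ((hmin ⁅N, N⁆ inferInstance (commutator_le_left _ _)).resolve_left fun e => hna ⟨⟨fun a b =>
    Subtype.ext (comm_of_commutator_eq_bot e.le a.2 b.2)⟩⟩).ge.trans (commutator_mono le_top le_top)

omit [Finite G] in
theorem eq_stab_of_iff [hN : N.Normal] {α : N → ℂ}
    (h : ∀ g : G, g ∈ T ↔ ∀ n n' : N, (n' : G) = g * (n : G) * g⁻¹ → α n' = α n) : T = stab N (ez N α) ⊓ ⊤ := by
  ext g
  rw [h, inf_top_eq, mem_stab]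
  exact ⟨fun i => ⟨norm_top (A := ⊤) trivial, fun x j => by
    rw [cj_apply, ez_mem _ (hN.conj_mem x j g), ez_mem _ j]; exact i _ _ rfl⟩, fun i n m j => by
      simpa [cj_apply, ← j] using i.2 n n.2⟩

end Cfsg.Agent.Isaacs
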