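import Mathlib
import Cfsg.Agent.Isaacs.MaxNA
import Cfsg.Agent.Isaacs.NonLin
import Cfsg.Agent.Isaacs.CD3
import Cfsg.Agent.PGrp.IndexP
import Cfsg.Agent.PGrp.Class

/-! `p`-groups whose nonlinear characters of equal degree have the same kernel. -/

set_option autoImplicit false

open scoped ComplexConjugate commutatorElement

namespace Cfsg.Agent.Isaacs

open Cfsg Cfsg.Agent.Char Subgroup

universe u

def SK (G : Type*) [Group G] : Prop :=
  ∀ χ ψ : G → ℂ, Irr ⊤ χ → Irr ⊤ ψ → χ 1 ≠ 1 → χ 1 = ψ 1 → ∀ g, χ g = χ 1 → ψ g = ψ 1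

variable {G : Type*} [Group G] {χ ψ : G → ℂ} {p d : ℕ}

theorem irr_infl (N : Subgroup G) [N.Normal] {χ : G ⧸ N → ℂ} (h : Irr ⊤ χ) :
    Irr ⊤ fun x : G => χ x := by
  have := h.comap (QuotientGroup.mk' N) (by rw [MonoidHom.range_eq_top.mpr (QuotientGroup.mk'_surjective N)])
  rwa [comap_top] at this

theorem SK.quot (h : SK G) (N : Subgroup G) [N.Normal] : SK (G ⧸ N) := fun χ ψ a b c d g e => by
  induction g using QuotientGroup.induction_on with
  | H g => exact h _ _ (irr_infl N a) (irr_infl N b) c d g e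

theorem relIndex_dvd_of_gen {A C : Subgroup G} [A.Normal] {c : G}
    (hC : ∀ x ∈ C, ∃ k : ℕ, ∃ w ∈ A, x = c ^ k * w) (hp : c ^ p ∈ A) : A.relIndex C ∣ p := by
  have h1 : C.map (QuotientGroup.mk' A) ≤ zpowers (c : G ⧸ A) := by
    rintro _ ⟨x, hx, rfl⟩
    obtain ⟨k, w, hw, rfl⟩ := hC x hx
    rw [map_mul, QuotientGroup.mk'_apply A w, (QuotientGroup.eq_one_iff w).mpr hw, mul_one, map_pow]
    exact pow_mem (mem_zpowers _) k
  have h2 := relIndex_ker C (QuotientGroup.mk' A)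
  rw [QuotientGroup.ker_mk'] at h2
  rw [h2]
  refine (card_dvd_of_le h1).trans ?_
  rw [Nat.card_zpowers]
  exact orderOf_dvd_of_pow_eq_one (by
    rw [← QuotientGroup.mk_pow]; exact (QuotientGroup.eq_one_iff _).mpr hp)

theorem normal_of_le_cent {A : Subgroup G} (h : A ≤ center G) : A.Normal :=
  ⟨fun a ha g => by rwa [mem_center_iff.mp (h ha) g, mul_inv_cancel_right]⟩

variable [Finite G]

theorem index_cent_le {u : G} {A : Subgroup G} (h : ∀ y : G, ⁅y, u⁆ ∈ A) :
    (centralizer {u}).index ≤ Nat.card A := by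
  refine Nat.card_le_card_of_injective (fun q : G ⧸ centralizer {u} => (⟨⁅q.out, u⁆, h _⟩ : A)) fun a b e => ?_
  have e1 : ⁅a.out, u⁆ = ⁅b.out, u⁆ := congrArg Subtype.val e
  rw [← QuotientGroup.out_eq' a, ← QuotientGroup.out_eq' b, QuotientGroup.eq, mem_centralizer_singleton_iff]
  rw [commutatorElement_def, commutatorElement_def, mul_left_inj] at e1
  calc a.out⁻¹ * b.out * u = a.out⁻¹ * (b.out * u * b.out⁻¹) * b.out := by group
    _ = u * (a.out⁻¹ * b.out) := by rw [← e1]; group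

theorem SK.ker_le (h : SK G) (hχ : Irr ⊤ χ) (h1 : χ 1 ≠ 1) {z : G} (e : χ z = χ 1) : z ∈ commutator G := by
  by_contra hz
  obtain ⟨β, a, b, c⟩ := exists_irr_not_ker (K := ⊤) (L := commutator G) (le_normalizer_of_normal) le_top (mem_top z) hz
  have d := a.one_of_ker b
  have := h χ (β * χ) hχ (hχ.lin_mul a.chr d) h1 (by simp [d]) z e
  rw [Pi.mul_apply, Pi.mul_apply, e, mul_left_inj' hχ.one_ne] at this
  exact c this

theorem ker_comm_of (hp : p.Prime) (hc : Nat.card (commutator G) = p) (hχ : Irr ⊤ χ) (h1 : χ 1 ≠ 1) {z : G}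
    (hz : z ∈ commutator G) (e : χ z = χ 1) : z = 1 :=
  by_contra fun h => h1 (hχ.one_of_ker (ker_of_prime hχ.chr le_top (hc ▸ hp) hz h e))

variable [hp : Fact p.Prime]

theorem vanish_of_card (hG : IsPGroup p G) (hc : Nat.card (commutator G) = p) (hχ : Irr ⊤ χ) (h1 : χ 1 ≠ 1)
    {x : G} (hx : x ∉ center G) : χ x = 0 := by
  obtain ⟨y, hy⟩ := not_forall.mp (mt mem_center_iff.mpr hx)
  have h2 := (PGrp.pow_mem_center_of_card_commutator hG hc).1 (comm_mem y x)
  exact hχ.chr.vanish_of_comm (mem_top x) (mem_top y) (hχ.norm_of_comm (mem_top _) fun g hg =>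
    ker_comm_center χ _ (commutator_mem_commutator hg h2)) fun e =>
      hy (commutatorElement_eq_one_iff_mul_comm.mp (ker_comm_of hp.out hc hχ h1 (comm_mem y x) e))

theorem deg_of_card (hG : IsPGroup p G) (hc : Nat.card (commutator G) = p) (hχ : Irr ⊤ χ) (h1 : χ 1 ≠ 1)
    (hd : χ 1 = d) : d ^ 2 = (center G).index := by
  rw [← relIndex_top_right]
  exact (hχ.sq_deg_iff le_top hd (ker_comm_center χ)).mpr fun g _ => vanish_of_card hG hc hχ h1

omit hp in
theorem exists_nonlin {z : G} (hz : z ∈ commutator G) (h1 : z ≠ 1) : ∃ χ : G → ℂ, Irr ⊤ χ ∧ χ 1 ≠ 1 ∧ χ z ≠ χ 1 := by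
  obtain ⟨β, a, -, c⟩ := exists_irr_not_ker (K := ⊤) (L := ⊥) (le_normalizer_of_normal) le_top (mem_top z) h1
  exact ⟨β, a, fun e => c (a.chr.ker_comm e z hz), c⟩

theorem SK.cyclic (h : SK G) (hc : Nat.card (commutator G) = p) : IsCyclic (center G) := by
  obtain ⟨w, hw, h1⟩ := (bot_or_exists_ne_one (commutator G)).resolve_left fun e => by
    rw [e, card_bot] at hc; exact hp.out.ne_one hc.symm
  obtain ⟨χ, a, b, -⟩ := exists_nonlin hw h1
  refine isCyclic_center_of_faithful (irr_top.mp a) (eq_bot_iff.mpr fun z hz => ?_)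
  have e := (mem_charKer_iff (chr_top.mp a.chr)).mp hz
  exact ker_comm_of hp.out hc a b (h.ker_le a b e) e

theorem deg_pow (hG : IsPGroup p G) (hχ : Irr ⊤ χ) (hd : χ 1 = d) : ∃ a, d = p ^ a := by
  obtain ⟨n, hn⟩ := hG.exists_card_eq
  have := hχ.deg_dvd hd
  rw [card_top, hn] at this
  obtain ⟨k, -, hk⟩ := (Nat.dvd_prime_pow hp.out).mp this
  exact ⟨k, hk⟩

/-- The data attached to a central element of order `p`. -/
structure SDStep (p : ℕ) (w c : G) (C : Subgroup G) (χ : G → ℂ) (a : ℕ) : Prop where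
  irr : Irr ⊤ χ
  deg : χ 1 = (p ^ a : ℕ)
  ne : χ 1 ≠ 1
  ker : χ w = χ 1
  faith : ∀ u ∈ commutator G, χ u = χ 1 → u ∈ zpowers w
  idx : p ^ (2 * a) = C.index
  mem : ∀ x, x ∈ C ↔ ∀ y : G, ⁅y, x⁆ ∈ zpowers w
  cm : c ∈ C
  gen : ∀ x ∈ C, ∃ k : ℕ, ∃ v ∈ zpowers w, x = c ^ k * v
  le : commutator G ≤ C
  pw : ∀ u ∈ commutator G, u ^ p ∈ zpowers w
  ab : ∀ M : Subgroup G, M.index = p → zpowers w ≤ M → ⁅M, M⁆ ≤ zpowers w → C.index = p ^ 2

theorem exists_sdstep (hG : IsPGroup p G) {w : G} [(zpowers w).Normal] (hn : ¬ commutator G ≤ zpowers w)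
    (h1 : IsCyclic (center (G ⧸ zpowers w))) (h2 : Nat.card (commutator (G ⧸ zpowers w)) = p) :
    ∃ c C χ a, SDStep p w c C χ a := by
  set W := zpowers w
  have hQ := hG.to_quotient W
  have hs := QuotientGroup.mk'_surjective W
  have hm : ∀ u ∈ commutator G, (u : G ⧸ W) ∈ commutator (G ⧸ W) := fun u hu => map_comm (K := W) ▸ mem_map_of_mem _ hu
  obtain ⟨u, hu, hu1⟩ := SetLike.not_le_iff_exists.mp hn
  obtain ⟨χ, a, b, -⟩ := exists_nonlin (hm u hu) (mt (QuotientGroup.eq_one_iff u).mp hu1)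
  obtain ⟨d, -, hd⟩ := a.deg
  obtain ⟨k, rfl⟩ := deg_pow hQ a hd
  obtain ⟨⟨c, hc⟩, hg⟩ := h1.exists_monoid_generator
  induction c using QuotientGroup.induction_on with
  | H c =>
  have hZ := PGrp.pow_mem_center_of_card_commutator hQ h2
  refine ⟨c, (center (G ⧸ W)).comap (QuotientGroup.mk' W), fun x => χ x, k, irr_infl W a, hd, b, ?_, ?_, ?_, ?_,
    hc, ?_, fun u hu => hZ.1 (hm u hu), ?_, ?_⟩
  · change χ (w : G ⧸ W) = χ 1
    rw [(QuotientGroup.eq_one_iff w).mpr (mem_zpowers w)]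
  · exact fun u hu e => (QuotientGroup.eq_one_iff u).mp (ker_comm_of hp.out h2 a b (hm u hu) e)
  · rw [index_comap_of_surjective _ hs, ← deg_of_card hQ h2 a b hd, pow_mul']
  · intro x
    rw [mem_comap, mem_center_iff]
    refine ⟨fun e y => comm_quot_iff.mp (commutatorElement_eq_one_iff_mul_comm.mpr (e y)), fun e y => ?_⟩
    induction y using QuotientGroup.induction_on with
    | H y => exact commutatorElement_eq_one_iff_mul_comm.mp (comm_quot_iff.mpr (e y))
  · intro x hx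
    obtain ⟨n, hn⟩ := hg ⟨x, hx⟩
    have e : ((c ^ n : G) : G ⧸ W) = x := congrArg Subtype.val hn
    exact ⟨n, _, QuotientGroup.eq.mp e, by group⟩
  · intro u hu
    rw [← QuotientGroup.eq_one_iff, QuotientGroup.mk_pow]
    have := pow_card_eq_one' (x := (⟨u, hm u hu⟩ : commutator (G ⧸ W)))
    rw [h2] at this
    exact congrArg Subtype.val this
  · intro M hM hW hab
    have e1 : ¬ IsMulCommutative (G ⧸ W) := fun e => b (a.one_of_comm fun x _ y _ => e.1.1 x y)
    have e2 : IsMulCommutative (M.map (QuotientGroup.mk' W)) := by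
      refine ⟨⟨?_⟩⟩
      rintro ⟨_, x, hx, rfl⟩ ⟨_, y, hy, rfl⟩
      exact Subtype.ext (commutatorElement_eq_one_iff_mul_comm.mp (comm_quot_iff.mpr
        (hab (commutator_mem_commutator hx hy))))
    have e3 : (M.map (QuotientGroup.mk' W)).index = p := by
      rw [index_map_eq _ hs (by rwa [QuotientGroup.ker_mk']), hM]
    rw [index_comap_of_surjective _ hs, PGrp.index_center_of_abelian_index_prime hQ e1 e2 e3, h2, sq]

namespace SDStep

variable {w c : G} {C : Subgroup G} {a : ℕ} (h : SDStep p w c C χ a) (hw : w ∈ center G) (ho : orderOf w = p)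
include h hw ho

omit [Finite G] hp in
theorem pow_cent : c ^ p ∈ center G := mem_center_iff.mpr fun y => by
  obtain ⟨k, hk⟩ := (h.mem c).mp h.cm y
  have h1 : ⁅y, c⁆ ∈ center G := hk ▸ zpow_mem hw k
  rw [← commutatorElement_eq_one_iff_mul_comm, PGrp.commutator_pow_right_of_commute (mem_center_iff.mp h1 c), ← hk]
  change (w ^ k) ^ p = 1
  rw [← zpow_natCast, ← zpow_mul, mul_comm, zpow_mul, zpow_natCast, ← ho, pow_orderOf_eq_one, one_zpow]

omit [Finite G] in
theorem coprime {x v : G} {k : ℕ} (hx : x ∉ center G) (hv : v ∈ zpowers w) (e : x = c ^ k * v) : k.Coprime p := by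
  refine ((Nat.Prime.coprime_iff_not_dvd hp.out).mpr ?_).symm
  rintro ⟨j, rfl⟩
  exact hx (e ▸ mul_mem (pow_mul c p j ▸ pow_mem (h.pow_cent hw ho) j) (zpowers_le.mpr hw hv))

omit [Finite G] in
theorem comm {x m : G} (hx : x ∈ C) (hx' : x ∉ center G) (hm : m * x = x * m) {y : G} (hy : y ∈ C) :
    m * y = y * m := by
  have hW : zpowers w ≤ centralizer {m} := (zpowers_le.mpr hw).trans (center_le_centralizer _)
  obtain ⟨k, v, hv, e⟩ := h.gen x hx
  have h1 : c ∈ centralizer {m} := mem_of_pow_pow (a := k) (b := p)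
    ((mul_mem_cancel_right (hW hv)).mp (e ▸ mem_centralizer_singleton_iff.mpr hm.symm))
    (center_le_centralizer _ (h.pow_cent hw ho)) (h.coprime hw ho hx' hv e)
  obtain ⟨j, v', hv', rfl⟩ := h.gen y hy
  exact (mem_centralizer_singleton_iff.mp (mul_mem (pow_mem h1 j) (hW hv'))).symm

theorem caseC (hG : IsPGroup p G) (hS : SK G) (hwc : w ∈ commutator G) : commutator G ≤ center G := by
  intro u hu
  by_contra hu'
  have hcW : Nat.card (zpowers w) = p := by rw [Nat.card_zpowers, ho]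
  have hWZ : zpowers w ≤ center G := zpowers_le.mpr hw
  have : (zpowers w).Normal := normal_of_le_cent hWZ
  have hM : (centralizer {u}).index = p := by
    obtain ⟨k, hk⟩ := hG.index (centralizer {u})
    have h1 := index_cent_le ((h.mem u).mp (h.le hu))
    rw [hcW, hk] at h1
    have h2 : k ≠ 0 := by
      rintro rfl
      rw [pow_zero, index_eq_one] at hk
      exact hu' (mem_center_iff.mpr fun g => mem_centralizer_singleton_iff.mp (hk ▸ mem_top g))
    have h3 : k ≤ 1 := (Nat.pow_le_pow_iff_right hp.out.one_lt).mp (by rwa [pow_one])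
    rw [hk, show k = 1 by omega, pow_one]
  have hMM : ⁅centralizer {u}, centralizer {u}⁆ ≤ center G := by
    have h1 : ∀ K : Subgroup G, K ≤ commutator G → ⁅K, centralizer {u}⁆ = ⊥ := fun K hK =>
      commutator_eq_bot_iff_le_centralizer.mpr fun y hy => mem_centralizer_iff.mpr fun m hm =>
        h.comm hw ho (h.le hu) hu' (mem_centralizer_singleton_iff.mp hm) (h.le (hK hy))
    have := commutator_commutator_eq_bot_of_rotate (h1 ⁅centralizer {u}, ⊤⁆ (commutator_mono le_top le_rfl))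
      (h1 ⁅⊤, centralizer {u}⁆ (commutator_mono le_rfl le_top))
    rwa [commutator_eq_bot_iff_le_centralizer, coe_top, centralizer_univ] at this
  obtain ⟨k, v, hv, e⟩ := h.gen u (h.le hu)
  have hk := h.coprime hw ho hu' hv e
  have hcp : c ^ p ∈ zpowers w := by
    obtain ⟨n, hn⟩ := hG (c ^ p)
    refine mem_of_pow_pow (a := k) (b := p ^ n) ?_ (hn ▸ one_mem _) (hk.pow_right n)
    have h1 := h.pw u hu
    rw [e, Commute.mul_pow (mem_center_iff.mp (hWZ hv) _), mul_mem_cancel_right (pow_mem hv p)] at h1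
    rwa [← pow_mul, mul_comm, pow_mul]
  have hZ : center G ≤ zpowers w := fun z hz => by
    obtain ⟨j, v', hv', e'⟩ := h.gen z ((h.mem z).mpr fun y => by
      rw [commutatorElement_eq_one_iff_mul_comm.mpr (mem_center_iff.mp hz y)]; exact one_mem _)
    by_cases hj : p ∣ j
    · obtain ⟨i, rfl⟩ := hj
      exact e' ▸ mul_mem (pow_mul c p i ▸ pow_mem hcp i) hv'
    · have : c ∈ center G := mem_of_pow_pow (a := j) (b := p) ((mul_mem_cancel_right (hWZ hv')).mp (e' ▸ hz))
        (h.pow_cent hw ho) ((Nat.Prime.coprime_iff_not_dvd hp.out).mpr hj).symm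
      exact absurd (e ▸ mul_mem (pow_mem this k) (hWZ hv)) hu'
  have hC := h.ab _ hM (hWZ.trans (center_le_centralizer _)) (hMM.trans hZ)
  have ha : a = 1 := by
    have := Nat.pow_right_injective hp.out.two_le (h.idx.trans hC)
    omega
  obtain ⟨ψ, b1, b2, b3⟩ := exists_nonlin hwc (fun e => by rw [e, orderOf_one] at ho; exact hp.out.ne_one ho.symm)
  obtain ⟨d, -, hd⟩ := b1.deg
  obtain ⟨b, rfl⟩ := deg_pow hG b1 hd
  have h1 := b1.sq_le (Z := zpowers w) le_top ((ker_comm_center ψ).mono (commutator_mono le_rfl hWZ)) hd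
  have hWC : zpowers w ≤ C := zpowers_le.mpr (h.le hwc)
  rw [relIndex_top_right, ← relIndex_mul_index hWC, hC] at h1
  have h2 := h1.trans (Nat.mul_le_mul_right _ (Nat.le_of_dvd hp.out.pos (relIndex_dvd_of_gen h.gen hcp)))
  rw [← pow_succ', ← pow_mul, Nat.pow_le_pow_iff_right hp.out.one_lt] at h2
  have h3 : b ≠ 0 := by rintro rfl; exact b2 (by simpa using hd)
  exact b3 (hS χ ψ h.irr b1 h.ne (by rw [h.deg, hd, ha, show b = 1 by omega]) w h.ker)

omit [Finite G] in
theorem caseB (hZ : commutator G ≤ center G) (hn : ¬ commutator G ≤ zpowers w) :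
    ∃ v ∈ center G, v ^ p = 1 ∧ v ∉ zpowers w := by
  by_contra! hO
  obtain ⟨x, y, hxy⟩ : ∃ x y : G, ⁅y, x⁆ ∉ zpowers w := by
    by_contra! e
    exact hn (commutator_le.mpr fun a _ b _ => e b a)
  have h1 : ∀ x y : G, ⁅y, x ^ p⁆ = ⁅y, x⁆ ^ p := fun x y =>
    PGrp.commutator_pow_right_of_commute (mem_center_iff.mp (hZ (comm_mem y x)) x) p
  have h2 : ∀ x : G, x ^ p ∈ C := fun x => (h.mem _).mpr fun y => h1 x y ▸ h.pw _ (comm_mem y x)
  have h3 : ∀ x y : G, y * x ^ p = x ^ p * y → ⁅y, x⁆ ∈ zpowers w := fun x y e =>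
    hO _ (hZ (comm_mem y x)) (h1 x y ▸ commutatorElement_eq_one_iff_mul_comm.mpr e)
  have h4 := h3 y x (h.comm hw ho (h2 x) (fun e => hxy (h3 x y (mem_center_iff.mp e y)))
    (Commute.self_pow x p) (h2 y))
  rw [← commutatorElement_inv, inv_mem_iff] at h4
  exact hxy h4

omit [Finite G] in
theorem idx_eq : ∃ e ≤ 1, (center G).index = p ^ (2 * a + e) := by
  have h1 : center G ≤ C := fun z hz => (h.mem z).mpr fun y => by
    rw [commutatorElement_eq_one_iff_mul_comm.mpr (mem_center_iff.mp hz y)]; exact one_mem _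
  have h2 := relIndex_dvd_of_gen (A := center G) (C := C) (c := c) (fun x hx => by
    obtain ⟨k, v, hv, e⟩ := h.gen x hx
    exact ⟨k, v, zpowers_le.mpr hw hv, e⟩) (h.pow_cent hw ho)
  rw [← relIndex_mul_index h1, ← h.idx]
  rcases (Nat.dvd_prime hp.out).mp h2 with e | e
  · exact ⟨0, by norm_num, by rw [e, one_mul, add_zero]⟩
  · exact ⟨1, le_rfl, by rw [e, pow_succ']⟩

end SDStep

theorem SK.main_aux (n : ℕ) : ∀ (G : Type u) [Group G] [Finite G], Nat.card G = n → IsPGroup p G →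
    commutator G ≠ ⊥ → SK G → IsCyclic (center G) ∧ Nat.card (commutator G) = p := by
  induction n using Nat.strong_induction_on with
  | _ n ih =>
  intro G _ _ hn hG hc hS
  by_cases h : Nat.card (commutator G) = p
  · exact ⟨hS.cyclic h, h⟩
  exfalso
  have hno : ∀ w : G, orderOf w = p → ¬ commutator G ≤ zpowers w := fun w ho e => by
    have := card_dvd_of_le e
    rw [Nat.card_zpowers, ho] at this
    exact h (((Nat.dvd_prime hp.out).mp this).resolve_left (mt card_eq_one.mp hc))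
  have st : ∀ w ∈ center G, orderOf w = p → ∃ c C χ a, SDStep p w c C χ a := fun w hw ho => by
    have : (zpowers w).Normal := normal_of_le_cent (zpowers_le.mpr hw)
    have := ih _ (by
      rw [← hn, ← PGrp.card_quotient_mul_card (zpowers w), Nat.card_zpowers, ho]
      exact lt_mul_of_one_lt_right Nat.card_pos hp.out.one_lt) (G ⧸ zpowers w) rfl (hG.to_quotient _)
      (fun e => hno w ho (by
        rwa [← map_comm, Subgroup.map_eq_bot_iff, QuotientGroup.ker_mk'] at e)) (hS.quot _)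
    exact exists_sdstep hG (hno w ho) this.1 this.2
  obtain ⟨w, hwc, hw, ho⟩ := PGrp.exists_mem_center_orderOf_eq hG (commutator G) hc
  obtain ⟨c, C, χ, a, s⟩ := st w hw ho
  obtain ⟨v, hv, hvp, hvw⟩ := s.caseB hw ho (s.caseC hw ho hG hS hwc) (hno w ho)
  have hvo : orderOf v = p := orderOf_eq_prime hvp fun e => hvw (e ▸ one_mem _)
  obtain ⟨c', C', ψ, b, t⟩ := st v hv hvo
  obtain ⟨e, he, h1⟩ := s.idx_eq hw ho
  obtain ⟨f, hf, h2⟩ := t.idx_eq hv hvo
  have h3 := Nat.pow_right_injective hp.out.two_le (h1.symm.trans h2)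
  exact hvw (s.faith v (hS.ker_le t.irr t.ne t.ker) (hS ψ χ t.irr s.irr t.ne
    (by rw [t.deg, s.deg, show a = b by omega]) v t.ker))

theorem galois_of_card (hG : IsPGroup p G) (hZ : IsCyclic (center G)) (hc : Nat.card (commutator G) = p)
    (hχ : Irr ⊤ χ) (hψ : Irr ⊤ ψ) (h1 : χ 1 ≠ 1) (e : χ 1 = ψ 1) :
    ∃ k : ℕ, Nat.Coprime k (Nat.card G) ∧ ∀ g : G, ψ g = χ (g ^ k) := by
  have hGZ := (PGrp.pow_mem_center_of_card_commutator hG hc).1
  obtain ⟨z, hz⟩ := hZ.exists_monoid_generator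
  have hz' : orderOf z = Nat.card (center G) := orderOf_eq_card_of_forall_mem_powers hz
  obtain ⟨n, hn⟩ := (hG.to_subgroup (center G)).exists_card_eq
  have hn0 : n ≠ 0 := by
    rintro rfl
    have := card_dvd_of_le hGZ
    rw [hc, hn, pow_zero] at this
    exact hp.out.ne_one (Nat.dvd_one.mp this)
  obtain ⟨n, rfl⟩ := Nat.exists_eq_succ_of_ne_zero hn0
  have hu : ((z ^ p ^ n : center G) : G) ∈ commutator G := by
    obtain ⟨w, hw, hw1⟩ := (bot_or_exists_ne_one (commutator G)).resolve_left fun e => by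
      rw [e, card_bot] at hc; exact hp.out.ne_one hc.symm
    obtain ⟨j, hj⟩ := hz ⟨w, hGZ hw⟩
    have hj' : (z : G) ^ j = w := congrArg Subtype.val hj
    have h2 : w ^ p = 1 := by
      have := pow_card_eq_one' (x := (⟨w, hw⟩ : commutator G))
      rw [hc] at this
      exact congrArg Subtype.val this
    have h3 : orderOf (z : G) = p ^ (n + 1) := by rw [orderOf_coe, hz', hn]
    have h4 : p ^ n ∣ j := by
      rw [← hj', ← pow_mul] at h2
      have := orderOf_dvd_of_pow_eq_one h2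
      rw [h3, pow_succ] at this
      exact Nat.dvd_of_mul_dvd_mul_right hp.out.pos this
    obtain ⟨i, rfl⟩ := h4
    refine mem_of_pow_pow (a := i) (b := p) (by rw [coe_pow, ← pow_mul, hj']; exact hw)
      (by rw [coe_pow, ← pow_mul, ← pow_succ, ← h3, pow_orderOf_eq_one]; exact one_mem _)
      ((Nat.Prime.coprime_iff_not_dvd hp.out).mpr ?_).symm
    rintro ⟨l, rfl⟩
    exact hw1 (by rw [← hj', ← mul_assoc, ← pow_succ, ← h3, pow_mul, pow_orderOf_eq_one, one_pow])
  have key : ∀ {χ : G → ℂ}, Irr ⊤ χ → χ 1 ≠ 1 → ∃ ζ : ℂ, IsPrimitiveRoot ζ (p ^ (n + 1)) ∧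
      ∀ j : ℕ, χ ((z : G) ^ j) = ζ ^ j * χ 1 := fun {χ} a b => by
    obtain ⟨lam, hl⟩ := isIrr_exists_central_linear (irr_top.mp a)
    have h5 : ∀ j : ℕ, χ ((z : G) ^ j) = (lam z : ℂ) ^ j * χ 1 := fun j => by
      have := hl (z ^ j) 1
      rwa [mul_one, map_pow, Units.val_pow_eq_pow_val, coe_pow] at this
    refine ⟨lam z, ?_, h5⟩
    have h6 : orderOf (lam z : ℂ) = p ^ (n + 1) := orderOf_eq_prime_pow (fun e => ?_) (by
      rw [← Units.val_pow_eq_pow_val, ← map_pow, ← hn, pow_card_eq_one', map_one, Units.val_one])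
    · exact h6 ▸ IsPrimitiveRoot.orderOf _
    · have := ker_comm_of hp.out hc a b hu (by rw [coe_pow, h5, e, one_mul])
      have h7 := orderOf_dvd_of_pow_eq_one (Subtype.ext this : z ^ p ^ n = 1)
      rw [hz', hn, Nat.pow_dvd_pow_iff_le_right hp.out.one_lt] at h7
      omega
  obtain ⟨ζ, a, b⟩ := key hχ h1
  obtain ⟨ξ, a', b'⟩ := key hψ (e ▸ h1)
  have : NeZero (p ^ (n + 1)) := ⟨pow_ne_zero _ hp.out.ne_zero⟩
  obtain ⟨k, -, hk, rfl⟩ := (a.isPrimitiveRoot_iff).mp a'
  obtain ⟨m, hm⟩ := hG.exists_card_eq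
  have hk' : k.Coprime (Nat.card G) := hm ▸ (Nat.Coprime.coprime_dvd_right (dvd_pow_self p n.succ_ne_zero) hk).pow_right m
  refine ⟨k, hk', fun g => ?_⟩
  by_cases hg : g ∈ center G
  · obtain ⟨j, hj⟩ := hz ⟨g, hg⟩
    have hj' : (z : G) ^ j = g := congrArg Subtype.val hj
    rw [← hj', ← pow_mul, b, b', e, ← pow_mul, mul_comm k]
  · rw [vanish_of_card hG hc hψ (e ▸ h1) hg, vanish_of_card hG hc hχ h1 fun h =>
      hg (mem_of_pow_pow h (pow_card_eq_one' (x := g) ▸ one_mem _) hk')]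

end Cfsg.Agent.Isaacs
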