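import Mathlib
import Cfsg.Agent.Isaacs.Cod
import Cfsg.Agent.Block.NormalP

/-! Characters of small degree and trivial intersection Sylow subgroups. -/

set_option autoImplicit false

open scoped ComplexConjugate commutatorElement Pointwise

namespace Cfsg.Agent.Isaacs

open Cfsg Cfsg.Agent.Char Subgroup Cfsg.Agent.Block

theorem sum_mem_of_free {Q X A : Type*} [Group Q] [Fintype Q] [MulAction Q X] [AddCommGroup A] (f : X → A)
    (I : AddSubgroup A) (S : Finset X) (h1 : ∀ (u : Q), ∀ x ∈ S, u • x ∈ S)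
    (h2 : ∀ (u : Q), ∀ x ∈ S, u • x = x → u = 1) (h : ∀ x ∈ S, ∑ u : Q, f (u • x) ∈ I) : ∑ x ∈ S, f x ∈ I := by
  classical
  induction S using Finset.strongInduction with | H S ih => ?_
  rcases S.eq_empty_or_nonempty with rfl | ⟨x, hx⟩
  · simp
  have hO : Finset.univ.image (fun u : Q => u • x) ⊆ S := fun y hy => by
    obtain ⟨u, -, rfl⟩ := Finset.mem_image.mp hy; exact h1 u x hx
  rw [← Finset.sum_sdiff hO, Finset.sum_image fun u _ v _ e => (inv_mul_eq_one.mp (h2 _ x hx (by
    rw [mul_smul, ← show u • x = v • x from e, inv_smul_smul])))]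
  refine I.add_mem (ih _ (Finset.sdiff_ssubset hO ⟨_, Finset.mem_image_of_mem _ (Finset.mem_univ 1)⟩)
    (fun u y hy => ?_) (fun u y hy => h2 u y (Finset.mem_sdiff.mp hy).1) fun y hy => h y (Finset.mem_sdiff.mp hy).1)
    (h x hx)
  rw [Finset.mem_sdiff] at hy ⊢
  refine ⟨h1 u y hy.1, fun a => hy.2 ?_⟩
  obtain ⟨v, -, e⟩ := Finset.mem_image.mp a
  exact Finset.mem_image.mpr ⟨u⁻¹ * v, Finset.mem_univ _, by rw [mul_smul, e, inv_smul_smul]⟩

theorem exists_max_val {X : Type*} [Finite X] (M : Ideal AlgInt) {a : X → ℂ} (h : a ≠ 0) :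
    ∃ x, a x ≠ 0 ∧ ∀ y, a y / a x ∈ V M := by
  obtain ⟨z, hz⟩ := Function.ne_iff.mp h
  have : Nonempty X := ⟨z⟩
  obtain ⟨x, hx⟩ := Finite.exists_max fun x => val M (a x)
  have h0 : a x ≠ 0 := fun e => hz (by simpa [e] using hx z)
  exact ⟨x, h0, fun y => by
    rw [mem_V_iff, map_div₀]; exact div_le_one_of_le₀ (hx y) zero_le⟩

theorem eq_zero_of_conv {Q : Type*} [Group Q] [Fintype Q] {p : ℕ} {M : Ideal AlgInt} (hM : IsPModular p M)
    (hQ : IsPGroup p Q) {f a : Q → ℂ} (hf : ∀ u, f u ∈ V M) (hs : ¬ val M (∑ u, f u) < 1)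
    (h : ∀ v, ∑ u, a u * f (u⁻¹ * v) = 0) : a = 0 := by
  by_contra h0
  obtain ⟨x, hx, hy⟩ := exists_max_val M h0
  have := Fact.mk hM.1
  have := charP_F hM
  let W : AddSubgroup (Q → F M) :=
    { carrier := {c | ∀ v, ∑ u, c u * red M (f (u⁻¹ * v)) = 0}
      add_mem' := fun {a b} ha hb v => by simp [add_mul, Finset.sum_add_distrib, ha v, hb v]
      zero_mem' := fun v => by simp
      neg_mem' := fun {a} ha v => by simp [ha v] }
  letI : DistribMulAction Q W :=
    { smul := fun q c => ⟨fun u => c.1 (q⁻¹ * u), fun v => by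
        rw [← c.2 (q⁻¹ * v), ← Equiv.sum_comp (Equiv.mulLeft q)]; simp [mul_assoc]⟩
      one_smul := fun c => Subtype.ext (funext fun u => congrArg c.1 (by simp))
      mul_smul := fun a b c => Subtype.ext (funext fun u => congrArg c.1 (by simp [mul_assoc]))
      smul_zero := fun _ => rfl
      smul_add := fun _ _ _ => rfl }
  obtain ⟨w, h1, h2⟩ := exists_fixed_ne_zero hQ (W := W) (fun w => Subtype.ext (funext fun u => by simp))
    (v := ⟨fun u => red M (a u / a x), fun v => by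
      rw [Finset.sum_congr rfl fun u _ => (red_mul (hy u) (hf _)).symm, ← red_sum _ fun u _ => mul_mem (hy u) (hf _)]
      simp only [div_mul_eq_mul_div, ← Finset.sum_div, h v, zero_div, red_zero]⟩)
    fun e => by simpa [hx, red_one] using congrFun (congrArg Subtype.val e) x
  have h3 : ∀ u, w.1 u = w.1 1 := fun u => ((congrFun (congrArg Subtype.val (h2 u)) u).symm.trans
    (congrArg w.1 (inv_mul_cancel u)))
  have h4 := w.2 1
  simp only [h3, mul_one, ← Finset.mul_sum, mul_eq_zero] at h4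
  rcases h4 with h4 | h4
  · exact h1 (Subtype.ext (funext fun u => (h3 u).trans h4))
  · rw [← Equiv.sum_comp (Equiv.inv Q), ← red_sum _ fun u _ => hf _, red_eq_zero_iff (sum_mem fun u _ => hf _)] at h4
    exact hs (by simpa using h4)

variable {G : Type*} [Group G] [Finite G] {H : Subgroup G} {χ : G → ℂ} {p n : ℕ} [hp : Fact p.Prime] (P : Sylow p G)
  (hTI : ∀ g : G, g ∉ normalizer ((P : Subgroup G) : Set G) → (P : Subgroup G) ⊓ MulAut.conj g • (P : Subgroup G) = ⊥)
  (hH : normalizer ((P : Subgroup G) : Set G) ≤ H)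
include hTI hH

theorem ti_mem {u g : G} (hu : u ∈ (P : Subgroup G)) (h1 : u ≠ 1) (h : g⁻¹ * u * g ∈ H) : g ∈ H := by
  obtain ⟨k, hk, e⟩ := ((Core.isSylowOf_top P).of_le (le_normalizer.trans hH) le_top).exists_conj_le
    (Q := zpowers (g⁻¹ * u * g)) (IsPGroup.iff_card.mpr (by
      obtain ⟨j, hj⟩ := IsPGroup.iff_orderOf.mp P.isPGroup' ⟨u, hu⟩
      exact ⟨j, by rw [Nat.card_zpowers, ← hj, orderOf_mk, ← MulAut.conj_inv_apply, MulEquiv.orderOf_eq]⟩))
    (zpowers_le.mpr h)
  have := hH (of_not_not fun a => h1 (mem_bot.mp ((hTI (g * k⁻¹) a).le (mem_inf.mpr ⟨hu, by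
    rw [mem_pointwise_smul_iff_inv_smul_mem]
    have := e (smul_mem_pointwise_smul _ _ _ (mem_zpowers _))
    simpa [mul_assoc] using this⟩))))
  simpa using H.mul_mem this hk

theorem ti_deg (h : IsIrrCharacter G χ) (h1 : χ ≠ fun _ => 1) (hi : inn H χ (fun _ => 1) ≠ 0) (hn : χ 1 = n) :
    Nat.card P ≤ n := by
  classical
  have := Fintype.ofFinite G
  obtain ⟨M, hM⟩ := exists_isPModular hp.out
  have h2 := classInner_isIrr_ne h isIrr_one h1
  obtain ⟨m, ρ, hρ, rfl⟩ := h
  rw [classInner_character_one, Nat.cast_eq_zero, Submodule.finrank_eq_zero] at h2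
  rw [inn_eq] at hi
  have h3 := classInner_character_one (G := H) (ρ.comp H.subtype)
  obtain ⟨w, hw, h0⟩ := Submodule.exists_mem_ne_zero_of_ne_bot (p := Representation.invariants (ρ.comp H.subtype))
    fun e => hi (h3.trans (by simp [e]))
  let F : G ⧸ H → Fin m → ℂ := fun x => ρ x.out w
  have F1 : ∀ g : G, F g = ρ g w := fun g => by
    obtain ⟨k, hk⟩ := QuotientGroup.mk_out_eq_mul H g
    simp only [F, hk, map_mul, Module.End.mul_apply]; exact congrArg _ (hw k)
  have F2 : ∀ (g : G) x, F (g • x) = ρ g (F x) := fun g x => by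
    obtain ⟨y, rfl⟩ := QuotientGroup.mk_surjective x
    rw [MulAction.Quotient.smul_mk, F1, F1, smul_eq_mul, map_mul]; rfl
  have F3 : ∑ x, F x = 0 := (Submodule.mem_bot ℂ).mp (h2.le fun g => by
    rw [map_sum, eq_comm, ← Equiv.sum_comp (MulAction.toPerm g)]; simp [F2])
  obtain ⟨i, hi⟩ := Function.ne_iff.mp h0
  obtain ⟨y, y1, y2⟩ := exists_max_val M (a := fun x => F x i) fun e => hi (by simpa [F1] using congrFun e (1 : G))
  obtain ⟨g, rfl⟩ := QuotientGroup.mk_surjective y
  obtain ⟨x, hx⟩ : ∃ x, ¬ val M (∑ u : P, F (g • (u : G) • x) i / F g i) < 1 := by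
    by_contra! hc
    have := sum_mem_of_free (Q := (P : Subgroup G)) (fun x => F (g • x) i / F g i) ((val M).ltAddSubgroup 1)
      (Finset.univ.erase ((1 : G) : G ⧸ H)) (fun u x hx => ?_) (fun u x hx e => ?_) fun x _ => hc x
    · rw [Finset.sum_erase_eq_sub (Finset.mem_univ _), ← Finset.sum_div, ← Finset.sum_apply i _ fun x => F (g • x),
        show ∑ x, F (g • x) = 0 by simp [F2, ← map_sum, F3]] at this
      simp [y1, Valuation.mem_ltAddSubgroup_iff] at this
    · simp only [Finset.mem_erase, Finset.mem_univ, and_true] at hx ⊢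
      refine fun e => hx ((inv_smul_smul u x).symm.trans ?_)
      rw [e]; exact QuotientGroup.eq.mpr (by simpa using hH (le_normalizer u.2))
    · obtain ⟨z, rfl⟩ := QuotientGroup.mk_surjective x
      by_contra a
      refine (Finset.mem_erase.mp hx).1 (QuotientGroup.eq.mpr ?_)
      have : (u * z)⁻¹ * z ∈ H := QuotientGroup.eq.mp e
      simpa using ti_mem P hTI hH u.2 (fun b => a (Subtype.ext b)) (by simpa [mul_assoc] using H.inv_mem this)
  have li : LinearIndependent ℂ fun u : P => (LinearMap.proj i : (Fin m → ℂ) →ₗ[ℂ] ℂ) ∘ₗ ρ (g * (u : G)⁻¹) :=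
    Fintype.linearIndependent_iff.mpr fun a ha => congrFun (eq_zero_of_conv hM P.isPGroup' (fun u => y2 _) hx fun v => by
      have := LinearMap.congr_fun ha (F ((v : G) • x))
      simp only [LinearMap.sum_apply, LinearMap.smul_apply, LinearMap.comp_apply, LinearMap.proj_apply, ← F2] at this
      simp only [← mul_div_assoc, ← Finset.sum_div, div_eq_zero_iff]
      exact Or.inl (by convert this using 4 <;> simp [mul_smul]))
  have := li.fintype_card_le_finrank
  rw [Subspace.dual_finrank_eq, ← Nat.card_eq_fintype_card] at this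
  rwa [Representation.char_one, Nat.cast_inj.mp hn] at *

theorem ti_inn (h : IsCharacter G χ) (hn : χ 1 = n) (hd : n ^ 2 ≤ Nat.card P) : inn H χ χ = inn ⊤ χ χ := by
  have h1 := chr_top.mpr h
  have h2 := h1.mul h1.cnj
  have h3 := h2.sub_mult irr_one
  obtain ⟨m, hm⟩ := h1.inn_nat h1
  rw [← inn_eq_mul_one, hm] at h3
  have key : inn H ((χ * fun x => conj (χ x)) - (m : ℂ) • fun _ => 1) (fun _ => 1) = 0 := by
    by_contra h4
    obtain ⟨ζ, a, b, c⟩ := h3.inv.exists_between le_top h4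
    obtain ⟨d, d0, hd'⟩ := a.deg
    have e := ti_deg P hTI hH (irr_top.mp a) (by
      rintro rfl; exact b (by rw [inn_sub_left, ← inn_eq_mul_one, hm, inn_smul_left, a.inn_self]; simp)) c hd'
    obtain ⟨k, hk⟩ := h3.deg
    have e2 := h3.deg_le a b hk hd'
    have e3 : k + m = n ^ 2 := by
      simp only [Pi.sub_apply, Pi.mul_apply, hn, map_natCast, Pi.smul_apply, smul_eq_mul, mul_one] at hk
      exact_mod_cast (by rw [← hk]; ring : (k + m : ℂ) = n ^ 2)
    have e4 := (inn_self_eq_zero.mp (hm.trans (by rw [show m = 0 by omega, Nat.cast_zero]))).one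
    rw [hn, Pi.zero_apply, Nat.cast_eq_zero] at e4
    subst e4; omega
  rw [inn_sub_left, ← inn_eq_mul_one, inn_smul_left, irr_one.inn_self, sub_eq_zero] at key
  rw [key, hm, mul_one]

theorem ti_irr (h : Irr ⊤ χ) (hn : χ 1 = n) (hd : n ^ 2 ≤ Nat.card P) : Irr H χ :=
  (h.chr.res le_top).irr ((ti_inn P hTI hH (chr_top.mp h.chr) hn hd).trans h.inn_self)

theorem ti_central (h : IsCharacter G χ) (hf : ∀ g, χ g = χ 1 → g = 1) (hn : χ 1 = n) (hd : n ^ 2 ≤ Nat.card P)
    {z : G} (hz : z ∈ H) (hc : ∀ g ∈ H, ⁅g, z⁆ = 1) : z ∈ center G := by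
  have h1 := chr_top.mpr h
  have : Ker ⁅⊤, zpowers z⁆ χ := h1.inv.ker_of le_top fun ψ a b => by
    obtain ⟨d, -, e⟩ := a.deg
    have c := (ti_irr P hTI hH a e ((Nat.pow_le_pow_left (h1.deg_le a b hn e) 2).trans hd))
    refine a.chr.ker_kerS.mono (commutator_le.mpr fun g _ y hy => a.chr.mem_kerS.mpr ⟨mem_top _, ?_⟩)
    obtain ⟨k, rfl⟩ := hy
    exact a.chr.comm_of_norm (mem_top _) (mem_top _) (c.norm_of_comm (H.zpow_mem hz k) fun g hg => by
      rw [((commutatorElement_eq_one_iff_commute.mp (hc g hg)).zpow_right k).commutator_eq])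
  exact mem_center_iff.mpr fun g => commutatorElement_eq_one_iff_mul_comm.mp
    (hf _ (this _ (commutator_mem_commutator (mem_top g) (mem_zpowers z))))

end Cfsg.Agent.Isaacs
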